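import Cfsg.Agent.H23.Vn0

/-! Piece `PG` for S4805: the structure of `G' / K` when `G' ∖ K` is a conjugacy class. -/
set_option autoImplicit false
namespace H5.VnG
open Subgroup H23.Vn
open scoped commutatorElement
universe u

theorem cm {Q : Type*} [Group Q] (a b : Q) : ⁅a, b⁆ ∈ commutator Q := commutator_mem_commutator (mem_top a) (mem_top b)

theorem quo {Q : Type*} [Group Q] [Finite Q] {g : Q} {p : ℕ} (hp : p.Prime) (h2 : p ≠ 2) (hg : g ∈ commutator Q)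
    (g1 : g ≠ 1) (hc : ∀ h ∈ commutator Q, h ≠ 1 → IsConj g h) (he : ∀ h ∈ commutator Q, h ^ p = 1)
    (hw : ∀ w : Q, (∀ x : Q, ⁅w, x⁆ = 1) → w ∈ commutator Q) :
    (∀ t, t * g * t⁻¹ = g⁻¹ → ∀ h ∈ commutator Q, t * h * t⁻¹ = h⁻¹) ∧
      ∀ u, ∀ x ∈ commutator Q, x ≠ 1 → u * x * u⁻¹ = x → u ∈ commutator Q := by
  haveI := Fact.mk hp
  have nm : ∀ s, ∀ h ∈ commutator Q, s * h * s⁻¹ ∈ commutator Q := fun s h hh => Normal.conj_mem inferInstance h hh s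
  have ab : ∀ a ∈ commutator Q, ∀ b ∈ commutator Q, a * b * a⁻¹ = b := by
    have hP : IsPGroup p (commutator Q) := fun x => ⟨1, Subtype.ext (by simpa using he x x.2)⟩
    haveI : Nontrivial (commutator Q) := ⟨⟨⟨g, hg⟩, 1, fun e => g1 (congrArg Subtype.val e)⟩⟩
    obtain ⟨⟨z, hz⟩, z1⟩ := @exists_ne _ hP.center_nontrivial 1
    intro a ha b hb
    by_cases b1 : b = 1
    · simp [b1]
    obtain ⟨s, rfl⟩ := isConj_iff.1 ((hc z z.2 fun e => z1 (Subtype.ext (Subtype.ext e))).symm.trans (hc b hb b1))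
    have := congrArg Subtype.val (mem_center_iff.1 hz ⟨s⁻¹ * a * s⁻¹⁻¹, nm _ a ha⟩)
    simp only [coe_mul] at this
    calc _ = s * (s⁻¹ * a * s⁻¹⁻¹ * z) * s⁻¹ * a⁻¹ := by group
      _ = _ := by rw [this]; group
  have tr : ∀ u s x y : Q, y ∈ commutator Q → u * x * u⁻¹ = y → u * (s * x * s⁻¹) * u⁻¹ = s * y * s⁻¹ :=
    fun u s x y hy e => by
      rw [← ab _ (cm u s) _ (nm s y hy), ← e, commutatorElement_def]; group
  have h1 : ∀ t, t * g * t⁻¹ = g⁻¹ → ∀ h ∈ commutator Q, t * h * t⁻¹ = h⁻¹ := fun t e h hh => by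
    by_cases b1 : h = 1
    · simp [b1]
    obtain ⟨s, rfl⟩ := isConj_iff.1 (hc h hh b1)
    rw [tr t s g _ (inv_mem hg) e]; group
  refine ⟨h1, fun u x hx x1 e => ?_⟩
  have uc : ∀ h ∈ commutator Q, u * h * u⁻¹ = h := fun h hh => by
    by_cases b1 : h = 1
    · simp [b1]
    obtain ⟨s, rfl⟩ := isConj_iff.1 ((hc x hx x1).symm.trans (hc h hh b1))
    exact tr u s x x hx e
  obtain ⟨t, ht⟩ := isConj_iff.1 (hc g⁻¹ (inv_mem hg) (inv_ne_one.2 g1))
  obtain ⟨j, hj⟩ := hp.odd_of_ne_two h2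
  have hh := cm t u
  have hk := pow_mem hh (j + 1)
  have w1 : t * (⁅t, u⁆ ^ (j + 1) * u) * t⁻¹ = ⁅t, u⁆ ^ (j + 1) * u := by
    have := he _ hh
    rw [hj] at this
    have e1 : t * u * t⁻¹ = ⁅t, u⁆ * u := by rw [commutatorElement_def]; group
    have e2 := h1 t ht _ hk
    generalize ⁅t, u⁆ = c at this e1 e2
    calc _ = (t * c ^ (j + 1) * t⁻¹) * (t * u * t⁻¹) := by group
      _ = (c ^ (2 * j + 1))⁻¹ * c ^ (j + 1) * u := by rw [e1, e2]; group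
      _ = _ := by rw [this]; simp
  have w2 : ∀ h ∈ commutator Q, (⁅t, u⁆ ^ (j + 1) * u) * h * (⁅t, u⁆ ^ (j + 1) * u)⁻¹ = h := fun h hm => by
    calc _ = ⁅t, u⁆ ^ (j + 1) * (u * h * u⁻¹) * (⁅t, u⁆ ^ (j + 1))⁻¹ := by group
      _ = h := by rw [uc h hm, ab _ hk _ hm]
  rw [← mul_mem_cancel_left hk]
  generalize ⁅t, u⁆ ^ (j + 1) * u = w at w1 w2
  refine hw w fun s => ?_
  have c1 : t * (s * w * s⁻¹) * t⁻¹ = s * w * s⁻¹ := by
    have := w2 _ (nm s⁻¹ _ (cm t s))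
    calc _ = s * (s⁻¹ * ⁅t, s⁆ * s⁻¹⁻¹) * (t * w * t⁻¹) * (s⁻¹ * ⁅t, s⁆ * s⁻¹⁻¹)⁻¹ * s⁻¹ := by
          rw [commutatorElement_def]; group
      _ = _ := by rw [w1]; nth_rw 1 [← this]; group
  have c2 : ⁅s, w⁆⁻¹ = ⁅s, w⁆ := by
    rw [← h1 t ht _ (cm s w), commutatorElement_def]
    calc _ = t * (s * w * s⁻¹) * t⁻¹ * (t * w * t⁻¹)⁻¹ := by group
      _ = _ := by rw [c1, w1]
  have c3 := he _ (cm s w)
  rw [hj, pow_succ, pow_mul, sq] at c3
  nth_rw 1 [← c2] at c3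
  rw [← commutatorElement_inv, inv_eq_one]
  simpa only [inv_mul_cancel, one_pow, one_mul] using c3

theorem pG : PG.{u} := by
  intro G _ _ K _ g hK hg gK hc hw
  let π := QuotientGroup.mk' K
  have k1 : ∀ a, π a = 1 ↔ a ∈ K := fun a => QuotientGroup.eq_one_iff a
  have mp : (commutator G).map π = commutator (G ⧸ K) := by
    rw [commutator_def, map_commutator, map_top_of_surjective _ (QuotientGroup.mk'_surjective K)]; rfl
  have mm : ∀ a, π a ∈ commutator (G ⧸ K) ↔ a ∈ commutator G := fun a => by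
    rw [← mp, ← mem_comap, comap_map_eq_self (by rwa [QuotientGroup.ker_mk'])]
  have g1 : π g ≠ 1 := fun e => gK ((k1 g).1 e)
  obtain ⟨p, hp, n, hn⟩ := Nat.exists_prime_and_dvd (n := orderOf (π g)) (by simpa using g1)
  have n0 : 0 < n := Nat.pos_of_ne_zero (by rintro rfl; exact (orderOf_pos (π g)).ne' hn)
  have he : ∀ h ∈ commutator G, h ^ p ∈ K := fun h hh => by
    by_cases hk : h ∈ K
    · exact pow_mem hk p
    have a1 : g ^ n ∉ K := fun e => by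
      rw [← k1, map_pow] at e
      have := Nat.le_of_dvd n0 (orderOf_dvd_of_pow_eq_one e)
      have := hp.two_le
      nlinarith
    have a2 : (g ^ n) ^ p ∈ K := by rw [← k1, ← pow_mul, map_pow, mul_comm, ← hn, pow_orderOf_eq_one]
    obtain ⟨s, rfl⟩ := isConj_iff.1 ((hc _ (pow_mem hg n) a1).symm.trans (hc h hh hk))
    rw [conj_pow]
    exact Normal.conj_mem inferInstance _ a2 s
  refine ⟨p, hp, he, fun h hh hk => ?_, fun h2 => ?_⟩
  · obtain ⟨k, m, hm, e⟩ := Nat.exists_eq_pow_mul_and_not_dvd (orderOf_pos g).ne' p hp.ne_one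
    have a1 : g ^ m ∉ K := fun e => by
      have a2 := he g hg
      rw [← k1, map_pow] at e a2
      refine g1 (orderOf_eq_one_iff.1 (Nat.eq_one_of_dvd_coprimes ((Nat.Prime.coprime_iff_not_dvd hp).2 hm)
        (orderOf_dvd_of_pow_eq_one a2) (orderOf_dvd_of_pow_eq_one e)))
    obtain ⟨s, rfl⟩ := isConj_iff.1 ((hc _ (pow_mem hg m) a1).symm.trans (hc h hh hk))
    exact ⟨k, by rw [conj_pow, ← pow_mul, mul_comm m, ← e, pow_orderOf_eq_one]; simp⟩
  obtain ⟨q1, q2⟩ := quo hp h2 ((mm g).2 hg) g1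
    (fun h hh h1 => by
      obtain ⟨h, rfl⟩ := QuotientGroup.mk'_surjective K h
      exact π.map_isConj (hc h ((mm h).1 hh) fun e => h1 ((k1 h).2 e)))
    (fun h hh => by
      obtain ⟨h, rfl⟩ := QuotientGroup.mk'_surjective K h
      rw [← map_pow]; exact (k1 _).2 (he h ((mm h).1 hh)))
    (fun w h => by
      obtain ⟨w, rfl⟩ := QuotientGroup.mk'_surjective K w
      exact (mm w).2 (hw w fun x => (k1 _).1 (by rw [map_commutatorElement]; exact h _)))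
  obtain ⟨t, ht⟩ := isConj_iff.1 (hc g⁻¹ (inv_mem hg) fun e => gK (inv_mem_iff.1 e))
  obtain ⟨k, m, hm, e⟩ := Nat.exists_eq_pow_mul_and_not_dvd (orderOf_pos t).ne' 2 (by decide)
  obtain ⟨j, rfl⟩ := Nat.odd_iff.2 (Nat.two_dvd_ne_zero.1 hm)
  have c1 : Commute (t ^ 2) g := by
    rw [Commute, SemiconjBy, ← mul_inv_eq_iff_eq_mul]
    calc _ = t * (t * g * t⁻¹) * t⁻¹ := by rw [sq]; group
      _ = t * g⁻¹ * t⁻¹ := by rw [ht]
      _ = (t * g * t⁻¹)⁻¹ := by group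
      _ = g := by rw [ht, inv_inv]
  have c2 : t ^ (2 * j + 1) * g * (t ^ (2 * j + 1))⁻¹ = g⁻¹ := by
    rw [pow_succ', pow_mul, mul_assoc t, (c1.pow_left j).eq, ← ht]; group
  have c3 : π (t ^ (2 * j + 1)) * π g * (π (t ^ (2 * j + 1)))⁻¹ = (π g)⁻¹ := by
    rw [← map_inv, ← map_inv, ← map_mul, ← map_mul, c2]
  refine ⟨t ^ (2 * j + 1), k, by rw [← pow_mul, mul_comm, ← e, pow_orderOf_eq_one], ?_, fun h hh => ?_,
    fun x hx xK y hy => ?_⟩
  · refine (mm _).1 (q2 _ _ ((mm g).2 hg) g1 ?_)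
    rw [map_mul]
    generalize π (t ^ (2 * j + 1)) = a at c3
    calc _ = a * (a * π g * a⁻¹) * a⁻¹ := by group
      _ = a * (π g)⁻¹ * a⁻¹ := by rw [c3]
      _ = (a * π g * a⁻¹)⁻¹ := by group
      _ = _ := by rw [c3, inv_inv]
  · rw [← k1, map_mul, map_mul, map_mul, map_inv, q1 _ c3 _ ((mm h).2 hh), inv_mul_cancel]
  · obtain ⟨u, hu⟩ := isConj_iff.1 ((hc x hx xK).symm.trans
      (hc (x * y) (mul_mem hx (hK hy)) fun e => xK ((mul_mem_cancel_right hy).1 e)))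
    refine ⟨u, (mm u).1 (q2 _ _ ((mm x).2 hx) (fun e => xK ((k1 x).1 e)) ?_), hu⟩
    rw [← map_inv, ← map_mul, ← map_mul, hu, map_mul, (k1 y).2 hy, mul_one]

end H5.VnG
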