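import Mathlib

/-! Class numbers of permutation groups: `k(G) * 2 ^ (number of orbits) ≤ 2 ^ degree`,
by an induction along the cycles of an element. -/

namespace Cfsg.Agent.H5.KP

open MulAction

variable {G : Type*} [Group G] {α : Type*} [MulAction G α]

/-- pointwise stabiliser of a finite set -/
def pw (G : Type*) [Group G] {α : Type*} [MulAction G α] (D : Finset α) : Subgroup G where
  carrier := {g | ∀ d ∈ D, g • d = d}
  mul_mem' := by
    intro a b ha hb d hd
    rw [mul_smul, hb d hd, ha d hd]
  one_mem' := by intro d _; simp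
  inv_mem' := by
    intro a ha d hd
    rw [inv_smul_eq_iff, ha d hd]

theorem mem_pw {D : Finset α} {g : G} : g ∈ pw G D ↔ ∀ d ∈ D, g • d = d := Iff.rfl

/-- number of orbits -/
noncomputable def no (α : Type*) [MulAction G α] (H : Subgroup G) : ℕ :=
  Nat.card (orbitRel.Quotient H α)

theorem rel_iff (H : Subgroup G) (a b : α) :
    (orbitRel H α) a b ↔ ∃ h ∈ H, h • b = a := by
  rw [orbitRel_apply, mem_orbit_iff]
  constructor
  · rintro ⟨h, hh⟩
    exact ⟨h, h.2, hh⟩
  · rintro ⟨h, h1, h2⟩
    exact ⟨⟨h, h1⟩, h2⟩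

theorem no_le [Finite α] (H : Subgroup G) : no α H ≤ Nat.card α :=
  Nat.card_le_card_of_surjective _ (Quotient.mk''_surjective (s₁ := orbitRel H α))

theorem no_pos [Finite α] [Nonempty α] (H : Subgroup G) : 0 < no α H := by
  haveI : Nonempty (orbitRel.Quotient H α) := ⟨Quotient.mk'' (Classical.arbitrary α)⟩
  exact Nat.card_pos

theorem no_conj [DecidableEq α] (D : Finset α) (g : G) :
    no α (pw G (D.image (fun d => g • d))) = no α (pw G D) := by
  symm
  apply Nat.card_congr
  refine Quotient.congr (MulAction.toPerm g) ?_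
  intro a b
  rw [rel_iff, rel_iff]
  simp only [MulAction.toPerm_apply]
  constructor
  · rintro ⟨h, h1, h2⟩
    refine ⟨g * h * g⁻¹, ?_, ?_⟩
    · intro d hd
      obtain ⟨e, he, rfl⟩ := Finset.mem_image.1 hd
      simp [mul_smul, h1 e he]
    · simp [mul_smul, h2]
  · rintro ⟨h, h1, h2⟩
    refine ⟨g⁻¹ * h * g, ?_, ?_⟩
    · intro d hd
      have := h1 (g • d) (Finset.mem_image.2 ⟨d, hd, rfl⟩)
      simp [mul_smul, this]
    · simp [mul_smul, h2]

/-- the map between orbit spaces -/
def up {K L : Subgroup G} (h : K ≤ L) : orbitRel.Quotient K α → orbitRel.Quotient L α :=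
  Quotient.map' id (by
    intro a b hab
    rw [rel_iff] at hab
    obtain ⟨k, h1, h2⟩ := hab
    exact (rel_iff L _ _).2 ⟨k, h h1, h2⟩)

theorem up_mk {K L : Subgroup G} (h : K ≤ L) (a : α) :
    up (α := α) h (Quotient.mk'' a) = Quotient.mk'' a := rfl

open Classical in
theorem no_refine [Fintype α] {K L : Subgroup G} (h : K ≤ L) (c : orbitRel.Quotient L α) :
    no α L + (Finset.univ.filter (fun q => up (α := α) h q = c)).card ≤ no α K + 1 := by
  have h1 := Finset.card_filter_add_card_filter_not (s := Finset.univ)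
    (fun q => up (α := α) h q = c)
  have h2 : (Finset.univ.erase c).card ≤
      (Finset.univ.filter (fun q => ¬ up (α := α) h q = c)).card := by
    apply Finset.card_le_card_of_surjOn (up (α := α) h)
    intro e he
    obtain ⟨a, rfl⟩ := Quotient.mk''_surjective e
    refine ⟨Quotient.mk'' a, ?_, rfl⟩
    simp only [Finset.coe_erase, Set.mem_diff, Set.mem_singleton_iff] at he
    simp only [Finset.coe_filter, Finset.mem_univ, true_and, Set.mem_setOf_eq]
    exact he.2
  rw [Finset.card_erase_of_mem (Finset.mem_univ _)] at h2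
  simp only [Finset.card_univ] at h1 h2
  unfold no
  rw [Nat.card_eq_fintype_card, Nat.card_eq_fintype_card]
  omega

theorem two_mul_le (r : ℕ) : 2 * r ≤ 2 ^ r := by
  rcases r with _ | r
  · simp
  · have := Nat.lt_two_pow_self (n := r)
    rw [pow_succ]; omega

/-- the covering statement -/
def Cov (D : Finset α) (g : G) (a : α) (T : Finset G) : Prop :=
  ∀ x : G, (∀ d ∈ D, x • d = g • d) → ∃ y ∈ T, ∃ k ∈ pw G D, k • a = a ∧ x = k * y * k⁻¹

theorem main [Fintype α] [DecidableEq α] (hf : ∀ g : G, (∀ a : α, g • a = a) → g = 1) (n : ℕ) :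
    ∀ (D : Finset α), Dᶜ.card = n → ∀ (g : G) (a : α), (∀ d ∈ D, g • d ∈ D ∨ g • d = a) →
      ∃ T : Finset G, T.card * 2 ^ no α (pw G D) ≤ 2 ^ Fintype.card α ∧ Cov D g a T := by
  classical
  induction n with
  | zero =>
    intro D hD g a _
    have hD' : D = Finset.univ := by
      rw [Finset.card_eq_zero] at hD
      simpa using hD
    refine ⟨{g}, ?_, ?_⟩
    · rw [Finset.card_singleton, one_mul]
      apply Nat.pow_le_pow_right (by norm_num)
      rw [← Nat.card_eq_fintype_card]
      exact no_le _
    · intro x hx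
      refine ⟨g, by simp, 1, one_mem _, by simp, ?_⟩
      have : g⁻¹ * x = 1 := by
        apply hf
        intro b
        rw [mul_smul, hx b (by simp [hD']), inv_smul_smul]
      rw [one_mul, inv_one, mul_one]
      exact (inv_mul_eq_one.1 this).symm
  | succ n ih =>
    intro D hD
    have key : ∀ (g : G) (a : α), a ∉ D → (∀ d ∈ D, g • d ∈ D ∨ g • d = a) →
        ∃ T : Finset G, T.card * 2 ^ no α (pw G D) ≤ 2 ^ Fintype.card α ∧ Cov D g a T := by
      intro g a ha hg
      have hD1 : (insert a D)ᶜ.card = n := by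
        rw [Finset.compl_insert, Finset.card_erase_of_mem (by simpa using ha), hD]
        rfl
      have hgD : ∀ d ∈ D, g • d ∈ insert a D := by
        intro d hd
        rcases hg d hd with h | h
        · exact Finset.mem_insert_of_mem h
        · rw [h]; exact Finset.mem_insert_self _ _
      have hKL : pw G (insert a D) ≤ pw G (D.image (fun d => g • d)) := by
        intro k hk d hd
        obtain ⟨e, he, rfl⟩ := Finset.mem_image.1 hd
        exact hk _ (hgD e he)
      set S := Finset.univ.filter
        (fun q => up (α := α) hKL q = Quotient.mk'' (g • a)) with hS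
      have hq : ∀ q ∈ S, ∃ T : Finset G,
          T.card * 2 ^ no α (pw G (insert a D)) ≤ 2 ^ Fintype.card α ∧
          ∀ x : G, (∀ d ∈ D, x • d = g • d) → Quotient.mk'' (x • a) = q →
            ∃ y ∈ T, ∃ k ∈ pw G (insert a D), x = k * y * k⁻¹ := by
        intro q hq
        obtain ⟨b, rfl⟩ := Quotient.mk''_surjective q
        have h1 : (Quotient.mk'' b : orbitRel.Quotient (pw G (D.image (fun d => g • d))) α) =
            Quotient.mk'' (g • a) := (Finset.mem_filter.1 hq).2
        obtain ⟨l, hl, hlb⟩ := (rel_iff _ _ _).1 (Quotient.eq''.1 h1)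
        have hlg : ∀ d ∈ D, (l * g) • d = g • d := by
          intro d hd
          rw [mul_smul]
          exact hl _ (Finset.mem_image.2 ⟨d, hd, rfl⟩)
        obtain ⟨T, hT1, hT2⟩ := ih (insert a D) hD1 (l * g) b (by
          intro d hd
          rcases Finset.mem_insert.1 hd with rfl | hd
          · right; rw [mul_smul, hlb]
          · left; rw [hlg d hd]; exact hgD d hd)
        refine ⟨T, hT1, ?_⟩
        intro x hx hxa
        obtain ⟨k0, hk0, hk0b⟩ := (rel_iff _ _ _).1 (Quotient.eq''.1 hxa)
        obtain ⟨y, hy, k, hk, -, hxy⟩ := hT2 (k0⁻¹ * x * k0) (by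
          intro d hd
          rw [mul_smul, mul_smul, hk0 d hd]
          rcases Finset.mem_insert.1 hd with rfl | hd
          · rw [← hk0b, inv_smul_smul, mul_smul, hlb]
          · rw [hlg d hd, hx d hd]
            exact (pw G _).inv_mem hk0 _ (hgD d hd))
        refine ⟨y, hy, k0 * k, mul_mem hk0 hk, ?_⟩
        have : x = k0 * (k0⁻¹ * x * k0) * k0⁻¹ := by group
        rw [this, hxy]; group
      choose! Tq hT1 hT2 using hq
      refine ⟨S.biUnion Tq, ?_, ?_⟩
      · have h1 : (S.biUnion Tq).card * 2 ^ no α (pw G (insert a D)) ≤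
            S.card * 2 ^ Fintype.card α := by
          calc _ ≤ (∑ q ∈ S, (Tq q).card) * 2 ^ no α (pw G (insert a D)) :=
                Nat.mul_le_mul_right _ Finset.card_biUnion_le
            _ = ∑ q ∈ S, (Tq q).card * 2 ^ no α (pw G (insert a D)) := Finset.sum_mul _ _ _
            _ ≤ ∑ q ∈ S, 2 ^ Fintype.card α := Finset.sum_le_sum hT1
            _ = _ := by simp
        have h2 := no_refine (α := α) hKL (Quotient.mk'' (g • a))
        rw [no_conj] at h2
        have h2' : no α (pw G D) + S.card ≤ no α (pw G (insert a D)) + 1 := by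
          convert h2
        have h3 := two_mul_le S.card
        have h4 : 2 ^ (no α (pw G D) + S.card) ≤ 2 ^ (no α (pw G (insert a D)) + 1) :=
          Nat.pow_le_pow_right (by norm_num) h2'
        rw [pow_add, pow_succ] at h4
        have h5 : 0 < 2 ^ S.card := by positivity
        apply Nat.le_of_mul_le_mul_right _ h5
        calc (S.biUnion Tq).card * 2 ^ no α (pw G D) * 2 ^ S.card
            = (S.biUnion Tq).card * (2 ^ no α (pw G D) * 2 ^ S.card) := by ring
          _ ≤ (S.biUnion Tq).card * (2 ^ no α (pw G (insert a D)) * 2) :=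
              Nat.mul_le_mul_left _ h4
          _ = ((S.biUnion Tq).card * 2 ^ no α (pw G (insert a D))) * 2 := by ring
          _ ≤ (S.card * 2 ^ Fintype.card α) * 2 := Nat.mul_le_mul_right _ h1
          _ = 2 ^ Fintype.card α * (2 * S.card) := by ring
          _ ≤ _ := Nat.mul_le_mul_left _ h3
      · intro x hx
        have hmem : (Quotient.mk'' (x • a) : orbitRel.Quotient (pw G (insert a D)) α) ∈ S := by
          rw [hS, Finset.mem_filter]
          refine ⟨Finset.mem_univ _, ?_⟩
          rw [up_mk]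
          apply Quotient.eq''.2
          rw [rel_iff]
          refine ⟨x * g⁻¹, ?_, by simp [mul_smul]⟩
          intro d hd
          obtain ⟨e, he, rfl⟩ := Finset.mem_image.1 hd
          simp [mul_smul, hx e he]
        obtain ⟨y, hy, k, hk, hxy⟩ := hT2 _ hmem x hx rfl
        refine ⟨y, Finset.mem_biUnion.2 ⟨_, hmem, hy⟩, k, ?_, hk a (by simp), hxy⟩
        intro d hd
        exact hk d (Finset.mem_insert_of_mem hd)
    intro g a hg
    by_cases ha : a ∈ D
    · obtain ⟨a', ha'⟩ : Dᶜ.Nonempty := by
        rw [← Finset.card_pos, hD]; omega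
      obtain ⟨T, hT1, hT2⟩ := key g a' (by simpa using ha') (by
        intro d hd
        left
        rcases hg d hd with h | h
        · exact h
        · rw [h]; exact ha)
      refine ⟨T, hT1, ?_⟩
      intro x hx
      obtain ⟨y, hy, k, hk, -, hxy⟩ := hT2 x hx
      exact ⟨y, hy, k, hk, hk a ha, hxy⟩
    · exact key g a ha hg

theorem card_le_of_cov (T : Finset G) (h : ∀ x : G, ∃ y ∈ T, ∃ k : G, x = k * y * k⁻¹) :
    Nat.card (ConjClasses G) ≤ T.card := by
  have : Function.Surjective (fun y : T => ConjClasses.mk (y : G)) := by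
    intro c
    obtain ⟨x, rfl⟩ := ConjClasses.mk_surjective c
    obtain ⟨y, hy, k, hk⟩ := h x
    refine ⟨⟨y, hy⟩, ?_⟩
    apply ConjClasses.mk_eq_mk_iff_isConj.2
    rw [isConj_iff]
    exact ⟨k, hk.symm⟩
  have h2 := Nat.card_le_card_of_surjective _ this
  simpa using h2

theorem bound [Fintype α] [DecidableEq α] (hf : ∀ g : G, (∀ a : α, g • a = a) → g = 1) :
    Nat.card (ConjClasses G) ≤ 2 ^ (Fintype.card α - 1) := by
  rcases isEmpty_or_nonempty α with he | hne
  · have : Nat.card (ConjClasses G) ≤ ({1} : Finset G).card := by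
      apply card_le_of_cov
      intro x
      exact ⟨1, by simp, 1, by simpa using hf x (fun a => he.elim a)⟩
    exact this.trans (by simpa using Nat.one_le_two_pow)
  · obtain ⟨a⟩ := hne
    haveI : Nonempty α := ⟨a⟩
    obtain ⟨T, hT1, hT2⟩ := main hf _ (∅ : Finset α) rfl (1 : G) a (by simp)
    have h1 : Nat.card (ConjClasses G) ≤ T.card := by
      apply card_le_of_cov
      intro x
      obtain ⟨y, hy, k, -, -, hxy⟩ := hT2 x (by simp)
      exact ⟨y, hy, k, hxy⟩
    have h2 := no_pos (α := α) (pw G (∅ : Finset α))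
    have h3 : 2 ^ 1 ≤ 2 ^ no α (pw G (∅ : Finset α)) := Nat.pow_le_pow_right (by norm_num) h2
    have h4 : 0 < Fintype.card α := Fintype.card_pos
    obtain ⟨m, hm⟩ : ∃ m, Fintype.card α = m + 1 := ⟨Fintype.card α - 1, by omega⟩
    rw [hm] at hT1 ⊢
    rw [pow_succ] at hT1
    simp only [Nat.add_sub_cancel]
    have : T.card * 2 ≤ 2 ^ m * 2 := le_trans (Nat.mul_le_mul_left _ h3) hT1
    omega

theorem perm_bound {α : Type*} [Fintype α] [DecidableEq α] (S : Subgroup (Equiv.Perm α)) :
    Nat.card (ConjClasses S) ≤ 2 ^ (Fintype.card α - 1) := by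
  apply bound
  intro g hg
  ext a
  exact hg a

end Cfsg.Agent.H5.KP
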