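import Cfsg.Agent.H9.Glaub
import Cfsg.Agent.H1.Cores

/-! Doubly transitive groups with a regular cyclic subgroup of even order, a Z-group point stabiliser
and cyclic two-point stabiliser of even order: the involution of the two-point stabiliser fixes only two
points (`KZ.Cf.fix_two`) and the group is triply transitive (`KZ.Cf.three`). -/

set_option autoImplicit false
set_option linter.unusedSectionVars false

open Cfsg Subgroup MulAction
namespace H5.KZ
open scoped commutatorElement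

theorem cyc_inv {H : Type*} [Group H] [Finite H] [IsCyclic H] {s t : H} (hs : s * s = 1) (ht : t * t = 1)
    (h1 : t ≠ 1) : s = 1 ∨ s = t := by
  classical
  by_contra hc
  push Not at hc
  have := Fintype.ofFinite H
  have h := IsCyclic.card_pow_eq_one_le (α := H) (n := 2) (by norm_num)
  have h3 : ({1, s, t} : Finset H) ⊆ Finset.univ.filter (fun a : H => a ^ 2 = 1) := by
    intro x hx
    simp only [Finset.mem_insert, Finset.mem_singleton] at hx
    rcases hx with rfl | rfl | rfl <;> simp [pow_two, hs, ht]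
  have h4 : ({1, s, t} : Finset H).card = 3 := Finset.card_eq_three.2 ⟨1, s, t, hc.1.symm, h1.symm, hc.2, rfl⟩
  have := Finset.card_le_card h3
  omega

section Abs
variable {H : Type*} [CommGroup H] [Finite H] [IsCyclic H] (σ : H →* H) (P : H → Prop)

theorem par : ∃ u : H, σ u = u⁻¹ ∧ ∀ i, σ i = i⁻¹ → ∃ j, σ j = j⁻¹ ∧ (i = j * j ∨ i = u * (j * j)) := by
  let I : Subgroup H :=
    { carrier := {i | σ i = i⁻¹}
      mul_mem' := fun {a b} ha hb => by
        simp only [Set.mem_setOf_eq] at *; rw [map_mul, ha, hb, mul_inv]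
      one_mem' := by simp
      inv_mem' := fun {a} ha => by simp only [Set.mem_setOf_eq] at *; rw [map_inv, ha] }
  obtain ⟨u, hu⟩ := IsCyclic.exists_generator (α := I)
  refine ⟨u, u.2, fun i hi => ?_⟩
  obtain ⟨n, hn⟩ := hu ⟨i, hi⟩
  have hn' : (u : H) ^ n = i := by simpa using congrArg Subtype.val hn
  refine ⟨(u : H) ^ (n / 2), I.zpow_mem u.2 _, ?_⟩
  rcases Int.emod_two_eq_zero_or_one n with e | e
  · left; rw [← zpow_add, ← hn']; congr 1; omega
  · right; rw [← zpow_add, ← zpow_one_add, ← hn']; congr 1; omega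

variable {σ P}

theorem notP (hP : ∀ i k, P i → P (i * k * (σ k)⁻¹)) (h1 : ¬ P 1) {j : H} (hj : σ j = j⁻¹) : ¬ P (j * j) := by
  intro h
  have := hP _ j⁻¹ h
  rw [map_inv, hj] at this
  exact h1 (by simpa using this)

theorem absA (hP : ∀ i k, P i → P (i * k * (σ k)⁻¹)) (h1 : ¬ P 1) {i i' : H} (hi : σ i = i⁻¹)
    (hi' : σ i' = i'⁻¹) (p : P i) (p' : P i') : ∃ k, i' = i * k * (σ k)⁻¹ := by
  obtain ⟨u, -, hu⟩ := par σ
  obtain ⟨j, hj, e | e⟩ := hu i hi
  · exact absurd (e ▸ p) (notP hP h1 hj)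
  obtain ⟨j', hj', e' | e'⟩ := hu i' hi'
  · exact absurd (e' ▸ p') (notP hP h1 hj')
  refine ⟨j' * j⁻¹, ?_⟩
  rw [map_mul, map_inv, hj, hj', e, e']
  apply Additive.ofMul.injective
  simp only [ofMul_mul, ofMul_inv]; abel

theorem absB (hP : ∀ i k, P i → P (i * k * (σ k)⁻¹)) (h1 : ¬ P 1) {i0 : H} (hi : σ i0 = i0⁻¹) (p : P i0)
    {i : H} (hi' : σ i = i⁻¹) (np : ¬ P i) : ∃ j, σ j = j⁻¹ ∧ i = j * j := by
  obtain ⟨u, -, hu⟩ := par σ
  obtain ⟨j, hj, e | e⟩ := hu i0 hi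
  · exact absurd (e ▸ p) (notP hP h1 hj)
  obtain ⟨j', hj', e' | e'⟩ := hu i hi'
  · exact ⟨j', hj', e'⟩
  refine absurd ?_ np
  have := hP _ (j' * j⁻¹) p
  rw [map_mul, map_inv, hj, hj', e] at this
  convert this using 1
  rw [e']
  apply Additive.ofMul.injective
  simp only [ofMul_mul, ofMul_inv]; abel

theorem absC (hP : ∀ i k, P i → P (i * k * (σ k)⁻¹)) (h1 : ¬ P 1) (hσ : ∀ k, σ (σ k) = k) {i0 : H}
    (hi : σ i0 = i0⁻¹) (p : P i0) {t h : H} (t2 : t * t = 1) (t1 : t ≠ 1) (hh : σ h = h⁻¹) (e : t = h * h)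
    (k : H) : σ k * k ≠ t := by
  intro hk
  have ht : σ t = t⁻¹ := by rw [e, map_mul, hh, mul_inv]
  have np : ¬ P (k * (σ k)⁻¹) := fun q => h1 (by
    have := hP _ k⁻¹ q
    convert this using 1
    rw [map_inv]
    apply Additive.ofMul.injective
    simp only [ofMul_mul, ofMul_inv, ofMul_one]; abel)
  obtain ⟨j, hj, ej⟩ := absB hP h1 hi p (i := k * (σ k)⁻¹) (by
    rw [map_mul, map_inv, hσ, mul_inv, inv_inv, mul_comm]) np
  have e2 : (k * (j * h)⁻¹) * (k * (j * h)⁻¹) = 1 := by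
    have a1 : k * k = (j * j) * (h * h) := by
      rw [← ej, ← e, ← hk]
      apply Additive.ofMul.injective
      simp only [ofMul_mul, ofMul_inv]; abel
    have : (k * (j * h)⁻¹) * (k * (j * h)⁻¹) = (k * k) * ((j * j) * (h * h))⁻¹ := by
      apply Additive.ofMul.injective
      simp only [ofMul_mul, ofMul_inv]; abel
    rw [this, a1, mul_inv_cancel]
  have hk' : σ k = k⁻¹ := by
    rcases cyc_inv e2 t2 t1 with e3 | e3
    · rw [mul_inv_eq_one] at e3
      rw [e3, map_mul, hj, hh, mul_inv]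
    · rw [mul_inv_eq_iff_eq_mul] at e3
      rw [e3, map_mul, map_mul, ht, hj, hh, mul_inv, mul_inv]
  rw [hk', inv_mul_cancel] at hk
  exact t1 hk.symm
end Abs

theorem zg_inv {B : Type*} [Group B] [Finite B] [IsZGroup B] {g h : B} (h4 : h ^ 4 = 1)
    (e : g * h * g⁻¹ = h⁻¹) : h = h⁻¹ := by
  haveI : Fact (Nat.Prime 2) := ⟨Nat.prime_two⟩
  obtain ⟨k, m, hm, ho⟩ := Nat.exists_eq_two_pow_mul_odd (orderOf_pos g).ne'
  have e2 : ∀ n : ℕ, g ^ (2 * n + 1) * h * (g ^ (2 * n + 1))⁻¹ = h⁻¹ := by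
    intro n
    induction n with
    | zero => simpa using e
    | succ n ih =>
      have : g ^ (2 * (n + 1) + 1) * h * (g ^ (2 * (n + 1) + 1))⁻¹ =
          g * (g * (g ^ (2 * n + 1) * h * (g ^ (2 * n + 1))⁻¹) * g⁻¹) * g⁻¹ := by group
      rw [this, ih, show g * h⁻¹ * g⁻¹ = (g * h * g⁻¹)⁻¹ by group, e, inv_inv, e]
  obtain ⟨n, rfl⟩ := hm
  set y := g ^ (2 * n + 1) with hy
  have y2 : y ^ 2 ^ k = 1 := by rw [hy, ← pow_mul, mul_comm, ← ho, pow_orderOf_eq_one]
  have p1 : IsPGroup 2 (zpowers y) := IsPGroup.of_card_dvd_pow (n := k) (by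
    rw [Nat.card_zpowers]; exact orderOf_dvd_of_pow_eq_one y2)
  have p2 : IsPGroup 2 (zpowers h) := IsPGroup.of_card_dvd_pow (n := 2) (by
    rw [Nat.card_zpowers]; exact orderOf_dvd_of_pow_eq_one h4)
  have hn : zpowers y ≤ normalizer (zpowers h : Set B) := by
    rw [zpowers_le]
    refine mem_normalizer_fintype fun x hx => ?_
    obtain ⟨r, rfl⟩ := hx
    show y * h ^ r * y⁻¹ ∈ zpowers h
    rw [← conj_zpow, e2 n]; exact zpow_mem (inv_mem (mem_zpowers h)) r
  have p3 := IsPGroup.to_sup_of_normal_right' p1 p2 hn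
  haveI := p3.isCyclic_of_isZGroup
  have c := (IsCyclic.commGroup (α := (zpowers y ⊔ zpowers h : Subgroup B))).mul_comm
    ⟨y, mem_sup_left (mem_zpowers y)⟩ ⟨h, mem_sup_right (mem_zpowers h)⟩
  have c' : y * h = h * y := congrArg Subtype.val c
  have e3 : y * h * y⁻¹ = h⁻¹ := e2 n
  rw [← e3, c', mul_inv_cancel_right]

variable {G Ω : Type*} [Group G] [Finite G] [MulAction G Ω] [FaithfulSMul G Ω] [Finite Ω]

structure Cf (A : Subgroup G) (α : Ω) (z t : G) : Prop where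
  two : ∀ a b c d : Ω, a ≠ b → c ≠ d → ∃ g : G, g • a = c ∧ g • b = d
  com : ∀ x ∈ A, ∀ y ∈ A, x * y = y * x
  tr : ∀ b : Ω, ∃ x ∈ A, x • α = b
  zA : z ∈ A
  z1 : z ≠ 1
  z2 : z * z = 1
  uz : ∀ c ∈ A, c * c = 1 → c = 1 ∨ c = z
  cyc : IsCyclic (stabilizer G α ⊓ stabilizer G (z • α) : Subgroup G)
  ta : t • α = α
  tb : t • z • α = z • α
  t1 : t ≠ 1
  t2 : t * t = 1
  zg : IsZGroup (stabilizer G α)

theorem one_of_fix {x : G} (h : ∀ c : Ω, x • c = c) : x = 1 :=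
  FaithfulSMul.eq_of_smul_eq_smul (α := Ω) fun c => by rw [h, one_smul]

theorem sreg {A : Subgroup G} {α : Ω} (com : ∀ x ∈ A, ∀ y ∈ A, x * y = y * x)
    (tr : ∀ b : Ω, ∃ x ∈ A, x • α = b) {x : G} (hx : x ∈ A) {b : Ω} (e : x • b = b) : x = 1 := by
  refine one_of_fix (Ω := Ω) fun c => ?_
  obtain ⟨y, hy, rfl⟩ := tr b
  obtain ⟨y', hy', rfl⟩ := tr c
  have : y' • α = (y' * y⁻¹) • y • α := by simp [mul_smul]
  rw [this, ← mul_smul, com x hx _ (mul_mem hy' (inv_mem hy)), mul_smul, e]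

namespace Cf
variable {A : Subgroup G} {α : Ω} {z t : G} (h : Cf A α z t)
include h

theorem zf (b : Ω) : z • b ≠ b := fun e => h.z1 (sreg h.com h.tr h.zA e)
theorem zz (b : Ω) : z • z • b = b := by rw [← mul_smul, h.z2, one_smul]
theorem tt (b : Ω) : t • t • b = b := by rw [← mul_smul, h.t2, one_smul]
theorem zi : z⁻¹ = z := inv_eq_of_mul_eq_one_right h.z2
theorem ti : t⁻¹ = t := inv_eq_of_mul_eq_one_right h.t2

theorem u0 {s : G} (a : s • α = α) (b : s • z • α = z • α) (s2 : s * s = 1) : s = 1 ∨ s = t := by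
  haveI := h.cyc
  have := cyc_inv (H := (stabilizer G α ⊓ stabilizer G (z • α) : Subgroup G)) (s := ⟨s, a, b⟩)
    (t := ⟨t, h.ta, h.tb⟩) (Subtype.ext s2) (Subtype.ext h.t2) (fun e => h.t1 (congrArg Subtype.val e))
  rcases this with e | e
  · exact Or.inl (congrArg Subtype.val e)
  · exact Or.inr (congrArg Subtype.val e)

theorem uu {γ δ : Ω} (ne : γ ≠ δ) {s s' : G} (a : s • γ = γ) (b : s • δ = δ) (s2 : s * s = 1) (s1 : s ≠ 1)
    (a' : s' • γ = γ) (b' : s' • δ = δ) (s2' : s' * s' = 1) (s1' : s' ≠ 1) : s = s' := by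
  obtain ⟨g, g1, g2⟩ := h.two γ δ α (z • α) ne (h.zf α).symm
  have key : ∀ x : G, x • γ = γ → x • δ = δ → x * x = 1 → x ≠ 1 → g * x * g⁻¹ = t := by
    intro x xa xb x2 x1
    rcases h.u0 (s := g * x * g⁻¹) (by rw [← g1]; simp [mul_smul, xa]) (by rw [← g2]; simp [mul_smul, xb])
      (by rw [show g * x * g⁻¹ * (g * x * g⁻¹) = g * (x * x) * g⁻¹ by group, x2]; group) with e | e
    · exact absurd (by simpa using e) x1
    · exact e
  have := (key s a b s2 s1).trans (key s' a' b' s2' s1').symm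
  simpa using this

theorem cj2 (g : G) : g * t * g⁻¹ * (g * t * g⁻¹) = 1 := by
  rw [show g * t * g⁻¹ * (g * t * g⁻¹) = g * (t * t) * g⁻¹ by group, h.t2]; group
theorem cj1 (g : G) : g * t * g⁻¹ ≠ 1 := fun e => h.t1 (by simpa using e)

theorem cent {a b : Ω} (ne : a ≠ b) {g : G} (ta : t • a = a) (tb : t • b = b) (tc : t • g • a = g • a)
    (td : t • g • b = g • b) : g * t * g⁻¹ = t :=
  h.uu (γ := g • a) (δ := g • b) (fun e => ne (by simpa using e)) (by simp [mul_smul, ta])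
    (by simp [mul_smul, tb]) (h.cj2 g) (h.cj1 g) tc td h.t2 h.t1

theorem zt : z * t * z⁻¹ = t := h.cent (h.zf α).symm h.ta h.tb h.tb (by rw [h.zz, h.ta])
theorem zt' : z * t = t * z := by rw [← mul_inv_eq_iff_eq_mul, h.zt]

omit h in
theorem fixc {g : G} (e : g * t * g⁻¹ = t) {b : Ω} (hb : t • b = b) : t • g • b = g • b := by
  rw [← mul_smul, ← e]; simp [mul_smul, hb]

/-- an involution with a fixed point commuting with `z` and `t` is `t` or `t z` -/
theorem lemL {s : G} {γ : Ω} (s2 : s * s = 1) (s1 : s ≠ 1) (f : s • γ = γ) (sz : s * z = z * s)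
    (st : s * t = t * s) : s = t ∨ s = t * z := by
  have key : ∀ a ∈ A, s • a • α = a • α → s = a * t * a⁻¹ := by
    intro a ha e
    refine h.uu (γ := a • α) (δ := z • a • α) (h.zf _).symm e (by rw [← mul_smul, sz, mul_smul, e]) s2 s1
      (by simp [mul_smul, h.ta]) ?_ (h.cj2 a) (h.cj1 a)
    rw [← mul_smul z a, h.com z h.zA a ha]; simp [mul_smul, h.tb]
  obtain ⟨a, ha, rfl⟩ := h.tr γ
  obtain ⟨a', ha', e'⟩ := h.tr (t • a • α)
  have k1 := key a ha f
  have k2 := key a' ha' (by rw [e', ← mul_smul, st, mul_smul, f])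
  have hc : a⁻¹ * a' ∈ A := mul_mem (inv_mem ha) ha'
  have ct : (a⁻¹ * a') * t = t * (a⁻¹ * a') := by
    have : (a⁻¹ * a') * t * (a⁻¹ * a')⁻¹ = a⁻¹ * (a' * t * a'⁻¹) * a := by group
    rw [← mul_inv_eq_iff_eq_mul, this, ← k2, k1]; group
  have e1 : t • a • α = (a⁻¹ * a') • a • α := by
    rw [← mul_smul (a⁻¹ * a'), h.com _ hc a ha, ← e']; simp [mul_smul]
  have c2 : (a⁻¹ * a') * (a⁻¹ * a') = 1 := by
    refine sreg h.com h.tr (mul_mem hc hc) (b := a • α) ?_
    rw [mul_smul, ← e1, ← mul_smul, ct, mul_smul, ← e1, h.tt]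
  have fz : s • z • a • α = z • a • α := by rw [← mul_smul, sz, mul_smul, f]
  rcases h.uz _ hc c2 with e | e
  · rw [e, one_smul] at e1
    exact Or.inl (h.uu (h.zf _).symm f fz s2 s1 e1 (by rw [← mul_smul, ← h.zt', mul_smul, e1]) h.t2 h.t1)
  · rw [e] at e1
    have f1 : (t * z) • a • α = a • α := by rw [← h.zt', mul_smul, e1, h.zz]
    refine Or.inr (h.uu (h.zf _).symm f fz s2 s1 f1 (by rw [mul_smul, h.zz, e1]) ?_ ?_)
    · rw [mul_assoc, ← mul_assoc z, h.zt', mul_assoc, h.z2, mul_one, h.t2]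
    · intro e
      have : z = t := by rw [← h.ti, eq_comm, inv_eq_iff_mul_eq_one, e]
      exact h.zf α (by rw [this, h.ta])

theorem case1 {γ δ : Ω} (f : (z * t) • δ = δ) (tg : t • γ = γ) (ga : γ ≠ α) (gb : γ ≠ z • α) : False := by
  classical
  let C : Subgroup G := centralizer {t}
  have mC : ∀ g, g ∈ C ↔ g * t * g⁻¹ = t := fun g => by
    rw [mem_centralizer_singleton_iff, mul_inv_eq_iff_eq_mul]
  have zC : z ∈ C := (mC z).2 h.zt
  have iso : ∀ g ∈ C, Commute z (g * z * g⁻¹) → g * z * g⁻¹ = z := by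
    intro g hg cm
    have gt := (mC g).1 hg
    have e0 : g * (z * t) * g⁻¹ = g * z * g⁻¹ * t := by
      conv_rhs => rw [← gt]
      group
    have yt : g * z * g⁻¹ * t = t * (g * z * g⁻¹) := by
      rw [← e0, h.zt']; conv_rhs => rw [← gt]
      group
    have := h.lemL (s := g * z * g⁻¹ * t) (γ := g • δ) (by
        rw [← e0, show g * (z * t) * g⁻¹ * (g * (z * t) * g⁻¹) = g * (z * (t * z) * t) * g⁻¹ by group,
          ← h.zt', ← mul_assoc z z, h.z2, one_mul, h.t2]; group)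
      (by
        rw [← e0]; intro e
        have e' : z * t = 1 := by simpa using e
        have : z = t := by rw [← h.ti, eq_inv_iff_mul_eq_one, e']
        exact h.zf α (by rw [this, h.ta]))
      (by rw [← e0, mul_smul, mul_smul, inv_smul_smul, f])
      (by rw [mul_assoc, ← h.zt', ← mul_assoc, ← cm.eq, mul_assoc z])
      (by rw [← mul_assoc t, ← yt])
    rcases this with e | e
    · exact absurd (by simpa using e) h.z1
    · rw [← h.zt'] at e; exact mul_right_cancel e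
  let O : Subgroup G := (pPrimeCore 2 C).map C.subtype
  have hO : ∀ g ∈ C, ⁅z, g⁆ ∈ O := fun g hg => H9.zstar_sub zC (k := 1) (by rw [pow_one, pow_two, h.z2]) iso hg
  have OC : O ≤ C := map_subtype_le _
  have nO : ∀ g ∈ C, ∀ o ∈ O, g * o * g⁻¹ ∈ O := fun g hg o ho =>
    (mem_normalizer_iff.1 (H1.le_normalizer_map_pPrimeCore 2 C hg) o).1 ho
  obtain ⟨g, g1, g2⟩ := h.two α (z • α) α γ (h.zf α).symm ga.symm
  have gC : g ∈ C := (mC g).2 (h.cent (h.zf α).symm h.ta h.tb (by rw [g1, h.ta]) (by rw [g2, tg]))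
  have mv : ⁅z, g⁆ • γ = z • α := by
    rw [commutatorElement_def, h.zi, ← g2]; simp [mul_smul, h.zz, g1]
  have orb : orbit O α = {b | t • b = b} := by
    ext b
    constructor
    · rintro ⟨o, rfl⟩
      exact fixc ((mC _).1 (OC o.2)) h.ta
    · intro hb
      by_cases e : b = α
      · rw [e]; exact mem_orbit_self α
      obtain ⟨c, c1, c2⟩ := h.two γ (z • α) α b gb (Ne.symm e)
      have cC : c ∈ C := (mC c).2 (h.cent gb tg h.tb (by rw [c1, h.ta]) (by rw [c2]; exact hb))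
      refine ⟨⟨_, nO c cC _ (hO g gC)⟩, ?_⟩
      show (c * ⁅z, g⁆ * c⁻¹) • α = b
      rw [← c1, mul_smul, mul_smul, inv_smul_smul, mv, c2]
  let A0 : Subgroup G := A ⊓ C
  have orb2 : orbit A0 α = {b | t • b = b} := by
    ext b
    constructor
    · rintro ⟨o, rfl⟩
      exact fixc ((mC _).1 o.2.2) h.ta
    · intro hb
      obtain ⟨a, ha, rfl⟩ := h.tr b
      refine ⟨⟨a, ha, (mC a).2 (h.cent (h.zf α).symm h.ta h.tb hb ?_)⟩, rfl⟩
      rw [← mul_smul a, h.com a ha z h.zA, mul_smul]; exact fixc h.zt hb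
  have d1 : (orbit O α).ncard ∣ Nat.card O := by rw [← index_stabilizer]; exact index_dvd_card _
  have d2 : (orbit A0 α).ncard = Nat.card A0 := by
    rw [← index_stabilizer, (eq_bot_iff_forall (stabilizer A0 α)).2 fun x hx =>
      Subtype.ext (sreg h.com h.tr x.2.1 hx), index_bot]
  have d3 : 2 ∣ Nat.card A0 := by
    haveI : Fact (Nat.Prime 2) := ⟨Nat.prime_two⟩
    rw [← orderOf_eq_prime (p := 2) (x := z) (by rw [pow_two, h.z2]) h.z1]
    exact orderOf_dvd_natCard A0 ⟨h.zA, zC⟩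
  rw [orb, ← orb2, d2] at d1
  have := Nat.eq_one_of_dvd_coprimes (H1.coprime_card_map_pPrimeCore 2 C) (d3.trans d1) dvd_rfl
  omega

theorem hcom {x y : G} (a : x • α = α) (b : x • z • α = z • α) (a' : y • α = α) (b' : y • z • α = z • α) :
    x * y = y * x := by
  haveI := h.cyc
  exact congrArg Subtype.val
    ((IsCyclic.commGroup (α := (stabilizer G α ⊓ stabilizer G (z • α) : Subgroup G))).mul_comm ⟨x, a, b⟩ ⟨y, a', b'⟩)

/-- conjugation by `z` on the two-point stabiliser -/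
def sg : (stabilizer G α ⊓ stabilizer G (z • α) : Subgroup G) →* (stabilizer G α ⊓ stabilizer G (z • α) : Subgroup G) where
  toFun k := ⟨z * k * z⁻¹, by
      show (z * k * z⁻¹) • α = α
      rw [h.zi, mul_smul, mul_smul, show (k : G) • z • α = z • α from k.2.2, h.zz], by
      show (z * k * z⁻¹) • z • α = z • α
      rw [mul_smul, mul_smul, inv_smul_smul, show (k : G) • α = α from k.2.1]⟩
  map_one' := Subtype.ext (by simp)
  map_mul' a b := Subtype.ext (by simp)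

theorem sg_coe (k : (stabilizer G α ⊓ stabilizer G (z • α) : Subgroup G)) : (h.sg k : G) = z * k * z⁻¹ := rfl

theorem sw {x : G} (a : x • α = z • α) (b : x • z • α = α) : z * x ∈ stabilizer G α ⊓ stabilizer G (z • α) :=
  ⟨by show (z * x) • α = α; rw [mul_smul, a, h.zz], by show (z * x) • z • α = z • α; rw [mul_smul, b]⟩

theorem sw_inv {x : G} (a : x • α = z • α) (b : x • z • α = α) (x2 : x * x = 1) :
    h.sg ⟨_, h.sw a b⟩ = (⟨_, h.sw a b⟩)⁻¹ := Subtype.ext (by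
  show z * (z * x) * z⁻¹ = (z * x)⁻¹
  rw [← mul_assoc, h.z2, one_mul, mul_inv_rev, inv_eq_of_mul_eq_one_right x2])

theorem hP (i k : (stabilizer G α ⊓ stabilizer G (z • α) : Subgroup G)) (p : ∃ b : Ω, (z * i) • b = b) :
    ∃ b : Ω, (z * (i * k * (h.sg k)⁻¹ : (stabilizer G α ⊓ stabilizer G (z • α) : Subgroup G))) • b = b := by
  obtain ⟨b, hb⟩ := p
  refine ⟨(k : G)⁻¹ • b, ?_⟩
  have c := h.hcom (x := (i * k : (stabilizer G α ⊓ stabilizer G (z • α) : Subgroup G))) (y := ((h.sg k)⁻¹ :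
    (stabilizer G α ⊓ stabilizer G (z • α) : Subgroup G))) (i * k).2.1 (i * k).2.2 (h.sg k)⁻¹.2.1 (h.sg k)⁻¹.2.2
  have : (z * (i * k * (h.sg k)⁻¹ : (stabilizer G α ⊓ stabilizer G (z • α) : Subgroup G)) : G) =
      (k : G)⁻¹ * (z * i) * k := by
    rw [coe_mul, c, coe_inv, sg_coe, coe_mul, mul_inv_rev, mul_inv_rev, inv_inv,
      show z * (z * ((k : G)⁻¹ * z⁻¹) * (i * k)) = (z * z) * (k : G)⁻¹ * z⁻¹ * i * k by group, h.z2, h.zi]; group
  rw [this, mul_smul, mul_smul, smul_inv_smul, hb]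

theorem nP : ¬ ∃ b : Ω, (z * (1 : (stabilizer G α ⊓ stabilizer G (z • α) : Subgroup G))) • b = b := by
  rintro ⟨b, hb⟩
  exact h.zf b (by simpa using hb)

theorem exW : ∃ i : (stabilizer G α ⊓ stabilizer G (z • α) : Subgroup G), h.sg i = i⁻¹ ∧
    ∃ b : Ω, (z * i) • b = b := by
  obtain ⟨γ, hγ⟩ : ∃ γ : Ω, t • γ ≠ γ := by
    by_contra c; push Not at c; exact h.t1 (one_of_fix c)
  obtain ⟨g, g1, g2⟩ := h.two γ (t • γ) α (z • α) hγ.symm (h.zf α).symm
  have a : (g * t * g⁻¹) • α = z • α := by rw [← g2, ← g1]; simp [mul_smul]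
  have b : (g * t * g⁻¹) • z • α = α := by rw [← g2]; simp [mul_smul, h.tt, g1]
  refine ⟨⟨_, h.sw a b⟩, h.sw_inv a b (h.cj2 g), g • α, ?_⟩
  show (z * (z * (g * t * g⁻¹))) • g • α = g • α
  rw [← mul_assoc, h.z2]; simp [mul_smul, h.ta]

/-- the involution `t` fixes exactly two points -/
theorem fix_two {γ : Ω} (tg : t • γ = γ) : γ = α ∨ γ = z • α := by
  by_contra hc
  push Not at hc
  obtain ⟨ga, gb⟩ := hc
  haveI := h.cyc
  letI := IsCyclic.commGroup (α := (stabilizer G α ⊓ stabilizer G (z • α) : Subgroup G))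
  obtain ⟨i0, hi, p0⟩ := h.exW
  let T : (stabilizer G α ⊓ stabilizer G (z • α) : Subgroup G) := ⟨t, h.ta, h.tb⟩
  have hT : h.sg T = T⁻¹ := Subtype.ext (by show z * t * z⁻¹ = t⁻¹; rw [h.zt, h.ti])
  obtain ⟨k, hk, e⟩ := absB (σ := h.sg) (P := fun i => ∃ b : Ω, (z * i) • b = b) h.hP h.nP hi p0 hT
    (fun ⟨δ, f⟩ => h.case1 f tg ga gb)
  have e' : t = (k : G) * k := congrArg Subtype.val e
  have hk' : z * k * z⁻¹ = (k : G)⁻¹ := congrArg Subtype.val hk
  have ka : (k : G) • α = α := k.2.1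
  have kb : (k : G) • z • α = z • α := k.2.2
  have kt : (k : G) * t * (k : G)⁻¹ = t := by rw [e']; group
  by_cases hm : ∀ δ : Ω, t • δ = δ → (k : G) • δ = δ
  · have cen : ∀ (g : G) (δ : Ω), g * t * g⁻¹ = t → t • δ = δ → g • δ = δ → g * k * g⁻¹ = k := by
      intro g δ gt td gd
      have gt' : g⁻¹ * t * g⁻¹⁻¹ = t := by conv_lhs => rw [← gt]
                                           group
      have fx : ∀ μ : Ω, t • μ = μ → (g * k * g⁻¹) • μ = μ := fun μ hμ => by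
        rw [mul_smul, mul_smul, hm _ (fixc gt' hμ), smul_inv_smul]
      have cm := h.hcom (fx _ h.ta) (fx _ h.tb) ka kb
      have sq : (g * k * g⁻¹) * (g * k * g⁻¹) = k * k := by
        rw [← e', ← gt, e']; group
      have := h.u0 (s := g * k * g⁻¹ * (k : G)⁻¹) (by rw [mul_smul, inv_smul_eq_iff.2 ka.symm, fx _ h.ta])
        (by rw [mul_smul, inv_smul_eq_iff.2 kb.symm, fx _ h.tb]) (by
          have cm' : (k : G)⁻¹ * (g * k * g⁻¹) = (g * k * g⁻¹) * (k : G)⁻¹ := by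
            rw [inv_mul_eq_iff_eq_mul, ← mul_assoc, ← cm]; group
          rw [mul_assoc, ← mul_assoc (k : G)⁻¹, cm', ← mul_assoc, ← mul_assoc, sq]; group)
      rcases this with e1 | e1
      · exact mul_inv_eq_one.1 e1
      · exfalso
        obtain ⟨c, hc⟩ := h.tr δ
        have inv : g * k * g⁻¹ = (k : G)⁻¹ := by
          rw [mul_inv_eq_iff_eq_mul] at e1
          rw [e1, eq_inv_iff_mul_eq_one, mul_assoc, ← e', h.t2]
        haveI := h.zg
        have := zg_inv (B := stabilizer G α) (g := ⟨c⁻¹ * g * c, by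
            show (c⁻¹ * g * c) • α = α
            rw [mul_smul, mul_smul, hc.2, gd, ← hc.2, inv_smul_smul]⟩) (h := ⟨c⁻¹ * k * c, by
            show (c⁻¹ * k * c) • α = α
            rw [mul_smul, mul_smul, hc.2, hm δ td, ← hc.2, inv_smul_smul]⟩) (Subtype.ext (by
            show (c⁻¹ * k * c) ^ 4 = 1
            rw [show (c⁻¹ * k * c) ^ 4 = c⁻¹ * ((k * k) * (k * k)) * c by
              simp only [pow_succ, pow_zero]; group, ← e', h.t2]; group)) (Subtype.ext (by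
            show (c⁻¹ * g * c) * (c⁻¹ * k * c) * (c⁻¹ * g * c)⁻¹ = (c⁻¹ * k * c)⁻¹
            rw [show (c⁻¹ * g * c) * (c⁻¹ * k * c) * (c⁻¹ * g * c)⁻¹ = c⁻¹ * (g * k * g⁻¹) * c by group, inv]
            group))
        have e2 : c⁻¹ * k * c = (c⁻¹ * k * c)⁻¹ := congrArg Subtype.val this
        apply h.t1
        rw [eq_inv_iff_mul_eq_one, show c⁻¹ * k * c * (c⁻¹ * k * c) = c⁻¹ * (k * k) * c by group, ← e'] at e2
        rw [show t = c * (c⁻¹ * t * c) * c⁻¹ by group, e2]; group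
    obtain ⟨g1, a1, a2⟩ := h.two γ α γ (z • α) ga gb
    have c1 : g1 * t * g1⁻¹ = t := h.cent ga tg h.ta (by rw [a1, tg]) (by rw [a2, h.tb])
    have ne : z • α ≠ g1 • z • α := by
      intro e; rw [← a2] at e; nth_rewrite 2 [a2] at e
      exact h.zf α (by simpa using e.symm)
    obtain ⟨g2, b1, b2⟩ := h.two (z • α) (g1 • z • α) (z • α) α ne (h.zf α)
    have c2 : g2 * t * g2⁻¹ = t := h.cent ne h.tb (fixc c1 h.tb) (by rw [b1, h.tb]) (by rw [b2, h.ta])
    have k1 := cen g1 γ c1 tg a1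
    have k2 := cen g2 _ c2 h.tb b1
    have s := h.sw (x := g2 * g1) (by rw [mul_smul, a2, b1]) (by rw [mul_smul, b2])
    have cm := h.hcom s.1 s.2 ka kb
    have : z * k * z⁻¹ = k := by
      have e3 : (g2 * g1) * k * (g2 * g1)⁻¹ = k := by
        rw [show (g2 * g1) * k * (g2 * g1)⁻¹ = g2 * (g1 * k * g1⁻¹) * g2⁻¹ by group, k1, k2]
      conv_lhs => rw [← e3]
      rw [show z * (g2 * g1 * k * (g2 * g1)⁻¹) * z⁻¹ = (z * (g2 * g1) * k) * (z * (g2 * g1))⁻¹ by group, cm]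
      group
    rw [this, eq_inv_iff_mul_eq_one, ← e'] at hk'
    exact h.t1 hk'
  · push Not at hm
    obtain ⟨δ, td, kd⟩ := hm
    obtain ⟨c, c1, c2⟩ := h.two δ ((k : G) • δ) α (z • α) kd.symm (h.zf α).symm
    have ct : c * t * c⁻¹ = t := h.cent kd.symm td (fixc kt td) (by rw [c1, h.ta]) (by rw [c2, h.tb])
    have a : (c * k * c⁻¹) • α = z • α := by rw [mul_smul, mul_smul, inv_smul_eq_iff.2 c1.symm, c2]
    have b : (c * k * c⁻¹) • z • α = α := by
      rw [mul_smul, mul_smul, inv_smul_eq_iff.2 c2.symm, ← mul_smul (k : G), ← e', td, c1]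
    refine absC (σ := h.sg) (P := fun i => ∃ b : Ω, (z * i) • b = b) h.hP h.nP (fun k => Subtype.ext (by
      rw [sg_coe, sg_coe, show z * (z * k * z⁻¹) * z⁻¹ = (z * z) * k * (z * z)⁻¹ by group, h.z2]; group))
      hi p0 (t := T) (Subtype.ext h.t2) (fun e => h.t1 (congrArg Subtype.val e)) hk e ⟨_, h.sw a b⟩
      (Subtype.ext ?_)
    show z * (z * (c * k * c⁻¹)) * z⁻¹ * (z * (c * k * c⁻¹)) = t
    rw [← mul_assoc z z, h.z2, ← ct, e']; group

theorem three {γ γ' : Ω} (ga : γ ≠ α) (gb : γ ≠ z • α) (ga' : γ' ≠ α) (gb' : γ' ≠ z • α) :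
    ∃ k : G, k • α = α ∧ k • z • α = z • α ∧ k • γ = γ' := by
  haveI := h.cyc
  letI := IsCyclic.commGroup (α := (stabilizer G α ⊓ stabilizer G (z • α) : Subgroup G))
  have key : ∀ δ : Ω, δ ≠ α → δ ≠ z • α → ∃ w : G, w • α = z • α ∧ w • z • α = α ∧ w * w = 1 ∧ w • δ = δ ∧
      ∀ μ : Ω, w • μ = μ → μ = δ ∨ μ = t • δ := by
    intro δ da db
    have ne : δ ≠ t • δ := fun e => by rcases h.fix_two e.symm with e | e <;> contradiction
    obtain ⟨c, c1, c2⟩ := h.two α (z • α) δ (t • δ) (h.zf α).symm ne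
    have f1 : (c * t * c⁻¹) • δ = δ := by rw [← c1]; simp [mul_smul, h.ta]
    have f2 : (c * t * c⁻¹) • t • δ = t • δ := by rw [← c2]; simp [mul_smul, h.tb]
    have fx : ∀ μ : Ω, (c * t * c⁻¹) • μ = μ → μ = δ ∨ μ = t • δ := by
      intro μ hμ
      rw [mul_smul, mul_smul, ← eq_inv_smul_iff] at hμ
      rcases h.fix_two hμ with e | e
      · left; rw [← c1, ← e, smul_inv_smul]
      · right; rw [← c2, ← e, smul_inv_smul]
    have cm : (t * c) * t * (t * c)⁻¹ = c * t * c⁻¹ :=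
      h.uu ne (by rw [← h.tt δ, ← c2]; simp [mul_smul, h.tb]) (by rw [← c1]; simp [mul_smul, h.ta])
        (h.cj2 _) (h.cj1 _) f1 f2 (h.cj2 _) (h.cj1 _)
    have cm' : (c * t * c⁻¹) * t * (c * t * c⁻¹)⁻¹ = t := by
      rw [mul_inv_eq_iff_eq_mul, eq_comm, ← mul_inv_eq_iff_eq_mul]
      conv_rhs => rw [← cm]
      group
    have na : (c * t * c⁻¹) • α ≠ α := fun e => by
      rcases fx _ e with e | e
      · exact da e.symm
      · exact da (by rw [← h.tt δ, ← e, h.ta])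
    have nb : (c * t * c⁻¹) • z • α ≠ z • α := fun e => by
      rcases fx _ e with e | e
      · exact db e.symm
      · exact db (by rw [← h.tt δ, ← e, h.tb])
    exact ⟨_, (h.fix_two (fixc cm' h.ta)).resolve_left na, (h.fix_two (fixc cm' h.tb)).resolve_right nb,
      h.cj2 c, f1, fx⟩
  obtain ⟨w, a, b, w2, f, -⟩ := key γ ga gb
  obtain ⟨w', a', b', w2', f', fx⟩ := key γ' ga' gb'
  obtain ⟨k, e⟩ := absA (σ := h.sg) (P := fun i => ∃ b : Ω, (z * i) • b = b) h.hP h.nP (h.sw_inv a b w2)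
    (h.sw_inv a' b' w2') ⟨γ, by show (z * (z * w)) • γ = γ; rw [← mul_assoc, h.z2, one_mul, f]⟩
    ⟨γ', by show (z * (z * w')) • γ' = γ'; rw [← mul_assoc, h.z2, one_mul, f']⟩
  rw [mul_comm] at e
  have e' : z * w' = (z * k * z⁻¹)⁻¹ * (z * w * k) := congrArg Subtype.val e
  have e2 : w' = (k : G)⁻¹ * w * k := by
    have : z * w' = z * ((k : G)⁻¹ * (z⁻¹ * z) * w * k) := by rw [e']; group
    simpa using this
  have ka : (k : G)⁻¹ • α = α := k⁻¹.2.1
  have kb : (k : G)⁻¹ • z • α = z • α := k⁻¹.2.2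
  rcases fx ((k : G)⁻¹ • γ) (by rw [e2]; simp [mul_smul, f]) with e3 | e3
  · exact ⟨_, ka, kb, e3⟩
  · exact ⟨t * (k : G)⁻¹, by rw [mul_smul, ka, h.ta], by rw [mul_smul, kb, h.tb], by rw [mul_smul, e3, h.tt]⟩

end Cf
end H5.KZ
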