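import Cfsg.Agent.H13.Km0

/-! Piece `PA` for Frobenius groups of automorphisms: the kernel has no fixed points on `K / V`. -/
set_option autoImplicit false
namespace H5.KmA
open _root_.Cfsg H18 H1 Subgroup H13.Km
universe u

theorem fix {G : Type*} [Group G] [Finite G] {K F H V : Subgroup G} {p : ℕ} (c : Cf K F H) (hV : PiGrp {p} V)
    (l : V ≤ K) (hn : F ≤ N(V)) : V ⊓ C(O[{p}ᶜ](F)) = ⊥ := by
  by_contra h
  refine PiGrp.meet_cent (P := O[{p}](F)) pcore_pi (hV.of_le inf_le_left)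
    (pcore_le.trans (norm_inf hn (norm_C pcore_nml.norm))) h (le_bot_iff.1 ?_)
  rw [← c.cf]
  refine le_inf (inf_le_left.trans (inf_le_left.trans l)) ?_
  conv_rhs => rw [← c.nil.pcore_sup (π := {p}), C_sup]
  exact le_inf inf_le_right (inf_le_left.trans inf_le_right)

theorem pA : PA.{u} := by
  intro G _ _ K F H V p c hp hV hK hn g hg h
  have hD : O[{p}ᶜ](F) ≤ F := pcore_le
  obtain ⟨n, hnV, e⟩ := exists_mul_mem_centralizer' O[{p}ᶜ](F) V (hD.trans hn) (PiNat.coprime' pcore_pi hV)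
    (.inr hV.nil.solv) g fun a ha => h a (hD ha)
  have : g * n ∈ K ⊓ C(F) := ⟨mul_mem hg (hK.le hnV), mem_C.2 fun f hf => by
    have h1 : (g * n)⁻¹ * (f * (g * n) * f⁻¹) ∈ V ⊓ C(O[{p}ᶜ](F)) := mem_inf.2 ⟨by
      have := mul_mem (mul_mem (inv_mem hnV) (h f hf)) (conj_mem_N (hn hf) hnV)
      convert this using 1; group, mul_mem (inv_mem e) (conj_mem_N (norm_C pcore_nml.norm hf) e)⟩
    rw [fix c hV hK.le hn, mem_bot, inv_mul_eq_one, eq_mul_inv_iff_mul_eq] at h1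
    exact h1.symm⟩
  rw [c.cf, mem_bot, mul_eq_one_iff_eq_inv] at this
  rw [this]; exact inv_mem hnV

end H5.KmA
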