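import Cfsg.Agent.H5.Kernel
import Cfsg.Prelude.Def_Blocks

/-! Assembly for S4591: the two inclusions give the set equality. -/

set_option autoImplicit false

open H5 Cfsg
namespace H5.KpS

theorem asm {G : Type*} [Group G] [Finite G] (p : ℕ) (U : Subgroup G)
    (hX : ∀ χ, IsIrrCharacter G χ → ¬ p ∣ charDegree χ → U.normalCore ≤ charKer χ)
    (hY : ∀ (K : Subgroup G) [K.Normal],
      (∀ χ, IsIrrCharacter G χ → ¬ p ∣ charDegree χ → K ≤ charKer χ) → K ≤ U) :
    {g : G | ∀ χ : IrrCharacter G, ¬ p ∣ charDegree (χ : G → ℂ) → (χ : G → ℂ) g = (χ : G → ℂ) 1} =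
      (U.normalCore : Set G) := by
  ext g
  refine ⟨fun hg => ?_, fun hg χ hd => apply_eq_of_mem_charKer (hX χ χ.2 hd hg)⟩
  have hle : Subgroup.normalClosure ({g} : Set G) ≤ U := hY _ fun χ hχ hd => by
    haveI := hχ.isCharacter.normal_charKer
    exact Subgroup.normalClosure_le_normal (by
      rintro _ rfl
      exact hχ.mem_charKer.2 (hg ⟨χ, hχ⟩ hd))
  exact Subgroup.normal_le_normalCore.2 hle (Subgroup.subset_normalClosure rfl)

end H5.KpS
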