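import Cfsg.Agent.H9.Hv2
import Cfsg.Agent.H9.MaxClass

/-! A transfer argument for Sylow 2-subgroups: `MS.Cy` (an involution `a` fused to a central involution `z` of `S`
with `C_S(a) = C × ⟨w, a⟩`, `C` cyclic of order `2` or `4` with an involution `t` not fused to `z`) forces `t ∉ G'`
(`Cy.not_mem_der`).  Small tools: `mem_dih` (elements of a dihedral group), `mem_ext` (index two extensions). -/

set_option autoImplicit false
set_option linter.unusedSectionVars false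
open Cfsg Subgroup H9
open scoped commutatorElement

namespace H5.MS
variable {G : Type*} [Group G] [Finite G] {S C M : Subgroup G} {z t w a u y r g q d e m : G}

theorem odd_pow (hS : IsPGroup 2 S) (hr : r ∈ S) {j : ℤ} (hj : Odd j) (h : r ^ j = 1) : r = 1 := by
  obtain ⟨k, hk⟩ := IsPGroup.iff_orderOf.1 hS ⟨r, hr⟩
  rw [← orderOf_coe] at hk
  have h1 := orderOf_dvd_iff_zpow_eq_one.2 h
  rcases k with _ | k
  · exact orderOf_eq_one_iff.1 (by simpa using hk)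
  · change orderOf r = _ at hk
    rw [hk] at h1
    exact absurd (even_iff_two_dvd.2 (Dvd.dvd.trans ⟨2 ^ k, by push_cast; ring⟩ h1)) (Int.not_even_iff_odd.2 hj)

theorem dih_comm (h2 : a * r * a⁻¹ = r⁻¹) (i : ℤ) : a * r ^ i = r ^ (-i) * a := by
  rw [zpow_neg, ← H9.inverts_of_mem_zpowers h2 (zpow_mem_zpowers r i)]; group

theorem mem_dih (h1 : a * a = 1) (h2 : a * r * a⁻¹ = r⁻¹) :
    g ∈ closure ({r, a} : Set G) ↔ ∃ i : ℤ, g = r ^ i ∨ g = r ^ i * a := by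
  have k := dih_comm h2
  constructor
  · intro hg
    induction hg using closure_induction with
    | mem x hx => rcases hx with rfl | rfl; exacts [⟨1, by simp⟩, ⟨0, by simp⟩]
    | one => exact ⟨0, by simp⟩
    | mul x y _ _ hx hy =>
      obtain ⟨i, rfl | rfl⟩ := hx <;> obtain ⟨j, rfl | rfl⟩ := hy
      · exact ⟨i + j, .inl (by group)⟩
      · exact ⟨i + j, .inr (by group)⟩
      · exact ⟨i - j, .inr (by rw [mul_assoc, k]; group)⟩
      · exact ⟨i - j, .inl (by rw [mul_assoc, ← mul_assoc a, k, mul_assoc, h1]; group)⟩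
    | inv x _ hx =>
      obtain ⟨i, rfl | rfl⟩ := hx
      · exact ⟨-i, .inl (by group)⟩
      · exact ⟨i, .inr (by rw [mul_inv_rev, inv_eq_of_mul_eq_one_right h1, ← zpow_neg, k, neg_neg])⟩
  · have hr : r ∈ closure ({r, a} : Set G) := subset_closure (by simp)
    rintro ⟨i, rfl | rfl⟩
    exacts [zpow_mem hr i, mul_mem (zpow_mem hr i) (subset_closure (by simp))]

theorem mem_ext (hq : ∀ m ∈ M, q * m * q⁻¹ ∈ M) (h2 : q * q ∈ M) : g ∈ M ⊔ zpowers q ↔ g ∈ M ∨ g * q ∈ M := by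
  have hn := mem_normalizer_of_conj_mem hq
  constructor
  · intro hg
    obtain ⟨m, hm, _, ⟨i, rfl⟩, rfl⟩ := (H1.mem_sup_of_le_normalizer (zpowers_le.2 hn)).1 hg
    have k : ∀ j : ℤ, q ^ (2 * j) ∈ M := fun j => by rw [zpow_mul, zpow_two]; exact zpow_mem h2 j
    obtain ⟨j, rfl | rfl⟩ := Int.even_or_odd' i
    · exact .inl (mul_mem hm (k j))
    · exact .inr (by simpa [zpow_add, mul_assoc] using mul_mem (mul_mem hm (k j)) h2)
  · rintro (h | h)
    · exact mem_sup_left h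
    · simpa using mul_mem (mem_sup_left h) (inv_mem (mem_sup_right (mem_zpowers q)))

theorem conj_sq (h : a * a = 1) (g : G) : g * a * g⁻¹ * (g * a * g⁻¹) = 1 := by
  calc _ = g * (a * a) * g⁻¹ := by group
    _ = 1 := by rw [h]; group

theorem isConj_cj (h : IsConj z a) (g : G) : IsConj z (g * a * g⁻¹) := h.trans (isConj_iff.2 ⟨g, rfl⟩)

theorem comm_of_cj (h : g * a * g⁻¹ = a) : Commute g a := mul_inv_eq_iff_eq_mul.1 h

theorem cj_of_comm (h : Commute g a) : g * a * g⁻¹ = a := mul_inv_eq_iff_eq_mul.2 h.eq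

theorem comm_cj (h : Commute a r) (g : G) : Commute (g * a * g⁻¹) (g * r * g⁻¹) := by
  simpa using h.map (MulAut.conj g)

/-- the configuration -/
structure Cy (S C : Subgroup G) (z t w a u : G) : Prop where
  two : IsPGroup 2 S
  zS : z ∈ S
  z2 : z * z = 1
  z1 : z ≠ 1
  zc : ∀ s ∈ S, Commute s z
  aS : a ∈ S
  za : IsConj z a
  az : a ≠ z
  CS : C ≤ S
  tC : t ∈ C
  t2 : t * t = 1
  t1 : t ≠ 1
  tz : ¬ IsConj z t
  tS : ∃ s ∈ S, ¬ Commute s t
  hC : ∀ d ∈ C, d = 1 ∨ d = t ∨ d * d = t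
  cc : ∀ d ∈ C, ∀ e ∈ C, Commute d e
  ca : ∀ d ∈ C, Commute d a
  cu : ∀ d ∈ C, Commute d u
  cw : ∀ d ∈ C, Commute d w
  w2 : w * w = 1
  w1 : w ≠ 1
  uS : u ∈ S
  ua : u * a * u⁻¹ = a * w
  uw : Commute u w
  hD : ∀ g ∈ S, Commute g a → ∃ d ∈ C, g = d ∨ g = d * w ∨ g = d * a ∨ g = d * a * w
  om : ∀ g ∈ S, Commute g a → IsConj z g → g = z ∨ g = a ∨ g = a * w

/-- the centralizer of `t` in `S` -/
def R (S : Subgroup G) (t : G) : Subgroup G := S ⊓ centralizer {t}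

theorem mem_R : g ∈ R S t ↔ g ∈ S ∧ Commute g t := by
  simp [R, mem_centralizer_singleton_iff, commute_iff_eq]

namespace Cy
variable (h : Cy S C z t w a u)
include h

theorem sq (hg : IsConj z g) : g * g = 1 := by
  obtain ⟨c, rfl⟩ := isConj_iff.1 hg
  exact conj_sq h.z2 c

theorem a2 : a * a = 1 := h.sq h.za
theorem tS' : t ∈ S := h.CS h.tC
theorem wS : w ∈ S := by
  have := mul_mem (inv_mem h.aS) (mul_mem (mul_mem h.uS h.aS) (inv_mem h.uS))
  rwa [h.ua, inv_mul_cancel_left] at this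
theorem CR : C ≤ R S t := fun d hd => mem_R.2 ⟨h.CS hd, h.cc d hd t h.tC⟩
theorem aR : a ∈ R S t := mem_R.2 ⟨h.aS, (h.ca t h.tC).symm⟩
theorem uR : u ∈ R S t := mem_R.2 ⟨h.uS, (h.cu t h.tC).symm⟩
theorem wR : w ∈ R S t := mem_R.2 ⟨h.wS, (h.cw t h.tC).symm⟩
theorem zR : z ∈ R S t := mem_R.2 ⟨h.zS, (h.zc t h.tS').symm⟩

theorem DR (hg : g ∈ S) (hc : Commute g a) : g ∈ R S t := by
  obtain ⟨d, hd, rfl | rfl | rfl | rfl⟩ := h.hD g hg hc
  exacts [h.CR hd, mul_mem (h.CR hd) h.wR, mul_mem (h.CR hd) h.aR, mul_mem (mul_mem (h.CR hd) h.aR) h.wR]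

theorem Dc (hg : g ∈ S) (hc : Commute g a) (hd : d ∈ C) : Commute d g := by
  obtain ⟨e, he, rfl | rfl | rfl | rfl⟩ := h.hD g hg hc
  exacts [h.cc d hd _ he, (h.cc d hd e he).mul_right (h.cw d hd), (h.cc d hd e he).mul_right (h.ca d hd),
    ((h.cc d hd e he).mul_right (h.ca d hd)).mul_right (h.cw d hd)]

theorem cen (he : e ∈ S) (h1 : Commute e a) (h2 : Commute e u) : ∃ d ∈ C, e = d ∨ e = d * w := by
  have k : ¬ Commute a u := fun e => h.w1 (by have := h.ua; rwa [cj_of_comm e.symm, left_eq_mul] at this)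
  obtain ⟨d, hd, rfl | rfl | rfl | rfl⟩ := h.hD e he h1
  exacts [⟨_, hd, .inl rfl⟩, ⟨_, hd, .inr rfl⟩, (k (by simpa using (h.cu d hd).inv_left.mul_left h2)).elim,
    (k (by simpa [mul_assoc, h.w2] using ((h.cu d hd).inv_left.mul_left h2).mul_left h.uw.symm)).elim]

theorem cen_sq (he : e ∈ S) (h1 : Commute e a) (h2 : Commute e u) :
    (e = 1 ∨ e = t ∨ e = w ∨ e = t * w) ∨ e * e = t := by
  obtain ⟨d, hd, rfl | rfl⟩ := h.cen he h1 h2 <;> rcases h.hC _ hd with rfl | rfl | k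
  · simp
  · simp
  · exact .inr k
  · simp
  · simp
  · exact .inr (by rw [(h.cw d hd).symm.mul_mul_mul_comm, k, h.w2, mul_one])

theorem cen_inv (he : e ∈ S) (h1 : Commute e a) (h2 : Commute e u) (h3 : e * e = 1) (h4 : e ≠ 1) :
    e = t ∨ e = w ∨ e = t * w :=
  ((h.cen_sq he h1 h2).resolve_right fun k => h.t1 (k.symm.trans h3)).resolve_left h4

theorem sq_t (hg : g * g = 1) (hR : g * t ∈ R S t) : g * t * (g * t) = 1 := by
  have c : Commute g t := by simpa [mul_assoc, h.t2] using (mem_R.1 hR).2.mul_left (Commute.refl t)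
  rw [c.symm.mul_mul_mul_comm, hg, h.t2, mul_one]

theorem cenR (hg : g ∈ normalizer (R S t : Set G)) (he : e ∈ R S t) (hc : ∀ r ∈ R S t, Commute e r) (hr : r ∈ R S t) :
    Commute (g * e * g⁻¹) r := by
  simpa [mul_assoc] using comm_cj (hc _ (conj_mem_of_mem_normalizer' hg hr)) g

theorem tzz : t * z * z = t := by rw [mul_assoc, h.z2, mul_one]

theorem mv (hg : g ∈ S) (hn : g ∈ normalizer (R S t : Set G)) (hR : g ∉ R S t) : g * t * g⁻¹ = t * z := by
  have k := fun r => h.cenR (r := r) hn (h.CR h.tC) fun r hr => (mem_R.1 hr).2.symm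
  have h1 : g * t * g⁻¹ ≠ t := fun e => hR (mem_R.2 ⟨hg, comm_of_cj e⟩)
  have h2 : g * t * g⁻¹ ≠ z := fun e => h.tz (by rw [← e]; exact (isConj_iff.2 ⟨g, rfl⟩).symm)
  have h3 : z ≠ t := fun e => h.tz (e ▸ IsConj.refl z)
  rcases h.cen_inv (mul_mem (mul_mem hg h.tS') (inv_mem hg)) (k _ h.aR) (k _ h.uR) (conj_sq h.t2 g)
    (by simpa using h.t1) with e | e | e <;>
  rcases h.cen_inv h.zS (h.zc a h.aS).symm (h.zc u h.uS).symm h.z2 h.z1 with e' | e' | e' <;>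
  first | exact (h1 e).elim | exact (h3 e').elim | exact (h2 (e.trans e'.symm)).elim | skip
  · rw [e, e', ← mul_assoc, h.t2, one_mul]
  · rw [e, e']

end Cy

/-- `y` normalizes `R = C_S(t)` without lying in it, `r = a a^y`. -/
structure Cz (S C : Subgroup G) (z t w a u y r : G) : Prop extends Cy S C z t w a u where
  yS : y ∈ S
  yN : y ∈ normalizer (R S t : Set G)
  yR : y ∉ R S t
  ya : y * a * y⁻¹ = a * r

namespace Cz
variable (h : Cz S C z t w a u y r)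
include h

theorem bR : a * r ∈ R S t := h.ya ▸ conj_mem_of_mem_normalizer h.yN h.aR
theorem rR : r ∈ R S t := by simpa using mul_mem (inv_mem h.aR) h.bR
theorem rS : r ∈ S := (mem_R.1 h.rR).1
theorem zb : IsConj z (a * r) := h.ya ▸ isConj_cj h.za y
theorem ar : a * r * a⁻¹ = r⁻¹ := by
  rw [inv_eq_of_mul_eq_one_right h.a2, eq_inv_iff_mul_eq_one, mul_assoc]; exact h.sq h.zb
theorem ak (i : ℤ) : a * r ^ i = r ^ (-i) * a := dih_comm h.ar i
theorem cjz (hg : g ∈ S) : g * a * g⁻¹ ≠ z := fun e => h.az (by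
  rw [← cj_of_comm (h.zc _ (inv_mem hg)), ← e]; group)

theorem nb : ¬ Commute r a := fun k => by
  rcases h.om _ (mem_R.1 h.bR).1 ((Commute.refl a).mul_left k) h.zb with e | e | e
  · exact h.cjz h.yS (h.ya.trans e)
  · exact h.yR (h.DR h.yS (comm_of_cj (h.ya.trans e)))
  · refine h.yR ?_
    simpa using mul_mem h.uR (h.DR (mul_mem (inv_mem h.uS) h.yS) (comm_of_cj (a := a) (by
      calc _ = u⁻¹ * (y * a * y⁻¹) * u := by group
        _ = a := by rw [h.ya, e, ← h.ua]; group)))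

theorem odd {j : ℤ} (hj : Odd j) : r ^ (2 * j) ≠ 1 := fun e => h.nb (by
  have := odd_pow h.two (zpow_mem h.rS 2) hj (by rwa [← zpow_mul])
  exact (comm_of_cj (h.ar.trans (inv_eq_of_mul_eq_one_right (by rwa [zpow_two] at this)))).symm)

theorem odd1 {j : ℤ} (hj : Odd j) : r ^ j ≠ 1 := fun e => h.odd hj (by rw [mul_comm, zpow_mul, e, one_zpow])

theorem zw : w = z ∧ ∃ j : ℤ, r ^ (2 * j) = z := by
  obtain ⟨i, ⟨j, rfl⟩, hi⟩ := exists_involution_of_ne_bot (P := zpowers (r ^ (2 : ℤ)))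
    (h.two.to_le (zpowers_le.2 (zpow_mem h.rS 2))) (by simpa using h.odd odd_one)
  simp only [← zpow_mul] at hi
  have i2 := mul_self_of_orderOf hi
  have i1 := ne_one_of_orderOf hi
  have iS := zpow_mem h.rS (2 * j)
  have ia : Commute (r ^ (2 * j)) a := by
    rw [commute_iff_eq, h.ak, zpow_neg, inv_eq_of_mul_eq_one_right i2]
  have ib : Commute (r ^ (2 * j)) (a * r) := ia.mul_right (Commute.zpow_self r _)
  have key : ∀ i ∈ S, i ≠ 1 → Commute i a → IsConj z (a * i) → a * i ≠ z → i = w :=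
    fun i hi h1 h2 h3 h4 => by
      rcases h.om _ (mul_mem h.aS hi) ((Commute.refl a).mul_left h2) h3 with e | e | e
      exacts [(h4 e).elim, (h1 (by simpa using e)).elim, by simpa using e]
  have e1 := key _ iS i1 ia (by
    convert isConj_cj h.za (r ^ (-j)) using 1
    rw [zpow_neg, inv_inv, mul_assoc, h.ak, h.ak]; group) fun e => h.nb (by
      have := ((h.zc r h.rS).mul_right (Commute.self_zpow r (2 * j)).inv_right)
      rwa [← e, mul_inv_cancel_right] at this)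
  have yb : y⁻¹ * (a * r) * y⁻¹⁻¹ = a := by rw [← h.ya]; group
  have e2 := key (y⁻¹ * r ^ (2 * j) * y⁻¹⁻¹) (mul_mem (mul_mem (inv_mem h.yS) iS) (inv_mem (inv_mem h.yS)))
    (by simpa using (conj_eq_one_iff (a := y⁻¹)).not.2 i1) (yb ▸ comm_cj ib y⁻¹) (by
      convert isConj_cj (isConj_cj h.zb (r ^ (-j))) y⁻¹ using 1
      rw [← mul_assoc (r ^ (-j)), ← h.ak]
      nth_rw 1 [← yb]; group) fun e => h.nb (by
      have e' : a * r * r ^ (2 * j) = z := by
        rw [← cj_of_comm (h.zc y h.yS), ← e, ← h.ya]; group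
      have := ((h.zc a h.aS).mul_right ia.symm.inv_right)
      rw [← e', mul_inv_cancel_right] at this
      simpa using ((Commute.refl a).inv_right.mul_right this).symm)
  rw [e1] at e2
  have e3 : w = z := by
    have ht := h.mv (inv_mem h.yS) (inv_mem h.yN) (by simpa using h.yR)
    have k : y⁻¹ * (t * w) * y⁻¹⁻¹ = t * z * w := by rw [← ht]; nth_rw 2 [← e2]; group
    rcases h.cen_inv h.zS (h.zc a h.aS).symm (h.zc u h.uS).symm h.z2 h.z1 with e | e | e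
    · exact (h.tz (e ▸ IsConj.refl z)).elim
    · exact e.symm
    · rw [← e, cj_of_comm (h.zc _ (inv_mem h.yS)), e, ← mul_assoc t, h.t2, one_mul, h.w2] at k
      exact (h.z1 (e.trans k)).elim
  exact ⟨e3, j, e1.trans e3⟩

theorem zr : ∃ j : ℤ, r ^ (2 * j) = z := h.zw.2

theorem ua' : u * a * u⁻¹ = a * z := h.zw.1 ▸ h.ua

theorem memM : g ∈ closure ({r, a} : Set G) ↔ ∃ i : ℤ, g = r ^ i ∨ g = r ^ i * a := mem_dih h.a2 h.ar
theorem rM (i : ℤ) : r ^ i ∈ closure ({r, a} : Set G) := h.memM.2 ⟨i, .inl rfl⟩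
theorem raM (i : ℤ) : r ^ i * a ∈ closure ({r, a} : Set G) := h.memM.2 ⟨i, .inr rfl⟩
theorem aM : a ∈ closure ({r, a} : Set G) := by simpa using h.raM 0
theorem zM : z ∈ closure ({r, a} : Set G) := by obtain ⟨j, e⟩ := h.zr; exact e ▸ h.rM _
theorem MR : closure ({r, a} : Set G) ≤ R S t := (closure_le _).2 (by rintro _ (rfl | rfl); exacts [h.rR, h.aR])

theorem inv_r {i : ℤ} (hi : r ^ i * r ^ i = 1) : r ^ i = 1 ∨ r ^ i = z := by
  obtain ⟨j, e⟩ := h.zr
  exact eq_one_or_eq_of_mem_zpowers h.z2 (mem_zpowers_of_orderOf_dvd (zpow_mem_zpowers r i) (e ▸ zpow_mem_zpowers r _) (by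
    rw [orderOf_eq_two.2 ⟨h.z2, h.z1⟩]; exact orderOf_dvd_of_pow_eq_one (by rwa [pow_two])))

theorem cjA (j : ℤ) : r ^ j * a * (r ^ j)⁻¹ = r ^ (2 * j) * a := by
  rw [← zpow_neg, mul_assoc, h.ak]; group
theorem cjB (j : ℤ) : r ^ (j + 1) * y * a * (r ^ (j + 1) * y)⁻¹ = r ^ (2 * j + 1) * a := by
  calc _ = r ^ (j + 1) * (y * a * y⁻¹) * r ^ (-(j + 1)) := by group
    _ = _ := by rw [h.ya, mul_assoc, mul_assoc a, ← zpow_one_add, h.ak]; group

theorem cls (i : ℤ) : ∃ g ∈ S, g ∈ normalizer (R S t : Set G) ∧ g * a * g⁻¹ = r ^ i * a ∧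
    (g * t * g⁻¹ = t ∨ g * t * g⁻¹ = t * z) := by
  have k := fun j : ℤ => zpow_mem h.rR j
  obtain ⟨j, rfl | rfl⟩ := Int.even_or_odd' i
  · exact ⟨_, zpow_mem h.rS j, le_normalizer (k j), h.cjA j, .inl (cj_of_comm (mem_R.1 (k j)).2)⟩
  · have n := mul_mem (le_normalizer (k (j + 1))) h.yN
    exact ⟨_, mul_mem (zpow_mem h.rS _) h.yS, n, h.cjB j,
      .inr (h.mv (mul_mem (zpow_mem h.rS _) h.yS) n fun e => h.yR ((mul_mem_cancel_left (k _)).1 e))⟩

theorem nzt : ¬ IsConj z (t * z) := fun e => h.tz (e.trans (isConj_iff.2 ⟨y, h.mv h.yS h.yN h.yR⟩).symm)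
theorem zt : z ≠ t := fun e => h.tz (e ▸ IsConj.refl z)

theorem invM (hm : m ∈ closure ({r, a} : Set G)) (h2 : m * m = 1) : (m = 1 ∨ IsConj z m) ∧ ¬ IsConj z (m * t) := by
  have ct := (h.zc t h.tS').eq
  have at' := (h.ca t h.tC).eq
  obtain ⟨i, rfl | rfl⟩ := h.memM.1 hm
  · rcases h.inv_r h2 with e | e <;> rw [e]
    exacts [⟨.inl rfl, by simpa using h.tz⟩, ⟨.inr (IsConj.refl z), ct ▸ h.nzt⟩]
  obtain ⟨g, hg, -, e, k⟩ := h.cls i
  refine ⟨.inr (e ▸ isConj_cj h.za g), fun k1 => ?_⟩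
  have k2 := isConj_cj k1 g⁻¹
  rcases k with k | k
  · rw [← e, ← k, show g⁻¹ * (g * a * g⁻¹ * (g * t * g⁻¹)) * g⁻¹⁻¹ = a * t by group] at k2
    rcases h.om _ (mul_mem h.aS h.tS') ((Commute.refl a).mul_left (h.ca t h.tC)) k2 with e | e | e
    · exact h.nzt (by rw [← e, ← mul_assoc, at', mul_assoc, h.t2, mul_one, e]; exact h.za)
    · exact h.t1 (by simpa using e)
    · exact h.zt (by simpa [h.zw.1, eq_comm] using e)
  · have k' : g * (t * z) * g⁻¹ = t := by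
      calc _ = g * t * g⁻¹ * (g * z * g⁻¹) := by group
        _ = t := by rw [k, cj_of_comm (h.zc g hg), h.tzz]
    rw [← e, ← k', show g⁻¹ * (g * a * g⁻¹ * (g * (t * z) * g⁻¹)) * g⁻¹⁻¹ = a * (t * z) by group] at k2
    rcases h.om _ (mul_mem h.aS (mul_mem h.tS' h.zS))
      ((Commute.refl a).mul_left ((h.ca t h.tC).mul_left (h.zc a h.aS).symm)) k2 with e | e | e
    · rw [← mul_assoc, mul_eq_right] at e
      exact h.tz (by rw [eq_inv_of_mul_eq_one_right e, inv_eq_of_mul_eq_one_right h.a2]; exact h.za)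
    · exact h.zt (by rw [← h.tzz, mul_left_cancel (e.trans (mul_one a).symm), one_mul])
    · exact h.t1 (by simpa [h.zw.1] using e)

theorem tM : t ∉ closure ({r, a} : Set G) := fun e => (h.invM e h.t2).1.elim h.t1 h.tz

theorem tN (hm : m ∈ closure ({r, a} : Set G)) : t * m * t⁻¹ = m := cj_of_comm (mem_R.1 (h.MR hm)).2.symm

theorem memE : g ∈ closure ({r, a} : Set G) ⊔ zpowers t ↔ g ∈ closure ({r, a} : Set G) ∨ g * t ∈ closure ({r, a} : Set G) :=
  mem_ext (fun m hm => (h.tN hm).symm ▸ hm) (h.t2 ▸ one_mem _)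

theorem DM (hg : g ∈ S) (hc : Commute g a) : ∃ m ∈ closure ({r, a} : Set G), ∃ d ∈ C, g = m * d := by
  have w1 : w ∈ closure ({r, a} : Set G) := h.zw.1 ▸ h.zM
  obtain ⟨d, hd, rfl | rfl | rfl | rfl⟩ := h.hD g hg hc
  exacts [⟨1, one_mem _, _, hd, by simp⟩, ⟨w, w1, d, hd, (h.cw d hd).eq⟩, ⟨a, h.aM, d, hd, (h.ca d hd).eq⟩,
    ⟨_, mul_mem h.aM w1, d, hd, by rw [mul_assoc, ((h.ca d hd).mul_right (h.cw d hd)).eq]⟩]

theorem key (hg : g ∈ S) (hE : g * a * g⁻¹ ∈ closure ({r, a} : Set G) ⊔ zpowers t) :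
    (∃ j : ℤ, g * a * g⁻¹ = r ^ (2 * j) * a ∧ g ∈ R S t ∧ ∃ m ∈ closure ({r, a} : Set G), ∃ d ∈ C, g = m * d) ∨
    (∃ j : ℤ, g * a * g⁻¹ = r ^ (2 * j + 1) * a ∧ g ∉ R S t ∧ g ∈ normalizer (R S t : Set G)) := by
  have z1 := isConj_cj h.za g
  have s1 := conj_sq h.a2 g
  have hM : g * a * g⁻¹ ∈ closure ({r, a} : Set G) := (h.memE.1 hE).resolve_right fun e =>
    (h.invM e (h.sq_t s1 (h.MR e))).2 (by rwa [mul_assoc, h.t2, mul_one])
  have k := fun j : ℤ => zpow_mem h.rR j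
  obtain ⟨i, e | e⟩ := h.memM.1 hM
  · rcases h.inv_r (e ▸ s1) with e' | e'
    · exact (h.z1 (isConj_one_left.1 (by rwa [e, e'] at z1))).elim
    · exact (h.cjz hg (e.trans e')).elim
  obtain ⟨j, rfl | rfl⟩ := Int.even_or_odd' i
  · have c : Commute ((r ^ j)⁻¹ * g) a := comm_of_cj (by
      calc _ = (r ^ j)⁻¹ * (g * a * g⁻¹) * r ^ j := by group
        _ = a := by rw [e, ← h.cjA]; group)
    have gS := mul_mem (inv_mem (zpow_mem h.rS j)) hg
    obtain ⟨m, hm, d, hd, e'⟩ := h.DM gS c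
    exact .inl ⟨j, e, by simpa using mul_mem (k j) (h.DR gS c), r ^ j * m, mul_mem (h.rM j) hm, d, hd, by
      rw [mul_assoc, ← e']; group⟩
  · have c : Commute ((r ^ (j + 1) * y)⁻¹ * g) a := comm_of_cj (by
      calc _ = (r ^ (j + 1) * y)⁻¹ * (g * a * g⁻¹) * (r ^ (j + 1) * y) := by group
        _ = a := by rw [e, ← h.cjB]; group)
    have c' := h.DR (mul_mem (inv_mem (mul_mem (zpow_mem h.rS _) h.yS)) hg) c
    exact .inr ⟨j, e, fun e' => h.yR (by simpa using mul_mem (inv_mem (k (j + 1))) (mul_mem e' (inv_mem c'))),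
      by simpa [mul_assoc] using mul_mem (mul_mem (le_normalizer (k (j + 1))) h.yN) (le_normalizer c')⟩

theorem ER : closure ({r, a} : Set G) ⊔ zpowers t ≤ R S t := sup_le h.MR (zpowers_le.2 (h.CR h.tC))

theorem keyR (hg : g ∈ R S t) (hE : g * a * g⁻¹ ∈ closure ({r, a} : Set G) ⊔ zpowers t) :
    ∃ j : ℤ, g * a * g⁻¹ = r ^ (2 * j) * a ∧ ∃ m ∈ closure ({r, a} : Set G), ∃ d ∈ C, g = m * d := by
  obtain ⟨j, e, -, k⟩ | ⟨j, -, e, -⟩ := h.key (mem_R.1 hg).1 hE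
  exacts [⟨j, e, k⟩, (e hg).elim]

theorem keyN (hg : g ∈ S) (hR : g ∉ R S t) (hE : g * a * g⁻¹ ∈ closure ({r, a} : Set G) ⊔ zpowers t) :
    ∃ j : ℤ, g * a * g⁻¹ = r ^ (2 * j + 1) * a := by
  obtain ⟨j, -, e, -⟩ | ⟨j, e, -⟩ := h.key hg hE
  exacts [(hR e).elim, ⟨j, e⟩]

theorem Ccase (hd : d ∈ C) (he : e ∈ C) (h1 : d * d = t) (h2 : e * e = t) : e = d ∨ e = d * t := by
  have c := (h.cc d hd e he).inv_left
  rcases h.hC _ (mul_mem (inv_mem hd) he) with k | k | k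
  · exact .inl (eq_of_inv_mul_eq_one k).symm
  · exact .inr (by rw [← k]; group)
  · rw [c.symm.mul_mul_mul_comm, h2, ← mul_inv_rev, h1, inv_mul_cancel] at k
    exact (h.t1 k.symm).elim

theorem CE (hd : d ∈ C) : d ∈ normalizer ((closure ({r, a} : Set G) ⊔ zpowers t : Subgroup G) : Set G) := by
  have tE : t ∈ closure ({r, a} : Set G) ⊔ zpowers t := mem_sup_right (mem_zpowers t)
  rcases h.hC d hd with rfl | rfl | k
  · exact one_mem _
  · exact le_normalizer tE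
  rcases h.ER.eq_or_lt with e | e
  · exact le_normalizer (e ▸ h.CR hd)
  obtain ⟨g, g1, g2, g3⟩ := exists_mem_normalizer_of_lt (h.two.to_le inf_le_left) e
  obtain ⟨-, -, m, hm, e, he, rfl⟩ := h.keyR g1 (conj_mem_of_mem_normalizer g3 (mem_sup_left h.aM))
  have mE : m ∈ closure ({r, a} : Set G) ⊔ zpowers t := mem_sup_left hm
  have eN := (mul_mem_cancel_left (le_normalizer mE)).1 g3
  rcases h.hC e he with rfl | rfl | k'
  · exact (g2 (by simpa using mE)).elim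
  · exact (g2 (mul_mem mE tE)).elim
  rcases h.Ccase he hd k' k with rfl | rfl
  exacts [eN, mul_mem eN (le_normalizer tE)]

theorem Cr (hd : d ∈ C) : d * r * d⁻¹ ∈ zpowers r := by
  obtain ⟨j, e⟩ := h.keyN (mul_mem (h.CS hd) h.yS) (fun e => h.yR ((mul_mem_cancel_left (h.CR hd)).1 e)) (by
    have := conj_mem_of_mem_normalizer (h.CE hd) (mem_sup_left (mul_mem h.aM (h.rM 1)))
    rwa [zpow_one, ← h.ya, show d * (y * a * y⁻¹) * d⁻¹ = d * y * a * (d * y)⁻¹ by group] at this)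
  refine ⟨-(2 * j + 1), ?_⟩
  have : d * r * d⁻¹ = (d * a * d⁻¹)⁻¹ * (d * y * a * (d * y)⁻¹) := by
    rw [show d * y * a * (d * y)⁻¹ = d * (y * a * y⁻¹) * d⁻¹ by group, h.ya]; group
  simp only
  rw [this, e, cj_of_comm (h.ca d hd), inv_eq_of_mul_eq_one_right h.a2, ← mul_assoc, h.ak, mul_assoc, h.a2, mul_one]

theorem CM : C ≤ normalizer ((closure ({r, a} : Set G) : Subgroup G) : Set G) := fun d hd =>
  mem_normalizer_of_conj_mem fun m hm => by
    obtain ⟨k, hk⟩ := h.Cr hd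
    simp only at hk
    obtain ⟨i, rfl | rfl⟩ := h.memM.1 hm
    · rw [← conj_zpow, ← hk, ← zpow_mul]; exact h.rM _
    · rw [← conj_mul, ← conj_zpow, ← hk, ← zpow_mul, cj_of_comm (h.ca d hd)]; exact h.raM _

theorem sqM (hm : m ∈ closure ({r, a} : Set G)) (hd : d ∈ C) (h2 : m * d * (m * d) ∈ closure ({r, a} : Set G)) :
    d = 1 ∨ d = t := by
  rcases h.hC d hd with k | k | k
  exacts [.inl k, .inr k, (h.tM (by
    have := mul_mem (inv_mem (mul_mem hm (conj_mem_of_mem_normalizer (h.CM hd) hm))) h2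
    rwa [show (m * (d * m * d⁻¹))⁻¹ * (m * d * (m * d)) = d * d by group, k] at this)).elim]

theorem sqE (hm : m ∈ closure ({r, a} : Set G)) (hd : d ∈ C) (h2 : m * d * (m * d) ∈ closure ({r, a} : Set G)) :
    m * d ∈ closure ({r, a} : Set G) ⊔ zpowers t := by
  rcases h.sqM hm hd h2 with rfl | rfl
  exacts [mem_sup_left (by simpa using hm), mul_mem (mem_sup_left hm) (mem_sup_right (mem_zpowers _))]

theorem RMC (hg : g ∈ R S t) : ∃ m ∈ closure ({r, a} : Set G), ∃ d ∈ C, g = m * d := by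
  have k : ∀ g ∈ closure ({r, a} : Set G) ⊔ C, ∃ m ∈ closure ({r, a} : Set G), ∃ d ∈ C, g = m * d := fun g hg => by
    simpa [eq_comm] using (H1.mem_sup_of_le_normalizer h.CM).1 hg
  rcases (sup_le h.MR h.CR).eq_or_lt with e | e
  · exact k g (e ▸ hg)
  obtain ⟨g, g1, g2, g3⟩ := exists_mem_normalizer_of_lt (h.two.to_le inf_le_left) e
  obtain ⟨m, hm, d, hd, e⟩ := k _ (conj_mem_of_mem_normalizer g3 (mem_sup_left h.aM))
  obtain ⟨-, -, m, hm, d, hd, rfl⟩ := h.keyR g1 (e ▸ h.sqE hm hd (by rw [← e, conj_sq h.a2]; exact one_mem _))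
  exact (g2 (mul_mem (mem_sup_left hm) (mem_sup_right hd))).elim

theorem RE (hg : g ∈ R S t) (h2 : g * g ∈ closure ({r, a} : Set G)) : g ∈ closure ({r, a} : Set G) ⊔ zpowers t := by
  obtain ⟨m, hm, d, hd, rfl⟩ := h.RMC hg
  exact h.sqE hm hd h2

theorem RE1 (hg : g ∈ R S t) (h2 : g * g = 1) : g ∈ closure ({r, a} : Set G) ⊔ zpowers t := h.RE hg (h2 ▸ one_mem _)

theorem mulR (hg : g ∈ S) (hn : g ∈ normalizer (R S t : Set G)) (hR : g ∉ R S t) (hq : q ∈ S)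
    (hn' : q ∈ normalizer (R S t : Set G)) (hR' : q ∉ R S t) : g * q ∈ R S t :=
  mem_R.2 ⟨mul_mem hg hq, comm_of_cj (by
    calc _ = g * (q * t * q⁻¹) * g⁻¹ := by group
      _ = g * t * g⁻¹ * (g * z * g⁻¹) := by rw [h.mv hq hn' hR']; group
      _ = t := by rw [h.mv hg hn hR, cj_of_comm (h.zc g hg), h.tzz])⟩

theorem act (hg : g ∈ S) (hn : g ∈ normalizer (R S t : Set G)) (hR : g ∉ R S t) :
    ∃ j f : ℤ, g * a * g⁻¹ = r ^ (2 * j + 1) * a ∧ g * r * g⁻¹ = r ^ (2 * f - 1) := by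
  obtain ⟨j, e⟩ := h.keyN hg hR (h.RE1 (conj_mem_of_mem_normalizer hn h.aR) (conj_sq h.a2 g))
  have k := h.mulR hg hn hR h.yS h.yN h.yR
  obtain ⟨i, e', -⟩ := h.keyR k (h.RE1 (mul_mem (mul_mem k h.aR) (inv_mem k)) (conj_sq h.a2 _))
  refine ⟨j, j + 1 - i, e, ?_⟩
  calc _ = g * a * g⁻¹ * (g * y * a * (g * y)⁻¹) := by
        rw [show g * y * a * (g * y)⁻¹ = g * (y * a * y⁻¹) * g⁻¹ by group, h.ya, conj_mul, ← mul_assoc a, h.a2, one_mul]
    _ = _ := by rw [e, e', mul_assoc, ← mul_assoc a, h.ak, mul_assoc, h.a2]; group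

theorem swap (hg : g ∈ S) (hn : g ∈ normalizer (R S t : Set G)) (hR : g ∉ R S t) (i k : ℤ) :
    g * (r ^ i * a) * g⁻¹ ≠ r ^ (2 * k) * (r ^ i * a) := fun e => by
  obtain ⟨j, f, e1, e2⟩ := h.act hg hn hR
  rw [← conj_mul, e1, ← conj_zpow, e2, ← zpow_mul, ← mul_assoc, ← mul_assoc, mul_left_inj, ← zpow_add, ← zpow_add,
    ← mul_inv_eq_one, ← zpow_sub] at e
  exact h.odd1 ⟨f * i - i + j - k, by ring⟩ e

theorem swap' (hg : g ∈ S) (hn : g ∈ normalizer (R S t : Set G)) (hR : g ∉ R S t)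
    (hm : m ∈ closure ({r, a} : Set G)) (hc : Commute g (m * t ^ (2 : ℕ)) ∨ Commute g (m * t)) :
    m ∈ zpowers r ∧ (Commute g (m * t) → m * m ≠ 1) := by
  obtain ⟨j, ez⟩ := h.zr
  have k : Commute g (m * t) → g * m * g⁻¹ = z * m := fun c => by
    have := cj_of_comm c
    rw [← conj_mul, h.mv hg hn hR, (h.zc t h.tS').eq, ← mul_assoc, mul_left_inj] at this
    rw [← (h.zc m (mem_R.1 (h.MR hm)).1).eq, ← mul_left_inj z, this, mul_assoc, h.z2, mul_one]
  obtain ⟨i, rfl | rfl⟩ := h.memM.1 hm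
  · refine ⟨zpow_mem_zpowers r i, fun c e => h.z1 ?_⟩
    rcases h.inv_r e with e | e <;> rw [e] at c k
    · simpa using (k c).symm
    · simpa [cj_of_comm (h.zc g hg), h.z2] using k c
  · rcases hc with c | c
    · exact (h.swap hg hn hR i 0 (by simpa [pow_two, h.t2] using cj_of_comm c)).elim
    · exact (h.swap hg hn hR i j (ez ▸ k c)).elim

theorem SN (hg : g ∈ S) : g ∈ normalizer (R S t : Set G) := by
  rcases (inf_le_left : S ⊓ normalizer (R S t : Set G) ≤ S).eq_or_lt with e | e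
  · exact (e.ge hg).2
  exfalso
  obtain ⟨g, g1, g2, g3⟩ := exists_mem_normalizer_of_lt h.two e
  have k : ∀ x ∈ R S t, g * x * g⁻¹ ∈ S ⊓ normalizer (R S t : Set G) := fun x hx =>
    conj_mem_of_mem_normalizer g3 ⟨(mem_R.1 hx).1, le_normalizer hx⟩
  by_cases c : g * a * g⁻¹ ∈ R S t
  · obtain ⟨-, -, e, -⟩ | ⟨-, -, -, e⟩ := h.key g1 (h.RE1 c (conj_sq h.a2 g))
    exacts [g2 ⟨g1, le_normalizer e⟩, g2 ⟨g1, e⟩]
  have k1 := k _ h.aR
  have fin : ∀ x, x * x = 1 → x ≠ 1 → ¬ IsConj z x → Commute a x → g * x * g⁻¹ ∉ R S t := fun x h1 h2 h3 h4 h5 => by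
    rcases h.memE.1 (h.RE1 h5 (conj_sq h1 g)) with e | e
    · exact (h.invM e (conj_sq h1 g)).1.elim (by simpa using h2) fun e =>
        h3 (e.trans (isConj_iff.2 ⟨g, rfl⟩).symm)
    · have c' : Commute (g * a * g⁻¹) (g * x * g⁻¹ * t * t) := by
        rw [mul_assoc _ t, h.t2, mul_one]; exact comm_cj h4 g
      exact (h.swap' k1.1 k1.2 c e (.inr c')).2 c' (h.sq_t (conj_sq h1 g) (h.MR e))
  have c1 := (h.ca t h.tC).symm
  have k2 := k _ (h.CR h.tC)
  refine fin (a * t) (h.sq_t h.a2 (mul_mem h.aR (h.CR h.tC))) (fun e => h.tz ?_) (h.invM h.aM h.a2).2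
    ((Commute.refl a).mul_right c1) (by rw [← conj_mul]; exact h.mulR k1.1 k1.2 c k2.1 k2.2 (fin t h.t2 h.t1 h.tz c1))
  rw [eq_inv_of_mul_eq_one_right e, inv_eq_of_mul_eq_one_right h.a2]; exact h.za

theorem Sr (hg : g ∈ S) : ∃ f : ℤ, g * r * g⁻¹ = r ^ f := by
  by_cases c : g ∈ R S t
  · obtain ⟨m, hm, d, hd, rfl⟩ := h.RMC c
    obtain ⟨k, hk⟩ := h.Cr hd
    simp only at hk
    rw [show m * d * r * (m * d)⁻¹ = m * (d * r * d⁻¹) * m⁻¹ by group, ← hk]
    obtain ⟨i, rfl | rfl⟩ := h.memM.1 hm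
    · exact ⟨k, by group⟩
    · exact ⟨-k, by rw [mul_assoc _ a, h.ak]; group⟩
  · obtain ⟨j, f, -, e⟩ := h.act hg (h.SN hg) c
    exact ⟨_, e⟩

theorem SM (hg : g ∈ S) (hm : m ∈ closure ({r, a} : Set G)) : g * m * g⁻¹ ∈ closure ({r, a} : Set G) := by
  obtain ⟨f, e⟩ := h.Sr hg
  have k : g * a * g⁻¹ ∈ closure ({r, a} : Set G) := by
    obtain ⟨j, e, -⟩ | ⟨j, e, -⟩ := h.key hg (h.RE1 (conj_mem_of_mem_normalizer (h.SN hg) h.aR) (conj_sq h.a2 g)) <;>
    exact e ▸ h.raM _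
  have k' : ∀ i : ℤ, g * r ^ i * g⁻¹ ∈ closure ({r, a} : Set G) := fun i => by
    rw [← conj_zpow, e, ← zpow_mul]; exact h.rM _
  obtain ⟨i, rfl | rfl⟩ := h.memM.1 hm
  exacts [k' i, by rw [← conj_mul]; exact mul_mem (k' i) k]

theorem dr (hd : d ∈ C) (h2 : d * d = t) : d * r * d⁻¹ = r * z := by
  obtain ⟨j, ez⟩ := h.zr
  have nc : ¬ d * r * d⁻¹ = r := fun e => by
    have k := fun r => h.cenR (r := r) h.yN (h.CR hd) fun g hg => by
      obtain ⟨m, hm, e', he, rfl⟩ := h.RMC hg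
      refine Commute.mul_right ?_ (h.cc d hd e' he)
      obtain ⟨i, rfl | rfl⟩ := h.memM.1 hm
      exacts [(comm_of_cj e).zpow_right i, ((comm_of_cj e).zpow_right i).mul_right (h.ca d hd)]
    have s : y * d * y⁻¹ * (y * d * y⁻¹) = t * z := by rw [conj_mul, h2, h.mv h.yS h.yN h.yR]
    have n : t * z ≠ 1 := fun e => h.zt (by rw [← h.tzz, e, one_mul])
    rcases h.cen_sq (mul_mem (mul_mem h.yS (h.CS hd)) (inv_mem h.yS)) (k _ h.aR) (k _ h.uR) with (e | e | e | e) | e <;>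
    rw [e] at s
    · exact n (by simpa using s.symm)
    · exact n (s ▸ h.t2)
    · exact n (s ▸ h.w2)
    · exact n (by rw [← s, (h.cw t h.tC).symm.mul_mul_mul_comm, h.t2, h.w2, one_mul])
    · exact h.z1 (by simpa using s)
  have cj : Commute d (r ^ j) := by
    have := (h.cu d hd).mul_right (h.Dc (mul_mem (inv_mem h.uS) (zpow_mem h.rS j)) (comm_of_cj (a := a) (by
      calc _ = u⁻¹ * (r ^ j * a * (r ^ j)⁻¹) * u := by group
        _ = a := by rw [h.cjA, ez, ← (h.zc a h.aS).eq, ← h.ua']; group)) hd)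
    simpa using this
  obtain ⟨k, hk⟩ := IsPGroup.iff_orderOf.1 h.two ⟨r, h.rS⟩
  rw [← orderOf_coe] at hk
  change orderOf r = _ at hk
  rcases k with _ | k
  · exact (h.odd1 odd_one (by simpa using hk)).elim
  have u1 : r ^ 2 ^ k = z := by
    have := orderOf_pow_two_pow (m := 1) (j := k) (x := r) (by rw [hk, add_comm])
    have := (h.inv_r (i := (2 ^ k : ℕ)) (by simpa only [zpow_natCast] using mul_self_of_orderOf this)).resolve_left
      (by simpa only [zpow_natCast] using ne_one_of_orderOf this)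
    simpa only [zpow_natCast] using this
  have c1 := cj_of_comm cj
  rw [← conj_zpow] at c1
  rcases conj_cases hk (h.Cr hd) (h2 ▸ (mem_R.1 h.rR).2.symm) with e | e | e | e
  · exact (nc e).elim
  · rwa [u1] at e
  · rw [e, inv_zpow, inv_eq_iff_mul_eq_one, ← zpow_add, ← two_mul, ez] at c1
    exact (h.z1 c1).elim
  · rw [u1] at e
    rw [e, (h.zc r h.rS).inv_left.mul_zpow, inv_zpow, inv_mul_eq_iff_eq_mul, ← zpow_add, ← two_mul, ez] at c1
    have z2 : z ^ (2 : ℤ) = 1 := by rw [zpow_two, h.z2]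
    obtain ⟨i, rfl | rfl⟩ := Int.even_or_odd' j
    · exact (h.z1 (by rw [← c1, zpow_mul, z2, one_zpow])).elim
    · have r4 := odd_pow h.two (zpow_mem h.rS 4) ⟨i, rfl⟩ (by
        rw [← zpow_mul, ← h.z2, ← ez, ← zpow_add]; congr 1; ring)
      have := (h.inv_r (i := 2) (by rw [← r4, ← zpow_add]; rfl)).resolve_left (by simpa using h.odd odd_one)
      exact (nc (by rw [e, ← this]; group)).elim

theorem bad_sq (hg : g ∈ S) (hR : g ∉ R S t) (hd : d ∈ C) (h2 : d * d = t) (hm : m ∈ closure ({r, a} : Set G))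
    (e : g * d * g⁻¹ = m * (d * t)) : ∃ l : ℤ, g * g = r ^ l ∨ g * g = r ^ l * t := by
  have n := h.SN hg
  have c : Commute g (g * g) := (Commute.refl g).mul_right (Commute.refl g)
  have dt := (h.cc d hd t h.tC).eq
  have hE : g * g ∈ closure ({r, a} : Set G) ⊔ zpowers t := by
    obtain ⟨m', hm', d', hd', e'⟩ := h.RMC (h.mulR hg n hR hg n hR)
    rcases h.hC d' hd' with rfl | rfl | k
    · exact mem_sup_left (by simpa [e'] using hm')
    · exact e' ▸ mul_mem (mem_sup_left hm') (mem_sup_right (mem_zpowers _))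
    have c' := cj_of_comm c
    have k1 := mul_mem (h.SM hg hm') hm
    rw [e', ← conj_mul] at c'
    refine (h.tM ?_).elim
    rcases h.Ccase hd hd' h2 k with rfl | rfl
    · rw [e, dt, ← mul_assoc, ← mul_assoc, mul_left_inj] at c'
      exact (mul_mem_cancel_left k1).1 (by rwa [c'])
    · rw [← conj_mul (a := d), e, h.mv hg n hR, show m * (d * t) * (t * z) = m * (d * (t * t) * z) by group, h.t2,
        mul_one, (h.zc d (h.CS hd)).eq, dt, ← mul_assoc, ← mul_assoc, ← mul_assoc, mul_left_inj] at c'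
      simpa [c'] using mul_mem (inv_mem hm') (mul_mem k1 h.zM)
  rcases h.memE.1 hE with k | k
  · obtain ⟨l, e⟩ := (h.swap' hg n hR k (.inl (by rwa [pow_two t, h.t2, mul_one]))).1
    exact ⟨l, .inl e.symm⟩
  · obtain ⟨l, e⟩ := (h.swap' hg n hR k (.inr (by rwa [mul_assoc _ t, h.t2, mul_one]))).1
    exact ⟨l, .inr (by simp only at e; rw [e, mul_assoc _ t, h.t2, mul_one])⟩

theorem bad (hg : g ∈ S) (hR : g ∉ R S t) (hd : d ∈ C) (h2 : d * d = t) (hm : m ∈ closure ({r, a} : Set G))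
    (e : g * d * g⁻¹ = m * (d * t)) : False := by
  have n := h.SN hg
  have rt := (mem_R.1 h.rR).2
  have rz := h.zc r h.rS
  have dt := h.cc d hd t h.tC
  have dS := h.CS hd
  have k : ∀ x, (∃ l : ℤ, x = r ^ l ∨ x = r ^ l * t) → Commute x r := by
    rintro _ ⟨l, rfl | rfl⟩
    exacts [Commute.zpow_self r l, (Commute.zpow_self r l).mul_left rt.symm]
  have dr := h.dr hd h2
  have drl : ∀ l : ℤ, d * r ^ l * d⁻¹ = r ^ l * z ^ l := fun l => by rw [← conj_zpow, dr, rz.mul_zpow]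
  obtain ⟨l, hl⟩ := h.bad_sq hg hR hd h2 hm e
  have c1 := k _ (h.bad_sq (mul_mem hg dS) (fun e => hR ((mul_mem_cancel_right (h.CR hd)).1 e)) hd h2 hm
    (by rw [← e]; group))
  have c2 : Commute (d * (t * (g * g)) * d⁻¹) r := by
    have := comm_cj (rt.symm.mul_left (k _ ⟨l, hl⟩)) d
    rw [dr] at this
    simpa [mul_assoc, h.z2] using this.mul_right (h.zc _ (mul_mem (mul_mem dS (mul_mem h.tS' (mul_mem hg hg)))
      (inv_mem dS)))
  have c3 : Commute m r := by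
    have := c1.mul_left (c2.mul_left rt.symm).inv_left
    rwa [show g * d * (g * d) = g * d * g⁻¹ * (g * g) * d by group, e,
      show m * (d * t) * (g * g) * d = m * (d * (t * (g * g)) * d⁻¹ * (d * d)) by group, h2,
      mul_inv_cancel_right] at this
  obtain ⟨s, rfl | rfl⟩ := h.memM.1 hm
  swap
  · exact h.nb (by simpa using ((Commute.zpow_self r s).inv_left.mul_left c3).symm)
  have s1 : r ^ (2 * s) * z ^ s = z := by
    have := h.mv hg n hR
    rw [← h2, ← conj_mul, e, h2, ← mul_assoc (r ^ s) d t, ((rt.zpow_left s).mul_left dt).symm.mul_mul_mul_comm, h.t2, mul_one,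
      show r ^ s * d * (r ^ s * d) = r ^ s * (d * r ^ s * d⁻¹) * (d * d) by group, drl, h2, (h.zc t h.tS').eq,
      mul_left_inj] at this
    rwa [two_mul, zpow_add, mul_assoc]
  have z2 : z ^ (2 : ℤ) = 1 := by rw [zpow_two, h.z2]
  obtain ⟨s, rfl | rfl⟩ := Int.even_or_odd' s
  swap
  · exact h.odd ⟨s, rfl⟩ (by rwa [zpow_add, zpow_mul z, z2, one_zpow, one_mul, zpow_one, mul_eq_right] at s1)
  rw [zpow_mul z, z2, one_zpow, mul_one] at s1
  obtain ⟨j, f, e1, e2⟩ := h.act hg n hR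
  have k' : ∀ x, Commute t x → g * (g * x * g⁻¹) * g⁻¹ = r ^ l * x * (r ^ l)⁻¹ := fun x hx => by
    rw [show g * (g * x * g⁻¹) * g⁻¹ = g * g * x * (g * g)⁻¹ by group]
    rcases hl with e | e <;> rw [e]
    rw [show r ^ l * t * x * (r ^ l * t)⁻¹ = r ^ l * (t * x * t⁻¹) * (r ^ l)⁻¹ by group, cj_of_comm hx]
  have p1 := k' a (h.ca t h.tC)
  rw [h.cjA, e1, ← conj_mul, e1, ← conj_zpow, e2, ← mul_assoc, mul_left_inj, ← zpow_mul, ← zpow_add,
    ← mul_inv_eq_one, ← zpow_sub, show (2 * f - 1) * (2 * j + 1) + (2 * j + 1) - 2 * l = 2 * (f * (2 * j + 1) - l) by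
      ring] at p1
  have p2 := k' d dt.symm
  rw [e, ← conj_mul, ← conj_mul, e, h.mv hg n hR, ← conj_zpow, e2, ← zpow_mul,
    show r ^ (2 * s) * (d * t) * (t * z) = r ^ (2 * s) * (d * (t * t) * z) by group, h.t2, mul_one,
    (h.zc d dS).eq, show r ^ l * d * (r ^ l)⁻¹ = r ^ l * (d * r ^ (-l) * d⁻¹) * d by group, drl, ← mul_assoc,
    ← mul_assoc, mul_left_inj, ← zpow_add, show (2 * f - 1) * (2 * s) + 2 * s = 2 * (2 * s) * f by ring,
    zpow_mul, s1] at p2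
  obtain ⟨i, hi⟩ := Int.not_odd_iff_even.1 fun o => h.odd o p1
  refine h.z1 (odd_pow h.two h.zS (j := f + 1 + l) ⟨f + f * j - i, by linarith⟩ ?_)
  rw [zpow_add, zpow_add, zpow_one, p2]; group

theorem comm_C (hg : g ∈ S) (hd : d ∈ C) : g * d * g⁻¹ * d⁻¹ ∈ closure ({r, a} : Set G) := by
  by_cases c : g ∈ R S t
  · obtain ⟨m, hm, e, he, rfl⟩ := h.RMC c
    rw [show m * e * d * (m * e)⁻¹ * d⁻¹ = m * (e * d * e⁻¹ * m⁻¹ * d⁻¹) by group, cj_of_comm (h.cc e he d hd)]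
    exact mul_mem hm (h.SM (h.CS hd) (inv_mem hm))
  have mv := h.mv hg (h.SN hg) c
  rcases h.hC d hd with rfl | rfl | k
  · simp
  · rw [mv, cj_of_comm (h.zc _ h.tS')]; exact h.zM
  obtain ⟨m, hm, e, he, e'⟩ := h.RMC (conj_mem_of_mem_normalizer (h.SN hg) (h.CR hd))
  have s : m * e * (m * e) = t * z := by rw [← e', conj_mul, k, mv]
  have n : m * m ≠ t * z := fun e => h.tM (by simpa [e] using mul_mem (mul_mem hm hm) (inv_mem h.zM))
  rcases h.hC e he with rfl | rfl | k'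
  · exact (n (by simpa using s)).elim
  · exact (n (by rwa [(mem_R.1 (h.MR hm)).2.symm.mul_mul_mul_comm, h.t2, mul_one] at s)).elim
  rcases h.Ccase hd he k k' with rfl | rfl
  · simpa [e'] using hm
  · exact (h.bad hg c hd k hm e').elim

theorem comm_S : ⁅S, S⁆ ≤ closure ({r, a} : Set G) := by
  have hn : ((closure ({r, a} : Set G)).subgroupOf S).Normal := ⟨fun m hm g => h.SM g.2 hm⟩
  let f := QuotientGroup.mk' ((closure ({r, a} : Set G)).subgroupOf S)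
  have k : ∀ g d : S, (d : G) ∈ C → Commute (f g) (f d) := fun g d hd => by
    rw [← commutatorElement_eq_one_iff_commute, ← map_commutatorElement]
    exact (QuotientGroup.eq_one_iff _).2 (h.comm_C g.2 hd)
  have k1 : ∀ g : S, (g : G) ∈ R S t → ∃ d : S, (d : G) ∈ C ∧ f g = f d := fun g hg => by
    obtain ⟨m, hm, d, hd, e⟩ := h.RMC hg
    refine ⟨⟨d, h.CS hd⟩, hd, ?_⟩
    rw [show g = ⟨m, (mem_R.1 (h.MR hm)).1⟩ * ⟨d, h.CS hd⟩ from Subtype.ext e, map_mul,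
      show f ⟨m, _⟩ = 1 from (QuotientGroup.eq_one_iff _).2 hm, one_mul]
  refine commutator_le.2 fun g hg q hq => ?_
  suffices Commute (f ⟨g, hg⟩) (f ⟨q, hq⟩) by
    rw [← commutatorElement_eq_one_iff_commute, ← map_commutatorElement] at this
    exact (QuotientGroup.eq_one_iff ⁅(⟨g, hg⟩ : S), (⟨q, hq⟩ : S)⁆).1 this
  by_cases c : q ∈ R S t
  · obtain ⟨d, hd, e⟩ := k1 ⟨q, hq⟩ c
    exact e ▸ k _ d hd
  by_cases c' : g ∈ R S t
  · obtain ⟨d, hd, e⟩ := k1 ⟨g, hg⟩ c'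
    exact e ▸ (k _ d hd).symm
  obtain ⟨d, hd, e⟩ := k1 (⟨g, hg⟩ * ⟨q, hq⟩) (h.mulR hg (h.SN hg) c' hq (h.SN hq) c)
  have := k ⟨g, hg⟩ d hd
  rw [← e, map_mul] at this
  simpa using (Commute.refl (f ⟨g, hg⟩)).inv_right.mul_right this

theorem fin (hi : ¬ 2 ∣ S.index) (hq : q ∈ S) (h2 : q * q ∈ closure ({r, a} : Set G))
    (ht : t * q ∉ closure ({r, a} : Set G))
    (hc : ∀ x ∈ S, x ∉ R S t → x * x = 1 → x * t * q ∈ closure ({r, a} : Set G)) : t ∉ commutator G := by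
  have k := fun g => mem_ext (g := g) (fun m hm => h.SM hq hm) h2
  refine not_mem_der Nat.prime_two (h.comm_S.trans (le_sup_left (b := zpowers q))) hi h.tS'
    (fun e => ((k t).1 e).elim h.tM ht) ((H18.piNat_self Nat.prime_two).of_dvd
      (orderOf_dvd_of_pow_eq_one (by rw [pow_two, h.t2]))) fun n x hx => ?_
  have t2 : t ^ 2 = 1 := by rw [pow_two, h.t2]
  obtain ⟨n, rfl | rfl⟩ := Nat.even_or_odd' n
  · simp [pow_mul, t2]
  rw [pow_succ, pow_mul, t2, one_pow, one_mul] at hx ⊢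
  rw [inv_eq_of_mul_eq_one_right h.t2]
  by_cases c : x * t * x⁻¹ ∈ R S t
  · refine mem_sup_left ((h.memE.1 (h.RE1 c (conj_sq h.t2 x))).resolve_left fun e => ?_)
    exact (h.invM e (conj_sq h.t2 x)).1.elim (by simpa using h.t1) fun e => h.tz (e.trans (isConj_iff.2 ⟨x, rfl⟩).symm)
  · exact (k _).2 (.inr (hc _ hx c (conj_sq h.t2 x)))

theorem not_mem_der (hi : ¬ 2 ∣ S.index) : t ∉ commutator G := by
  by_cases c : ∃ v ∈ S, v ∉ R S t ∧ v * v = 1
  swap
  · exact h.fin hi (one_mem S) (by simp) (by simpa using h.tM) fun x h1 h2 h3 => (c ⟨x, h1, h2, h3⟩).elim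
  obtain ⟨v, vS, vR, v2⟩ := c
  have n := h.SN vS
  have vi := inv_eq_of_mul_eq_one_right v2
  have mv := h.mv vS n vR
  have tR := h.CR h.tC
  have e0 : t * (v * t) = v * z := by
    rw [← vi, show t * (v⁻¹ * t) = v⁻¹ * (v * t * v⁻¹ * t) by group, mv, (h.zc t h.tS').eq, mul_assoc z, h.t2, mul_one]
  refine h.fin hi (mul_mem vS h.tS') ?_ (fun e => vR ?_) fun x xS xR x2 => ?_
  · rw [mul_assoc, e0, ← mul_assoc, v2, one_mul]; exact h.zM
  · simpa [e0] using mul_mem (h.MR e) (inv_mem h.zR)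
  rw [mul_assoc, e0, ← mul_assoc]
  refine mul_mem ((h.memE.1 (h.RE (h.mulR xS (h.SN xS) xR vS n vR) ?_)).resolve_right fun e => ?_) h.zM
  · have := h.comm_S (commutator_mem_commutator xS vS)
    rwa [commutatorElement_def, vi, inv_eq_of_mul_eq_one_right x2, mul_assoc (x * v)] at this
  have e1 : x * v * t * (v * (x * v * t) * v⁻¹) = z := by
    calc _ = x * (v * t * v⁻¹) * x⁻¹ * (v * t * v⁻¹) := by
          simp only [vi, inv_eq_of_mul_eq_one_right x2, mul_assoc]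
      _ = z := by
        rw [mv, ← conj_mul (b := x), h.mv xS (h.SN xS) xR, cj_of_comm (h.zc x xS), h.tzz, ← mul_assoc, h.t2, one_mul]
  obtain ⟨j, f, e2, e3⟩ := h.act vS n vR
  have e4 : r ^ (2 * f) = 1 := odd_pow h.two (zpow_mem h.rS _) ⟨j, rfl⟩ (by
    have : v * (v * a * v⁻¹) * v⁻¹ = a := by rw [vi, ← mul_assoc, ← mul_assoc, v2, one_mul, mul_assoc, v2, mul_one]
    rw [e2, ← conj_mul, e2, ← conj_zpow, e3, ← mul_assoc, mul_eq_right, ← zpow_mul, ← zpow_add] at this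
    rw [← zpow_mul, ← this]; congr 1; ring)
  rw [zpow_sub, e4, one_mul, zpow_one] at e3
  obtain ⟨k, ez⟩ := h.zr
  obtain ⟨i, e | e⟩ := h.memM.1 e <;> rw [e] at e1
  · rw [← conj_zpow, e3, inv_zpow, mul_inv_cancel] at e1
    exact h.z1 e1.symm
  · rw [← conj_mul, ← conj_zpow, e3, e2, inv_zpow, ← zpow_neg, ← mul_assoc (r ^ (-i)), ← zpow_add, mul_assoc,
      ← mul_assoc a, h.ak, mul_assoc, h.a2, mul_one, ← zpow_add, ← ez, ← mul_inv_eq_one, ← zpow_sub] at e1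
    exact h.odd1 ⟨i - j - k - 1, by ring⟩ e1

end Cz

theorem Cy.not_mem_der (h : Cy S C z t w a u) (hi : ¬ 2 ∣ S.index) : t ∉ commutator G := by
  obtain ⟨s, s1, s2⟩ := h.tS
  obtain ⟨y, y1, y2, y3⟩ := exists_mem_normalizer_of_lt (M := R S t) h.two
    (lt_of_le_not_ge inf_le_left fun e => s2 (mem_R.1 (e s1)).2)
  exact Cz.not_mem_der (y := y) (r := a⁻¹ * (y * a * y⁻¹)) ⟨h, y1, y3, y2, by group⟩ hi

end H5.MS
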