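import Cfsg.Agent.H13.SzGroup
import Cfsg.Agent.H16.PermModule
import Mathlib.RepresentationTheory.Basic

/-! Modules for the Suzuki groups on which an element of order five acts without fixed points
(towards Martineau's theorem): every such non-zero module over the defining field receives a non-zero
homomorphism from a Frobenius twist of the natural four-dimensional module (`H5.Mart.exists_nat`). -/

set_option autoImplicit false

namespace H5

namespace Mart

open Matrix hiding vec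
open H13.Sz

variable {F : Type*} [Field F] [Fintype F] {m : ℕ} [hF : IsSz F m]

variable (F m) in
/-- An element of order five. -/
def x5 : Cfsg.Sz F m := u m 0 1 * w F m

variable (F) in
/-- The first basis vector. -/
abbrev e0 : Fin 4 → F := ![1, 0, 0, 0]

include hF in
theorem two_eq : (2 : F) = 0 := CharTwo.two_eq_zero

theorem nf01 : nf m (0 : F) 1 = 1 := by simp [nf]
theorem nf10 : nf m (1 : F) 0 = 1 := by simp [nf]
theorem nf11 : nf m (1 : F) 1 = 1 := by
  simp [nf, CharTwo.add_self_eq_zero]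

theorem x5_mulVec (v : Fin 4 → F) :
    mat (x5 F m) *ᵥ v = uMat m 0 1 *ᵥ (Cfsg.suzukiForm F *ᵥ v) := by
  rw [x5, mat_mul, mat_u, mat_w, mulVec_mulVec]

theorem x1_e0 : mat (x5 F m) *ᵥ e0 F = vec m 0 1 := by
  rw [x5_mulVec, wMat_e0, uMat_vec]; simp

theorem x_vec01 : mat (x5 F m) *ᵥ vec m 0 1 = vec m (1 : F) 1 := by
  rw [x5_mulVec, wMat_vec (by rw [nf01]; exact one_ne_zero), nf01, one_smul, uMat_vec]; simp

theorem x_vec11 : mat (x5 F m) *ᵥ vec m 1 1 = vec m (1 : F) 0 := by
  rw [x5_mulVec, wMat_vec (by rw [nf11]; exact one_ne_zero), nf11, one_smul, uMat_vec]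
  simp [CharTwo.add_self_eq_zero]

theorem x_vec10 : mat (x5 F m) *ᵥ vec m 1 0 = vec m (0 : F) 0 := by
  rw [x5_mulVec, wMat_vec (by rw [nf10]; exact one_ne_zero), nf10, one_smul, uMat_vec]
  simp [CharTwo.add_self_eq_zero]

theorem x_vec00 : mat (x5 F m) *ᵥ vec m 0 0 = e0 F := by
  rw [x5_mulVec, wMat_vec_zero, uMat_e0]

theorem x2_e0 : mat (x5 F m ^ 2) *ᵥ e0 F = vec m 1 1 := by
  rw [pow_two, mat_mul, ← mulVec_mulVec, x1_e0, x_vec01]

theorem x3_e0 : mat (x5 F m ^ 3) *ᵥ e0 F = vec m 1 0 := by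
  rw [pow_succ', mat_mul, ← mulVec_mulVec, x2_e0, x_vec11]

theorem x4_e0 : mat (x5 F m ^ 4) *ᵥ e0 F = vec m 0 0 := by
  rw [pow_succ', mat_mul, ← mulVec_mulVec, x3_e0, x_vec10]

theorem mat_x5 : mat (x5 F m) = !![1, 1, 0, 1; 1, 0, 1, 0; 0, 1, 0, 0; 1, 0, 0, 0] := by
  rw [x5, mat_mul, mat_u, mat_w]
  ext i j
  fin_cases i <;> fin_cases j <;>
    simp [uMat, nf, Cfsg.suzukiForm, mul_apply, Fin.sum_univ_four]

theorem x5_pow_five : x5 F m ^ 5 = 1 := by
  apply mat_injective
  have h2 : (2 : F) = 0 := two_eq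
  rw [show (5 : ℕ) = 1 + 1 + 1 + 1 + 1 from rfl]
  simp only [pow_succ, pow_zero, one_mul, mat_mul, mat_x5, mat_one]
  ext i j
  fin_cases i <;> fin_cases j <;> simp [mul_apply, Fin.sum_univ_four] <;> grind

theorem x5_ne_one : x5 F m ≠ 1 := by
  intro h1
  have := congrFun (congrFun (congrArg mat h1) 3) 0
  simp [mat_x5] at this

theorem x5_inv : (x5 F m)⁻¹ = x5 F m ^ 4 := by
  rw [inv_eq_iff_mul_eq_one, ← pow_succ', x5_pow_five]

theorem x5_sq_inv : (x5 F m ^ 2)⁻¹ = x5 F m ^ 3 := by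
  rw [inv_eq_iff_mul_eq_one, ← pow_add, x5_pow_five]

theorem x5_cube_inv : (x5 F m ^ 3)⁻¹ = x5 F m ^ 2 := by
  rw [inv_eq_iff_mul_eq_one, ← pow_add, x5_pow_five]

theorem x5_four_inv : (x5 F m ^ 4)⁻¹ = x5 F m := by
  rw [inv_eq_iff_mul_eq_one, ← pow_succ, x5_pow_five]

section
variable {W : Type*} [AddCommGroup W] [Module F W]

/-- The norm of the element of order five. -/
def nrm (ρ : Representation F (Cfsg.Sz F m) W) (y : W) : W :=
  y + ρ (x5 F m) y + ρ (x5 F m ^ 2) y + ρ (x5 F m ^ 3) y + ρ (x5 F m ^ 4) y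

theorem nrm_eq_zero_of_fix (ρ : Representation F (Cfsg.Sz F m) W)
    (h1 : ∀ y, ρ (x5 F m) y = y → y = 0) (y : W) : nrm ρ y = 0 := by
  apply h1
  have e : ∀ g g' : Cfsg.Sz F m, ρ g (ρ g' y) = ρ (g * g') y := fun g g' => by simp
  simp only [nrm, map_add, e, ← pow_succ']
  rw [← pow_two, show (4 + 1 : ℕ) = 5 from rfl, x5_pow_five, map_one, Module.End.one_apply]
  abel

theorem nrm_dual (ρ : Representation F (Cfsg.Sz F m) W) (h1 : ∀ y, nrm ρ y = 0)
    (f : Module.Dual F W) : nrm ρ.dual f = 0 := by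
  ext y
  have := congrArg f (h1 y)
  simp only [nrm, map_add, map_zero] at this
  simp only [nrm, Representation.dual_apply, x5_inv, x5_sq_inv, x5_cube_inv, x5_four_inv,
    LinearMap.add_apply, Module.Dual.transpose_apply, LinearMap.comp_apply, LinearMap.zero_apply]
  rw [← this]
  abel

/-- A common eigenvector of the Borel subgroup. -/
theorem exists_hw [Nontrivial W] (ρ : Representation F (Cfsg.Sz F m) W) :
    ∃ (v : W) (j : ℕ), v ≠ 0 ∧ 1 ≤ j ∧ (∀ a b, ρ (u m a b) v = v) ∧
      ∀ s : Fˣ, ρ (h m s) v = (s : F) ^ j • v := by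
  classical
  obtain ⟨v0, -, hv0, hU⟩ := H16.exists_fixed_vector (p := 2) (isPGroup_U (F := F) (m := m))
    (ρ.comp (U F m).subtype) ⊤ (fun _ _ _ => trivial) top_ne_bot
  have hU' : ∀ a b, ρ (u m a b) v0 = v0 := fun a b => hU ⟨u m a b, u_mem_U a b⟩
  let V : ℕ → W := fun j => ∑ s : Fˣ, ((s⁻¹ : Fˣ) : F) ^ j • ρ (h m s) v0
  have hq := eight_le_card (F := F) (m := m)
  have hsum : ∑ j ∈ Finset.range (Fintype.card F - 1), V j = v0 := by
    simp only [V]
    rw [Finset.sum_comm]
    simp only [← Finset.sum_smul]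
    rw [Finset.sum_eq_single (1 : Fˣ)]
    · simp only [inv_one, Units.val_one, one_pow, Finset.sum_const, Finset.card_range, h_one,
        map_one, Module.End.one_apply, nsmul_eq_mul, mul_one]
      rw [Nat.cast_sub (by omega), FiniteField.cast_card_eq_zero, zero_sub, CharTwo.neg_eq]
      simp
    · intro s _ hs
      have h1 : ((s⁻¹ : Fˣ) : F) ≠ 1 := by
        intro h2
        exact hs (inv_eq_one.mp (Units.ext h2))
      rw [geom_sum_eq h1, FiniteField.pow_card_sub_one_eq_one _ (s⁻¹).ne_zero]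
      simp
    · simp
  obtain ⟨j, -, hj⟩ := Finset.exists_ne_zero_of_sum_ne_zero (hsum ▸ hv0)
  refine ⟨V j, j + (Fintype.card F - 1), hj, by omega, fun a b => ?_, fun t => ?_⟩
  · simp only [V, map_sum, map_smul]
    refine Finset.sum_congr rfl fun s _ => ?_
    congr 1
    have e : u m a b * h m s = h m s * ((h m s⁻¹) * u m a b * (h m s⁻¹)⁻¹) := by
      rw [← h_inv]; group
    rw [← Module.End.mul_apply, ← map_mul, e, h_conj_u, map_mul, Module.End.mul_apply, hU']
  · rw [pow_add, FiniteField.pow_card_sub_one_eq_one _ t.ne_zero, mul_one]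
    simp only [V, map_sum, map_smul, Finset.smul_sum]
    refine Fintype.sum_equiv (Equiv.mulLeft t) _ _ fun s => ?_
    rw [← Module.End.mul_apply, ← map_mul, h_mul_h, smul_smul]
    congr 1
    simp only [Equiv.coe_mulLeft, ← mul_pow]
    congr 1
    rw [← Units.val_mul]
    congr 1
    rw [_root_.mul_inv_rev, mul_comm s⁻¹, mul_inv_cancel_left]

theorem th_div (s : Fˣ) : th m ((s : F) * th m (s : F)) / ((s : F) * th m (s : F)) = s := by
  have h1 : (s : F) ≠ 0 := s.ne_zero
  have h2 : th m (s : F) ≠ 0 := fun h => h1 (th_eq_zero.mp h)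
  rw [map_mul, th_th]
  field_simp

theorem e0_cases (g : Cfsg.Sz F m) : (∃ c : F, mat g *ᵥ e0 F = c • e0 F) ∨
    ∃ (c a b : F), mat g *ᵥ e0 F = c • vec m a b := by
  rcases pt_cases (g • ptInf F m) with h1 | ⟨a, b, h1⟩
  · obtain ⟨c, hc⟩ := (smul_ptInf_eq_ptInf_iff g).mp h1
    exact Or.inl ⟨c, hc.symm⟩
  · obtain ⟨c, hc⟩ := (smul_ptInf_eq_pt_iff g a b).mp h1
    exact Or.inr ⟨c, a, b, hc.symm⟩

theorem uw_e0 (a b : F) : mat (u m a b * w F m) *ᵥ e0 F = vec m a b := by
  rw [mat_mul, ← mulVec_mulVec, mat_w, wMat_e0, mat_u, uMat_vec]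
  simp

/-- The highest weight vector transforms like `e0`, up to the multiplicative map `σ`. -/
theorem hw_rel (ρ : Representation F (Cfsg.Sz F m) W) {v : W} {j : ℕ}
    (hU : ∀ a b, ρ (u m a b) v = v) (hK : ∀ s : Fˣ, ρ (h m s) v = (s : F) ^ j • v)
    {g g' : Cfsg.Sz F m} {c : F} (hc : mat g *ᵥ e0 F = c • (mat g' *ᵥ e0 F)) :
    ρ g v = (th m c / c) ^ j • ρ g' v := by
  have h1 : mat (g'⁻¹ * g) *ᵥ e0 F = c • e0 F := by
    rw [mat_mul, ← mulVec_mulVec, hc, mulVec_smul, mulVec_mulVec, ← mat_mul, inv_mul_cancel,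
      mat_one, one_mulVec]
  have h2 : g'⁻¹ * g ∈ B F m := (smul_ptInf_eq_ptInf_iff _).mpr ⟨c, h1.symm⟩
  obtain ⟨a, b, s, hs⟩ := mem_B_iff.mp h2
  rw [hs, mat_mul, ← mulVec_mulVec, mat_h, hMat_e0, mulVec_smul, mat_u, uMat_e0] at h1
  have h3 : c = (s : F) * th m (s : F) := by simpa using (congrFun h1 0).symm
  have h4 : g = g' * (u m a b * h m s) := by rw [← hs, mul_inv_cancel_left]
  rw [h4, h3, th_div]
  simp only [map_mul, Module.End.mul_apply, hK, map_smul, hU]

set_option maxHeartbeats 1000000 in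
theorem irr_case [Nontrivial W] (ρ : Representation F (Cfsg.Sz F m) W)
    (hirr : ∀ T : Submodule F W, (∀ g, ∀ y ∈ T, ρ g y ∈ T) → T = ⊥ ∨ T = ⊤)
    (hg : ∀ y, nrm ρ y = 0) :
    ∃ (σ : F →+* F) (π : (Fin 4 → F) →ₗ[F] W), π ≠ 0 ∧
      ∀ g n, π ((mat g).map σ *ᵥ n) = ρ g (π n) := by
  classical
  obtain ⟨v, j, hv0, hj, hU, hK⟩ := exists_hw ρ
  obtain ⟨σ0, hσ0, hσ1, hσm, L1⟩ : ∃ σ0 : F → F, σ0 0 = 0 ∧ σ0 1 = 1 ∧
      (∀ a b, σ0 (a * b) = σ0 a * σ0 b) ∧ ∀ {g g' : Cfsg.Sz F m} {c : F},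
        mat g *ᵥ e0 F = c • (mat g' *ᵥ e0 F) → ρ g v = σ0 c • ρ g' v := by
    refine ⟨fun c => (th m c / c) ^ j, by simp [show j ≠ 0 by omega], by simp, fun a b => ?_,
      fun hc => hw_rel ρ hU hK hc⟩
    simp only [map_mul, ← mul_pow]
    congr 1
    rw [mul_div_mul_comm]
  have L2 : ∀ {g : Cfsg.Sz F m} {c a b : F}, mat g *ᵥ e0 F = c • vec m a b →
      ρ g v = σ0 c • ρ (u m a b) (ρ (w F m) v) := by
    intro g c a b hc
    rw [← uw_e0] at hc
    rw [L1 hc, map_mul, Module.End.mul_apply]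
  have hmul : ∀ (g g' : Cfsg.Sz F m) (y : W), ρ g (ρ g' y) = ρ (g * g') y := fun g g' y => by simp
  have hspan : ∀ T : Submodule F W, (∀ g, ρ g v ∈ T) → T = ⊤ := by
    intro T hT
    rcases hirr (Submodule.span F (Set.range fun g => ρ g v)) (by
      intro g y hy
      induction hy using Submodule.span_induction with
      | mem x hx =>
        obtain ⟨g', rfl⟩ := hx
        exact Submodule.subset_span ⟨g * g', (hmul g g' v).symm⟩
      | zero => simp
      | add x y _ _ hx hy => rw [map_add]; exact add_mem hx hy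
      | smul c x _ hx => rw [map_smul]; exact Submodule.smul_mem _ c hx) with h1 | h1
    · exfalso
      apply hv0
      have : ρ 1 v ∈ Submodule.span F (Set.range fun g => ρ g v) := Submodule.subset_span ⟨1, rfl⟩
      rw [h1] at this
      simpa using this
    · rw [eq_top_iff, ← h1, Submodule.span_le]
      rintro _ ⟨g, rfl⟩
      exact hT g
  -- an invariant functional
  obtain ⟨l, -, hl0, hlU⟩ := H16.exists_fixed_vector (p := 2) (isPGroup_U (F := F) (m := m))
    (ρ.dual.comp (U F m).subtype) ⊤ (fun _ _ _ => trivial) top_ne_bot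
  have hlU' : ∀ a b y, l (ρ (u m a b) y) = l y := by
    intro a b y
    have := LinearMap.congr_fun (hlU ⟨u m a b, u_mem_U a b⟩⁻¹) y
    simpa [Representation.dual_apply, Module.Dual.transpose_apply] using this
  have hrel : v + ρ (u m 0 1) (ρ (w F m) v) + ρ (u m 1 1) (ρ (w F m) v) +
      ρ (u m 1 0) (ρ (w F m) v) + ρ (u m 0 0) (ρ (w F m) v) = 0 := by
    have := hg v
    rw [nrm, L2 (x1_e0.trans (one_smul F _).symm), L2 (x2_e0.trans (one_smul F _).symm),
      L2 (x3_e0.trans (one_smul F _).symm), L2 (x4_e0.trans (one_smul F _).symm),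
      hσ1] at this
    simpa using this
  have h2 : (2 : F) = 0 := two_eq
  have hlv : l v = 0 := by
    have := congrArg l hrel
    simp only [map_add, hlU', map_zero] at this
    grind
  have hlg : ∀ g, l (ρ g v) = σ0 ((mat g *ᵥ e0 F) 3) * l (ρ (w F m) v) := by
    intro g
    rcases e0_cases g with ⟨c, hc⟩ | ⟨c, a, b, hc⟩
    · rw [L1 (g' := 1) (c := c) (by simpa using hc), hc]
      simp [hlv, hσ0]
    · rw [L2 hc, hc, map_smul, hlU']
      simp [vec]
  have hlw : l (ρ (w F m) v) ≠ 0 := by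
    intro h0
    apply hl0
    have := hspan (LinearMap.ker l) fun g => by
      rw [LinearMap.mem_ker, hlg, h0, mul_zero]
    exact LinearMap.ker_eq_top.mp this
  have hσa1 : ∀ Y, σ0 (Y + 1) = σ0 Y + 1 := by
    intro Y
    obtain ⟨y, rfl⟩ := th_surjective (m := m) Y
    have h3 := congrArg (fun z => l (ρ (w F m * u m 0 y) z)) hrel
    have h4 : ∀ a b : F, l (ρ (w F m * u m 0 y) (ρ (u m a b) (ρ (w F m) v))) =
        σ0 (nf m a (b + y)) * l (ρ (w F m) v) := by
      intro a b
      rw [hmul, hmul, hlg, mul_assoc, mul_assoc, mat_mul, mat_mul, ← mulVec_mulVec,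
        ← mulVec_mulVec, uw_e0, mat_u, uMat_vec]
      congr 2
      simp [Cfsg.suzukiForm, vec, mulVec, dotProduct, Fin.sum_univ_four]
    have h5 : l (ρ (w F m * u m 0 y) v) = l (ρ (w F m) v) := by
      rw [← hmul, hU]
    simp only [map_add, h4, h5, map_zero] at h3
    have e1 : nf m (0 : F) (1 + y) = th m y + 1 := by simp [nf, add_comm]
    have e2 : nf m (1 : F) (1 + y) = nf m 1 (0 + y) := by
      simp only [nf, map_add, map_one, map_zero]
      grind
    have e3 : nf m (0 : F) (0 + y) = th m y := by simp [nf]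
    rw [e1, e2, e3] at h3
    have h6 : (σ0 (th m y + 1) + (σ0 (th m y) + 1)) * l (ρ (w F m) v) = 0 := by grind
    have h7 := (mul_eq_zero.mp h6).resolve_right hlw
    grind
  let σ : F →+* F :=
    { toFun := σ0
      map_one' := hσ1
      map_mul' := hσm
      map_zero' := hσ0
      map_add' := by
        intro a b
        by_cases hb : b = 0
        · simp [hb, hσ0]
        · have e : a + b = (a / b + 1) * b := by field_simp
          have e' : a = a / b * b := by field_simp
          rw [e, hσm, hσa1, add_mul, one_mul, ← hσm, ← e'] }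
  have hσ : ∀ c, σ c = σ0 c := fun _ => rfl
  -- the graph
  let D : Submodule F (W × (Fin 4 → F)) :=
    Submodule.span F (Set.range fun g => (ρ g v, (mat g).map σ *ᵥ e0 F))
  have hDinv : ∀ g, ∀ p ∈ D, (ρ g p.1, (mat g).map σ *ᵥ p.2) ∈ D := by
    intro g p hp
    induction hp using Submodule.span_induction with
    | mem x hx =>
      obtain ⟨g', rfl⟩ := hx
      refine Submodule.subset_span ⟨g * g', ?_⟩
      simp only [hmul, mat_mul, Matrix.map_mul, mulVec_mulVec]
    | zero =>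
      simp only [Prod.fst_zero, Prod.snd_zero, map_zero, mulVec_zero]
      exact D.zero_mem
    | add x y _ _ hx hy =>
      simp only [Prod.fst_add, Prod.snd_add, map_add, mulVec_add]
      exact add_mem hx hy
    | smul c x _ hx =>
      simp only [Prod.smul_fst, Prod.smul_snd, map_smul, mulVec_smul]
      exact Submodule.smul_mem D c hx
  have hcol : ∀ (g : Cfsg.Sz F m) (i : Fin 4),
      ((mat g).map σ *ᵥ e0 F) i = σ ((mat g *ᵥ e0 F) i) := by
    intro g i
    simp [mulVec, dotProduct, Fin.sum_univ_four]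
  have hDl : ∀ p ∈ D, l p.1 = p.2 3 * l (ρ (w F m) v) := by
    intro p hp
    induction hp using Submodule.span_induction with
    | mem x hx =>
      obtain ⟨g', rfl⟩ := hx
      change l (ρ g' v) = ((mat g').map σ *ᵥ e0 F) 3 * _
      rw [hlg, hcol, hσ]
    | zero => simp
    | add x y _ _ hx hy => simp [hx, hy, add_mul]
    | smul c x _ hx => simp [hx, mul_assoc]
  have hfib : ∀ y, (y, 0) ∈ D → y = 0 := by
    intro y hy
    let T : Submodule F W := D.comap (LinearMap.inl F W (Fin 4 → F))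
    rcases hirr T (fun g z hz => by simpa [T] using hDinv g _ hz) with h1 | h1
    · have : y ∈ T := hy
      rw [h1] at this
      exact this
    · exfalso
      have : ρ (w F m) v ∈ T := h1 ▸ Submodule.mem_top
      have := hDl _ this
      simp at this
      exact hlw this
  have hmem : ∀ g, (ρ g v, (mat g).map σ *ᵥ e0 F) ∈ D := fun g => Submodule.subset_span ⟨g, rfl⟩
  have hvec : ∀ a b, (ρ (u m a b * w F m) v, fun i => σ (vec m a b i)) ∈ D := by
    intro a b
    have := hmem (u m a b * w F m)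
    convert this using 2
    ext i
    rw [hcol, uw_e0]
  have hb0 : (v, e0 F) ∈ D := by simpa using hmem 1
  let v3 := ρ (u m 0 0 * w F m) v
  let v1 := ρ (u m 0 1 * w F m) v - v - v3
  let v2 := ρ (u m 1 0 * w F m) v - v - v3
  have hb3 : (v3, ![0, 0, 0, 1]) ∈ D := by
    convert hvec 0 0 using 2
    ext i
    fin_cases i <;> simp [vec]
  have hb1 : (v1, ![0, 1, 0, 0]) ∈ D := by
    convert sub_mem (sub_mem (hvec 0 1) hb0) hb3 using 1
    ext i
    · rfl
    · fin_cases i <;> simp [vec, nf01, vecHead, vecTail]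
  have hb2 : (v2, ![0, 0, 1, 0]) ∈ D := by
    convert sub_mem (sub_mem (hvec 1 0) hb0) hb3 using 1
    ext i
    · rfl
    · fin_cases i <;> simp [vec, nf10, vecHead, vecTail]
  let π : (Fin 4 → F) →ₗ[F] W :=
    (LinearMap.proj 0 : (Fin 4 → F) →ₗ[F] F).smulRight v +
    (LinearMap.proj 1 : (Fin 4 → F) →ₗ[F] F).smulRight v1 +
    (LinearMap.proj 2 : (Fin 4 → F) →ₗ[F] F).smulRight v2 +
    (LinearMap.proj 3 : (Fin 4 → F) →ₗ[F] F).smulRight v3
  have hπ : ∀ n, (π n, n) ∈ D := by
    intro n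
    convert add_mem (add_mem (add_mem (D.smul_mem (n 0) hb0) (D.smul_mem (n 1) hb1))
      (D.smul_mem (n 2) hb2)) (D.smul_mem (n 3) hb3) using 1
    ext i
    · rfl
    · fin_cases i <;> simp
  refine ⟨σ, π, fun h0 => hv0 ?_, fun g n => ?_⟩
  · have := LinearMap.congr_fun h0 (e0 F)
    simpa [π] using this
  · have := sub_mem (hπ ((mat g).map σ *ᵥ n)) (hDinv g _ (hπ n))
    rw [Prod.mk_sub_mk, sub_self] at this
    exact sub_eq_zero.mp (hfib _ this)

/-- A non-zero finite-dimensional invariant subspace killed by the norm of the element of order five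
receives a non-zero map from a twist of the natural module. -/
theorem exists_nat (ρ : Representation F (Cfsg.Sz F m) W) (S : Submodule F W)
    [FiniteDimensional F S] (hS : S ≠ ⊥) (hinv : ∀ g, ∀ y ∈ S, ρ g y ∈ S)
    (hg : ∀ y ∈ S, nrm ρ y = 0) :
    ∃ (σ : F →+* F) (π : (Fin 4 → F) →ₗ[F] W), π ≠ 0 ∧ (∀ n, π n ∈ S) ∧
      ∀ g n, π ((mat g).map σ *ᵥ n) = ρ g (π n) := by
  induction hn : Module.finrank F S using Nat.strong_induction_on generalizing S with
  | _ n ih =>
  by_cases hmin : ∀ T : Submodule F W, T ≤ S → (∀ g, ∀ y ∈ T, ρ g y ∈ T) → T = ⊥ ∨ T = S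
  · have : Nontrivial S := Submodule.nontrivial_iff_ne_bot.mpr hS
    let ρ' := ρ.subrepresentation S fun g y hy => hinv g y hy
    have hρ' : ∀ g (y : S), (ρ' g y : W) = ρ g y := fun _ _ => rfl
    obtain ⟨σ, π, hπ0, hπ⟩ := irr_case ρ' (by
      intro T hT
      rcases hmin (T.map S.subtype) (Submodule.map_subtype_le S T) (by
        rintro g _ ⟨y, hy, rfl⟩
        exact ⟨ρ' g y, hT g y hy, rfl⟩) with h1 | h1
      · left
        apply Submodule.map_injective_of_injective S.injective_subtype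
        rw [h1, Submodule.map_bot]
      · right
        apply Submodule.map_injective_of_injective S.injective_subtype
        rw [h1, Submodule.map_subtype_top]) (by
      intro y
      apply Subtype.ext
      have := hg y y.2
      simpa only [nrm, Submodule.coe_add, hρ', Submodule.coe_zero] using this)
    refine ⟨σ, S.subtype ∘ₗ π, fun h0 => hπ0 ?_, fun n => (π n).2, fun g n => ?_⟩
    · refine LinearMap.ext fun n => Subtype.ext ?_
      simpa using LinearMap.congr_fun h0 n
    · simp only [LinearMap.comp_apply, hπ, Submodule.subtype_apply, hρ']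
  · push Not at hmin
    obtain ⟨T, hTS, hT, hT0, hTS'⟩ := hmin
    have : FiniteDimensional F T := Submodule.finiteDimensional_of_le hTS
    obtain ⟨σ, π, h1, h2, h3⟩ := ih _
      (hn ▸ Submodule.finrank_lt_finrank_of_lt (lt_of_le_of_ne hTS hTS')) T hT0 hT
      (fun y hy => hg y (hTS hy)) rfl
    exact ⟨σ, π, h1, fun n => hTS (h2 n), h3⟩

end

end Mart

end H5
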