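import Cfsg.Agent.H5.Mart1
import Cfsg.Agent.H3.Tate

/-! Towards Martineau's theorem: there is no non-zero invariant trilinear form on modules for `Sz(q)`
on which the element of order five is fixed point free (`H5.Mart.tri_eq_zero`), and a finite abelian
`2`-group with such an action has exponent two (`H5.Mart.add_self_eq_zero`). -/

set_option autoImplicit false

namespace H5

namespace Mart

open Matrix hiding vec
open H13.Sz

variable {F : Type*} [Field F] [Fintype F] {m : ℕ} [hF : IsSz F m]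

variable (m) in
/-- The natural module twisted by `σ`. -/
def nat (σ : F →+* F) : Representation F (Cfsg.Sz F m) (Fin 4 → F) where
  toFun g := ((mat g).map σ).mulVecLin
  map_one' := by
    refine LinearMap.ext fun v => ?_
    simp
  map_mul' g g' := by
    refine LinearMap.ext fun v => ?_
    simp [Matrix.map_mul]

omit [Fintype F] hF in
theorem nat_apply (σ : F →+* F) (g : Cfsg.Sz F m) (v : Fin 4 → F) :
    nat m σ g v = (mat g).map σ *ᵥ v := rfl

variable (F) in
/-- The last basis vector. -/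
abbrev e3 : Fin 4 → F := ![0, 0, 0, 1]

theorem nat_u_e3 (σ : F →+* F) (a b : F) :
    nat m σ (u m a b) (e3 F) = ![σ (nf m a b), σ b, σ a, 1] := by
  ext i
  fin_cases i <;> simp [nat_apply, uMat, mulVec, dotProduct, Fin.sum_univ_four]

theorem nat_u_e0 (σ : F →+* F) (a b : F) : nat m σ (u m a b) (e0 F) = e0 F := by
  ext i
  fin_cases i <;> simp [nat_apply, uMat, mulVec, dotProduct, Fin.sum_univ_four]

theorem nat_w_e0 (σ : F →+* F) : nat m σ (w F m) (e0 F) = e3 F := by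
  ext i
  fin_cases i <;> simp [nat_apply, Cfsg.suzukiForm, mulVec, dotProduct, Fin.sum_univ_four]

theorem nat_h (σ : F →+* F) (s : Fˣ) (v : Fin 4 → F) (i : Fin 4) :
    nat m σ (h m s) v i = σ (hMat m s i i) * v i := by
  fin_cases i <;> simp [nat_apply, hMat, mulVec, dotProduct, Fin.sum_univ_four]

theorem eq_zero_of_e3 {X : Type*} [AddCommGroup X] [Module F X] (σ : F →+* F)
    (f : (Fin 4 → F) →ₗ[F] X) (hf : ∀ a b, f (nat m σ (u m a b) (e3 F)) = 0) : f = 0 := by
  have h00 := hf 0 0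
  have h01 := hf 0 1
  have h10 := hf 1 0
  have h11 := hf 1 1
  rw [nat_u_e3] at h00 h01 h10 h11
  simp only [nf_zero, nf01, nf10, nf11, map_zero, map_one] at h00 h01 h10 h11
  refine LinearMap.ext fun n => ?_
  have e : n = (n 3 - n 0) • ![0, 0, 0, 1] + (n 0 - n 2) • ![1, 1, 0, 1] +
      (n 0 - n 1) • ![1, 0, 1, 1] + (n 1 + n 2 - n 0) • ![1, 1, 1, 1] := by
    ext i
    fin_cases i <;> simp <;> ring
  rw [e]
  simp only [map_add, map_smul, h00, h01, h10, h11, smul_zero, add_zero, LinearMap.zero_apply]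

theorem eq_zero_of_e0 {X : Type*} [AddCommGroup X] [Module F X] (σ : F →+* F)
    (f : (Fin 4 → F) →ₗ[F] X) (hf : ∀ g, f (nat m σ g (e0 F)) = 0) : f = 0 := by
  refine eq_zero_of_e3 σ f fun a b => ?_
  rw [← nat_w_e0 σ, ← Module.End.mul_apply, ← map_mul, hf]

section tri

variable {W₁ W₂ W₃ : Type*} [AddCommGroup W₁] [Module F W₁] [AddCommGroup W₂] [Module F W₂]
  [AddCommGroup W₃] [Module F W₃]

/-- Invariance of a trilinear form. -/
def Inv (ρ₁ : Representation F (Cfsg.Sz F m) W₁) (ρ₂ : Representation F (Cfsg.Sz F m) W₂)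
    (ρ₃ : Representation F (Cfsg.Sz F m) W₃) (τ : W₁ →ₗ[F] W₂ →ₗ[F] W₃ →ₗ[F] F) : Prop :=
  ∀ g a b c, τ (ρ₁ g a) (ρ₂ g b) (ρ₃ g c) = τ a b c

/-- Rotation of the arguments. -/
def rot (τ : W₁ →ₗ[F] W₂ →ₗ[F] W₃ →ₗ[F] F) : W₂ →ₗ[F] W₃ →ₗ[F] W₁ →ₗ[F] F :=
  (LinearMap.lflip : (W₁ →ₗ[F] W₃ →ₗ[F] F) ≃ₗ[F] _).toLinearMap ∘ₗ τ.flip

omit [Fintype F] in
theorem rot_apply (τ : W₁ →ₗ[F] W₂ →ₗ[F] W₃ →ₗ[F] F) (a : W₁) (b : W₂) (c : W₃) :
    rot τ b c a = τ a b c := rfl

omit [Fintype F] in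
theorem rot_ne_zero {τ : W₁ →ₗ[F] W₂ →ₗ[F] W₃ →ₗ[F] F} (h0 : τ ≠ 0) : rot τ ≠ 0 := by
  intro h1
  apply h0
  ext a b c
  rw [← rot_apply, h1]
  rfl

omit [Fintype F] hF in
theorem Inv.rot {ρ₁ : Representation F (Cfsg.Sz F m) W₁} {ρ₂ : Representation F (Cfsg.Sz F m) W₂}
    {ρ₃ : Representation F (Cfsg.Sz F m) W₃} {τ : W₁ →ₗ[F] W₂ →ₗ[F] W₃ →ₗ[F] F}
    (hτ : Inv ρ₁ ρ₂ ρ₃ τ) : Inv ρ₂ ρ₃ ρ₁ (rot τ) := fun g b c a => hτ g a b c

theorem slot {ρ₁ : Representation F (Cfsg.Sz F m) W₁} {ρ₂ : Representation F (Cfsg.Sz F m) W₂}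
    {ρ₃ : Representation F (Cfsg.Sz F m) W₃} {τ : W₁ →ₗ[F] W₂ →ₗ[F] W₃ →ₗ[F] F}
    [FiniteDimensional F W₁] (h1 : ∀ y, nrm ρ₁ y = 0) (hτ : Inv ρ₁ ρ₂ ρ₃ τ) (h0 : τ ≠ 0) :
    ∃ (σ : F →+* F) (τ' : (Fin 4 → F) →ₗ[F] W₂ →ₗ[F] W₃ →ₗ[F] F),
      τ' ≠ 0 ∧ Inv (nat m σ) ρ₂ ρ₃ τ' := by
  let ρ := ρ₂.linHom ρ₃.dual
  have hρ : ∀ g (f : W₂ →ₗ[F] W₃ →ₗ[F] F) b c, ρ g f b c = f (ρ₂ g⁻¹ b) (ρ₃ g⁻¹ c) :=
    fun _ _ _ _ => rfl
  have he : ∀ g a, ρ g (τ a) = τ (ρ₁ g a) := by
    intro g a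
    ext b c
    rw [hρ, ← hτ g]
    simp only [← Module.End.mul_apply, ← map_mul, mul_inv_cancel, map_one, Module.End.one_apply]
  obtain ⟨σ, π, hπ0, -, hπ⟩ := exists_nat (W := W₂ →ₗ[F] W₃ →ₗ[F] F) ρ (LinearMap.range τ)
    (fun h => h0 (LinearMap.range_eq_bot.mp h)) (by
      intro g y hy
      obtain ⟨a, rfl⟩ := LinearMap.mem_range.mp hy
      exact LinearMap.mem_range.mpr ⟨_, (he g a).symm⟩) (by
      intro y hy
      obtain ⟨a, rfl⟩ := LinearMap.mem_range.mp hy
      have := congrArg τ (h1 a)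
      simp only [nrm, map_add, map_zero] at this
      simp only [nrm, he]
      exact this)
  refine ⟨σ, π, hπ0, fun g a b c => ?_⟩
  rw [nat_apply, hπ, hρ]
  simp only [← Module.End.mul_apply, ← map_mul, inv_mul_cancel, map_one, Module.End.one_apply]

end tri

theorem exists_wt {σ₁ σ₂ σ₃ : F →+* F} {τ : (Fin 4 → F) →ₗ[F] (Fin 4 → F) →ₗ[F] (Fin 4 → F) →ₗ[F] F}
    (hτ : Inv (nat m σ₁) (nat m σ₂) (nat m σ₃) τ) (h0 : τ ≠ 0) :
    ∃ k : Fin 4, ∀ s : Fˣ, σ₁ ((s : F) * th m (s : F)) * σ₂ ((s : F) * th m (s : F))⁻¹ *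
      σ₃ (hMat m s k k) = 1 := by
  classical
  by_contra hcon
  push Not at hcon
  have h1 : τ (e0 F) (e3 F) = 0 := by
    apply LinearMap.pi_ext'
    intro k
    ext
    obtain ⟨s, hs⟩ := hcon k
    have h2 := hτ (h m s) (e0 F) (e3 F) (Pi.single k 1)
    have a1 : nat m σ₁ (h m s) (e0 F) = σ₁ ((s : F) * th m (s : F)) • e0 F := by
      ext i
      rw [nat_h]
      fin_cases i <;> simp [hMat]
    have a2 : nat m σ₂ (h m s) (e3 F) = σ₂ ((s : F) * th m (s : F))⁻¹ • e3 F := by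
      ext i
      rw [nat_h]
      fin_cases i <;> simp [hMat]
    have a3 : nat m σ₃ (h m s) (Pi.single k 1) =
        σ₃ (hMat m s k k) • (Pi.single k 1 : Fin 4 → F) := by
      ext i
      rw [nat_h]
      by_cases hi : i = k
      · subst hi; simp
      · simp [hi]
    rw [a1, a2, a3] at h2
    simp only [map_smul, LinearMap.smul_apply, smul_eq_mul] at h2
    have h3 : (σ₁ ((s : F) * th m (s : F)) * σ₂ ((s : F) * th m (s : F))⁻¹ *
      σ₃ (hMat m s k k) - 1) * τ (e0 F) (e3 F) (Pi.single k 1) = 0 := by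
      linear_combination h2
    simpa using (mul_eq_zero.mp h3).resolve_left (sub_ne_zero.mpr hs)
  have hinv : ∀ (σ : F →+* F) (g : Cfsg.Sz F m) (c : Fin 4 → F), nat m σ g (nat m σ g⁻¹ c) = c := by
    intro σ g c
    rw [← Module.End.mul_apply, ← map_mul, mul_inv_cancel, map_one, Module.End.one_apply]
  have h2 : τ (e0 F) = 0 := by
    refine eq_zero_of_e3 σ₂ _ fun a b => LinearMap.ext fun c => ?_
    have := hτ (u m a b) (e0 F) (e3 F) (nat m σ₃ (u m a b)⁻¹ c)
    rw [nat_u_e0, hinv, h1] at this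
    exact this
  apply h0
  refine eq_zero_of_e0 (X := (Fin 4 → F) →ₗ[F] (Fin 4 → F) →ₗ[F] F) σ₁ τ fun g => ?_
  refine LinearMap.ext fun b => LinearMap.ext fun c => ?_
  have := hτ g (e0 F) (nat m σ₂ g⁻¹ b) (nat m σ₃ g⁻¹ c)
  rw [hinv, hinv, h2] at this
  exact this

theorem sigma_ne {σ₁ σ₂ σ₃ : F →+* F}
    {τ : (Fin 4 → F) →ₗ[F] (Fin 4 → F) →ₗ[F] (Fin 4 → F) →ₗ[F] F}
    (hτ : Inv (nat m σ₁) (nat m σ₂) (nat m σ₃) τ) (h0 : τ ≠ 0) : σ₁ ≠ σ₂ := by
  rintro rfl
  obtain ⟨k, hk⟩ := exists_wt hτ h0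
  obtain ⟨s, hs⟩ := exists_unit_ne_one (F := F)
  have h1 : (s : F) ≠ 0 := s.ne_zero
  have h2 : th m (s : F) ≠ 0 := fun h => h1 (th_eq_zero.mp h)
  have h3 := hk s
  rw [← map_mul, mul_inv_cancel₀ (mul_ne_zero h1 h2), map_one, one_mul, ← map_one σ₃] at h3
  have h4 := σ₃.injective h3
  apply hs
  apply Units.ext
  fin_cases k
  · exact eq_one_of_mul_th (by simpa [hMat] using h4)
  · simpa [hMat] using h4
  · simpa [hMat] using h4
  · refine eq_one_of_mul_th (inv_eq_one.mp ?_)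
    simpa [hMat] using h4

include hF in
theorem hom_eq_of_mul {α β γ : F →+* F} (h1 : ∀ y, y ≠ 0 → α y * β y = γ y) : α = β := by
  have h2 : ∀ y, α y * β y = γ y := by
    intro y
    by_cases hy : y = 0
    · simp [hy]
    · exact h1 y hy
  ext y
  have h3 := h2 y
  have h4 := h2 (y + 1)
  have h5 : (2 : F) = 0 := two_eq
  simp only [map_add, map_one] at h4
  linear_combination h4 - h3 - β y * h5

omit [Fintype F] in
theorem hom_eq_of_mul_mul {α β γ δ : F →+* F} (h1 : ∀ y, y ≠ 0 → α y * β y = γ y * δ y) :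
    α = γ ∨ α = δ := by
  have h2 : ∀ y, α y * β y = γ y * δ y := by
    intro y
    by_cases hy : y = 0
    · simp [hy]
    · exact h1 y hy
  have h3 : ∀ y, α y = γ y ∨ α y = δ y := by
    intro y
    have h3 := h2 y
    have h4 := h2 (y + 1)
    simp only [map_add, map_one] at h4
    have : (α y - γ y) * (α y - δ y) = 0 := by
      linear_combination α y * h4 - (α y + 1) * h3
    rcases mul_eq_zero.mp this with h | h
    · exact Or.inl (sub_eq_zero.mp h)
    · exact Or.inr (sub_eq_zero.mp h)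
  by_contra hcon
  push Not at hcon
  obtain ⟨a, ha⟩ := DFunLike.ne_iff.mp hcon.1
  obtain ⟨b, hb⟩ := DFunLike.ne_iff.mp hcon.2
  have ha' := (h3 a).resolve_left ha
  have hb' := (h3 b).resolve_right hb
  rcases h3 (a + b) with h | h
  · rw [map_add, map_add, hb'] at h
    exact ha (add_right_cancel h)
  · rw [map_add, map_add, ha'] at h
    exact hb (add_left_cancel h)

theorem nat_tri {σ₁ σ₂ σ₃ : F →+* F}
    {τ : (Fin 4 → F) →ₗ[F] (Fin 4 → F) →ₗ[F] (Fin 4 → F) →ₗ[F] F}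
    (hτ : Inv (nat m σ₁) (nat m σ₂) (nat m σ₃) τ) : τ = 0 := by
  by_contra h0
  have n12 := sigma_ne hτ h0
  have n23 := sigma_ne hτ.rot (rot_ne_zero h0)
  have n31 := sigma_ne hτ.rot.rot (rot_ne_zero (rot_ne_zero h0))
  obtain ⟨k, hk⟩ := exists_wt hτ h0
  have key : ∀ y : F, y ≠ 0 → ∃ s : Fˣ, (s : F) = th m y / y ∧ (s : F) * th m (s : F) = y := by
    intro y hy
    have h2 : th m y ≠ 0 := fun h => hy (th_eq_zero.mp h)
    refine ⟨Units.mk0 (th m y / y) (div_ne_zero h2 hy), rfl, ?_⟩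
    simp only [Units.val_mk0, map_div₀, th_th]
    field_simp
  have nz : ∀ (σ : F →+* F) (y : F), y ≠ 0 → σ y ≠ 0 := fun σ y hy => (map_ne_zero σ).mpr hy
  fin_cases k
  · apply n31
    symm
    refine hom_eq_of_mul (γ := σ₂) fun y hy => ?_
    obtain ⟨s, -, hs⟩ := key y hy
    have := hk s
    simp only [hMat, hs, map_inv₀] at this
    have h2 := nz σ₂ y hy
    simp at this
    field_simp at this
    exact this
  · rcases hom_eq_of_mul_mul (α := σ₁) (β := σ₃.comp (th m)) (γ := σ₂) (δ := σ₃) (by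
      intro y hy
      obtain ⟨s, hs', hs⟩ := key y hy
      have := hk s
      simp only [hMat, hs, map_inv₀] at this
      have h2 := nz σ₂ y hy
      have h3 := nz σ₃ y hy
      simp [hs'] at this
      field_simp at this
      simpa using this) with h | h
    · exact n12 h
    · exact n31 h.symm
  · rcases hom_eq_of_mul_mul (α := σ₂) (β := σ₃.comp (th m)) (γ := σ₁) (δ := σ₃) (by
      intro y hy
      obtain ⟨s, hs', hs⟩ := key y hy
      have := hk s
      simp only [hMat, hs, map_inv₀] at this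
      have h2 := nz σ₂ y hy
      have h3 := nz σ₃ (th m y) (fun h => hy (th_eq_zero.mp h))
      simp [hs'] at this
      field_simp at this
      simpa using this.symm) with h | h
    · exact n12 h.symm
    · exact n23 h
  · apply n23
    refine hom_eq_of_mul (γ := σ₁) fun y hy => ?_
    obtain ⟨s, -, hs⟩ := key y hy
    have := hk s
    simp only [hMat, hs, map_inv₀] at this
    have h2 := nz σ₂ y hy
    have h3 := nz σ₃ y hy
    simp at this
    field_simp at this
    exact this.symm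

theorem tri_eq_zero {W₁ W₂ W₃ : Type*} [AddCommGroup W₁] [Module F W₁] [AddCommGroup W₂]
    [Module F W₂] [AddCommGroup W₃] [Module F W₃]
    {ρ₁ : Representation F (Cfsg.Sz F m) W₁} {ρ₂ : Representation F (Cfsg.Sz F m) W₂}
    {ρ₃ : Representation F (Cfsg.Sz F m) W₃} {τ : W₁ →ₗ[F] W₂ →ₗ[F] W₃ →ₗ[F] F}
    [FiniteDimensional F W₁] [FiniteDimensional F W₂] [FiniteDimensional F W₃]
    (h1 : ∀ y, nrm ρ₁ y = 0) (h2 : ∀ y, nrm ρ₂ y = 0) (h3 : ∀ y, nrm ρ₃ y = 0)
    (hτ : Inv ρ₁ ρ₂ ρ₃ τ) : τ = 0 := by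
  by_contra h0
  obtain ⟨σ₁, τ₁, n1, i1⟩ := slot h1 hτ h0
  obtain ⟨σ₂, τ₂, n2, i2⟩ := slot h2 i1.rot (rot_ne_zero n1)
  obtain ⟨σ₃, τ₃, n3, i3⟩ := slot h3 i2.rot (rot_ne_zero n2)
  exact n3 (nat_tri i3)

include hF in
/-- A proper subgroup of a finite `2`-group is killed by a non-zero additive function. -/
theorem exists_add_fun {R : Type*} [Group R] [Finite R] (hR : IsPGroup 2 R) {T : Subgroup R}
    (hT : T ≠ ⊤) : ∃ f : R → F, (∀ a b, f (a * b) = f a + f b) ∧ (∀ a ∈ T, f a = 0) ∧ f ≠ 0 := by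
  classical
  obtain ⟨C, hC, h1⟩ := (eq_top_or_exists_le_coatom T).resolve_left hT
  obtain ⟨-, h2⟩ := H3.index_eq_prime_of_isCoatom hR hC
  refine ⟨fun a => if a ∈ C then 0 else 1, fun a b => ?_, fun a ha => if_pos (h1 ha), fun h0 => ?_⟩
  · have := Subgroup.mul_mem_iff_of_index_two h2 (a := a) (b := b)
    by_cases ha : a ∈ C <;> by_cases hb : b ∈ C <;> simp [ha, hb, this, CharTwo.add_self_eq_zero]
  · apply hC.1
    rw [eq_top_iff]
    intro a _
    by_contra ha
    simpa [ha] using congrFun h0 a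

/-- The action on additive maps to `F`. -/
def homRep {M : Type*} [AddCommGroup M] (α : Representation ℤ (Cfsg.Sz F m) M) :
    Representation F (Cfsg.Sz F m) (M →+ F) where
  toFun g :=
    { toFun := fun φ => φ.comp (α g⁻¹).toAddMonoidHom
      map_add' := fun _ _ => rfl
      map_smul' := fun _ _ => rfl }
  map_one' := by ext; simp
  map_mul' g g' := by ext; simp

omit [Fintype F] hF in
theorem homRep_apply {M : Type*} [AddCommGroup M] (α : Representation ℤ (Cfsg.Sz F m) M)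
    (g : Cfsg.Sz F m) (φ : M →+ F) (y : M) : homRep α g φ y = φ (α g⁻¹ y) := rfl

theorem z_mul_z : u m (0 : F) 1 * u m 0 1 = 1 := by
  rw [u_mul_u, ← u_zero]
  simp [CharTwo.add_self_eq_zero]

theorem nat_z (σ : F →+* F) (n : Fin 4 → F) :
    nat m σ (u m 0 1) n - n = ![n 2 + n 3, n 3, 0, 0] := by
  ext i
  fin_cases i <;> simp [nat_apply, uMat, nf01, mulVec, dotProduct, Fin.sum_univ_four]
  ring

set_option maxHeartbeats 1000000 in
theorem add_self_eq_zero {M : Type*} [AddCommGroup M] [Finite M]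
    (α : Representation ℤ (Cfsg.Sz F m) M) (h2 : IsPGroup 2 (Multiplicative M))
    (hx : ∀ y, α (x5 F m) y = y → y = 0) (t0 : Fˣ) (ht : ∀ y, α (h m t0) y = y → y = 0) (y : M) :
    y + y = 0 := by
  classical
  by_contra hy
  let S : Submodule F (M →+ F) :=
    { carrier := {φ | ∀ y, y + y = 0 → φ y = 0}
      add_mem' := fun {a b} ha hb y hy => by simp [ha y hy, hb y hy]
      zero_mem' := fun _ _ => rfl
      smul_mem' := fun c a ha y hy => by simp [ha y hy] }
  have hfin : Finite (M →+ F) := Finite.of_injective _ DFunLike.coe_injective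
  have hS : S ≠ ⊥ := by
    let T : AddSubgroup M :=
      { carrier := {y | y + y = 0}
        add_mem' := fun {a b} ha hb => by
          change a + b + (a + b) = 0
          rw [add_add_add_comm, show a + a = 0 from ha, show b + b = 0 from hb, add_zero]
        zero_mem' := add_zero 0
        neg_mem' := fun {a} ha => by
          change -a + -a = 0
          rw [← neg_add, show a + a = 0 from ha, neg_zero] }
    obtain ⟨f, hf1, hf2, hf3⟩ := exists_add_fun (F := F) h2 (T := T.toSubgroup) (by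
      intro h0
      have : Multiplicative.ofAdd y ∈ T.toSubgroup := h0 ▸ Subgroup.mem_top _
      exact hy this)
    let φ : M →+ F := AddMonoidHom.mk' (fun a => f (Multiplicative.ofAdd a)) fun a b => hf1 _ _
    refine (Submodule.ne_bot_iff S).mpr ⟨φ, fun a ha => hf2 _ ha, fun h0 => hf3 ?_⟩
    ext a
    exact DFunLike.congr_fun h0 a.toAdd
  obtain ⟨σ, π, hπ0, hπS, hπ⟩ := exists_nat (homRep α) S hS (by
    intro g φ hφ a ha
    exact hφ _ (by rw [← map_add, ha, map_zero])) (by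
    intro φ _
    refine nrm_eq_zero_of_fix _ (fun ψ hψ => ?_) φ
    have h3 : Function.Injective (α (x5 F m) - 1 : Module.End ℤ M) := by
      rw [injective_iff_map_eq_zero]
      intro a ha
      exact hx a (sub_eq_zero.mp ha)
    ext a
    obtain ⟨b, rfl⟩ := Finite.surjective_of_injective h3 a
    have h4 := DFunLike.congr_fun hψ (α (x5 F m) b)
    rw [homRep_apply, ← Module.End.mul_apply, ← map_mul, inv_mul_cancel, map_one,
      Module.End.one_apply] at h4
    simp [← h4])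
  have hπ' : ∀ g n a, π n (α g a) = π (nat m σ g⁻¹ n) a := by
    intro g n a
    rw [nat_apply, hπ, homRep_apply, inv_inv]
  obtain ⟨κ, hκ⟩ : ∃ κ : Fˣ → Module.End ℤ M, ∀ s, κ s = α (h m s) := ⟨_, fun _ => rfl⟩
  obtain ⟨z, hz⟩ : ∃ z : Module.End ℤ M, z = α (u m 0 1) := ⟨_, rfl⟩
  have hκm : ∀ s t, κ s * κ t = κ (s * t) := fun s t => by rw [hκ, hκ, hκ, ← map_mul, h_mul_h]
  have hκ1 : κ 1 = 1 := by rw [hκ, h_one, map_one]
  have hzz : z * z = 1 := by rw [hz, ← map_mul, z_mul_z, map_one]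
  have hc : ∀ s, κ s⁻¹ * z * κ s * z = z * (κ s⁻¹ * z * κ s) := by
    intro s
    have e : h m s⁻¹ * u m 0 1 * h m s = h m s⁻¹ * u m 0 1 * (h m s⁻¹)⁻¹ := by rw [h_inv, inv_inv]
    rw [hκ, hκ, hz, ← map_mul, ← map_mul, e, h_conj_u, ← map_mul, ← map_mul, u_mul_u, u_mul_u]
    simp [add_comm]
  have hκ0 : ∑ s, κ s = 0 := by
    ext1 a
    apply ht
    rw [← hκ, ← Module.End.mul_apply, Finset.mul_sum]
    congr 1
    exact Fintype.sum_equiv (Equiv.mulLeft t0) _ _ fun s => hκm t0 s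
  obtain ⟨A, hA⟩ : ∃ A : Fˣ → Module.End ℤ M, ∀ s, A s = (z - 1) * κ s * (z - 1) := ⟨_, fun _ => rfl⟩
  have hAi : ∀ s, A s⁻¹ = κ s⁻¹ * A s * κ s⁻¹ := by
    intro s
    have h3 : κ s * κ s⁻¹ = 1 := by rw [hκm, mul_inv_cancel, hκ1]
    have h4 : κ s⁻¹ * κ s = 1 := by rw [hκm, inv_mul_cancel, hκ1]
    have h5 := hc s
    rw [hA, hA]
    generalize κ s⁻¹ = k' at *
    generalize κ s = k at *
    calc (z - 1) * k' * (z - 1) = (z - 1) * k' * (z - 1) * (k * k') := by rw [h3, mul_one]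
      _ = (z * (k' * z * k) - z * (k' * k) - k' * z * k + k' * k) * k' := by noncomm_ring
      _ = (k' * z * k * z - (k' * k) * z - k' * z * k + k' * k) * k' := by
        rw [h5, h4, mul_one, one_mul]
      _ = _ := by noncomm_ring
  obtain ⟨P, hP⟩ : ∃ P : Module.End ℤ M → Module.End ℤ M, ∀ X, P X = ∑ t, κ t * X * κ t :=
    ⟨_, fun _ => rfl⟩
  have hPi : ∀ s, P (A s⁻¹) = P (A s) := by
    intro s
    rw [hP, hP, hAi]
    refine Fintype.sum_equiv (Equiv.mulRight s⁻¹) _ _ fun t => ?_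
    simp only [Equiv.coe_mulRight]
    have e : κ (t * s⁻¹) = κ s⁻¹ * κ t := by rw [hκm, mul_comm]
    nth_rewrite 2 [e]
    rw [← hκm t]
    noncomm_ring
  have hP0 : ∑ s, P (A s) = 0 := by
    simp only [hP]
    rw [Finset.sum_comm]
    refine Finset.sum_eq_zero fun t _ => ?_
    simp only [hA]
    rw [← Finset.sum_mul, ← Finset.mul_sum, ← Finset.sum_mul, ← Finset.mul_sum, hκ0]
    simp
  have hP1 : P (A 1) = -(P (z - 1) + P (z - 1)) := by
    rw [hP, hP, hA, hκ1, ← Finset.sum_add_distrib, ← Finset.sum_neg_distrib]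
    refine Finset.sum_congr rfl fun t _ => ?_
    have : (z - 1) * 1 * (z - 1) = z * z - z - z + 1 := by noncomm_ring
    rw [this, hzz]
    noncomm_ring
  have hzi : (u m (0 : F) 1)⁻¹ = u m 0 1 := inv_eq_of_mul_eq_one_right z_mul_z
  have hN : ∀ n a, π n ((z - 1) a) = π ![n 2 + n 3, n 3, 0, 0] a := by
    intro n a
    rw [LinearMap.sub_apply, map_sub, hz, hπ', hzi, ← nat_z σ, map_sub]
    rfl
  have hK : ∀ s n a, π n (κ s a) = π (nat m σ (h m s⁻¹) n) a := by
    intro s n a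
    rw [hκ, hπ', h_inv]
  let T : AddSubgroup M :=
    { carrier := {a | ∀ n, π n a = 0}
      add_mem' := fun {a b} ha hb n => by rw [map_add, ha n, hb n, add_zero]
      zero_mem' := fun n => map_zero _
      neg_mem' := fun {a} ha n => by rw [map_neg, ha n, neg_zero] }
  have hAT : ∀ s a, P (A s) a ∈ T := by
    intro s a
    rw [hP, LinearMap.sum_apply]
    refine T.sum_mem fun t _ n => ?_
    simp only [hA, Module.End.mul_apply, hK, hN, nat_h]
    have : (![0, 0, 0, 0] : Fin 4 → F) = 0 := by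
      ext i
      fin_cases i <;> rfl
    simp [this]
  let T2 : AddSubgroup M := T.map (AddMonoidHom.id M + AddMonoidHom.id M)
  have hPT : ∀ a, P (z - 1) a ∈ T := by
    intro a
    have h3 : ∑ s ∈ Finset.univ.erase (1 : Fˣ), (QuotientAddGroup.mk' T2) (P (A s) a) = 0 := by
      refine Finset.sum_involution (fun s _ => s⁻¹) (fun s _ => ?_) (fun s hs _ h4 => ?_)
        (fun s hs => by simpa using hs) (fun s _ => inv_inv s)
      · rw [hPi, ← map_add, QuotientAddGroup.mk'_apply, QuotientAddGroup.eq_zero_iff]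
        exact ⟨_, hAT s a, rfl⟩
      · apply (Finset.mem_erase.mp hs).1
        have h5 : (s : F) * s = 1 := by
          rw [← Units.val_mul]
          nth_rewrite 1 [← h4]
          simp
        have h6 : ((s : F) - 1) ^ 2 = 0 := by
          linear_combination h5 + (1 - s) * (two_eq (F := F))
        exact Units.ext (sub_eq_zero.mp (pow_eq_zero_iff two_ne_zero |>.mp h6))
    rw [← map_sum, QuotientAddGroup.mk'_apply, QuotientAddGroup.eq_zero_iff] at h3
    obtain ⟨b, hb, hb'⟩ := h3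
    have h4 := LinearMap.congr_fun hP0 a
    rw [← Finset.add_sum_erase _ _ (Finset.mem_univ (1 : Fˣ)), LinearMap.add_apply,
      LinearMap.sum_apply, ← hb', hP1] at h4
    have h5 : (P (z - 1) a - b) + (P (z - 1) a - b) = 0 := by
      simp only [LinearMap.neg_apply, LinearMap.add_apply, AddMonoidHom.add_apply,
        AddMonoidHom.id_apply, LinearMap.zero_apply] at h4
      rw [← neg_eq_zero, ← h4]
      abel
    intro n
    have h6 := hπS n _ h5
    rw [map_sub, hb n, sub_zero] at h6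
    exact h6
  have he0 : π (e0 F) = 0 := by
    ext a
    have h3 := hPT a (e3 F)
    rw [hP, LinearMap.sum_apply, map_sum] at h3
    simp only [Module.End.mul_apply, hK, hN] at h3
    rw [← AddMonoidHom.finsetSum_apply, ← map_sum] at h3
    rw [AddMonoidHom.zero_apply, ← h3]
    congr 2
    have hq := eight_le_card (F := F) (m := m)
    have h4 : ∀ t : Fˣ, nat m σ (h m t⁻¹) ![nat m σ (h m t⁻¹) (e3 F) 2 + nat m σ (h m t⁻¹) (e3 F) 3,
        nat m σ (h m t⁻¹) (e3 F) 3, 0, 0] = ![1, σ (th m (t : F)), 0, 0] := by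
      intro t
      have h1 : (t : F) ≠ 0 := t.ne_zero
      have h2 : σ (th m (t : F)) ≠ 0 :=
        (_root_.map_ne_zero σ).mpr fun h => h1 (th_eq_zero.mp h)
      have h3 : σ (t : F) ≠ 0 := (_root_.map_ne_zero σ).mpr h1
      ext i
      simp only [nat_h]
      fin_cases i <;> simp [hMat] <;> field_simp
    simp only [h4]
    have h5 : ∑ t : Fˣ, σ (th m (t : F)) = 0 := by
      rw [← map_sum, ← map_sum]
      have := FiniteField.sum_pow_units F 1
      rw [if_neg (by rw [Nat.dvd_one]; omega)] at this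
      simp only [pow_one] at this
      rw [this, map_zero, map_zero]
    ext i
    rw [Finset.sum_apply]
    fin_cases i
    · simp only [Fin.zero_eta, cons_val_zero, Finset.sum_const, Finset.card_univ,
        Fintype.card_units, nsmul_eq_mul, mul_one]
      rw [Nat.cast_sub (by omega), FiniteField.cast_card_eq_zero, zero_sub, CharTwo.neg_eq,
        Nat.cast_one]
    · simpa using h5.symm
    · simp
    · simp
  apply hπ0
  refine eq_zero_of_e0 σ π fun g => ?_
  rw [nat_apply, hπ, he0, map_zero]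

end Mart

end H5
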