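import Cfsg.Agent.H5.Mart2
import Cfsg.Agent.H1.Coprime

/-! Martineau's theorem (in the form needed for CIT-groups): if `G / Q ≅ Sz(q)`, `Q` is a `2`-group and
the elements of odd order act without fixed points on `Q`, then `Q` is elementary abelian
(`H5.Mart.martineau`). -/

set_option autoImplicit false

namespace H5

namespace Mart

open H13.Sz
open scoped commutatorElement

section descend

variable {k G Γ W : Type*} [Semiring k] [Group G] [Group Γ] [AddCommMonoid W] [Module k W]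

theorem rep_eq_of (π : G →* Γ) (ρ : Representation k G W) (hρ : ∀ q ∈ π.ker, ρ q = 1) {a b : G}
    (h : π a = π b) : ρ a = ρ b := by
  have : b = a * (a⁻¹ * b) := by group
  rw [this, map_mul, hρ (a⁻¹ * b) (by simp [MonoidHom.mem_ker, h]), mul_one]

/-- A representation trivial on the kernel of a surjection descends. -/
noncomputable def descend (π : G →* Γ) (hπ : Function.Surjective π) (ρ : Representation k G W)
    (hρ : ∀ q ∈ π.ker, ρ q = 1) : Representation k Γ W where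
  toFun γ := ρ (Function.surjInv hπ γ)
  map_one' := by
    rw [← map_one ρ]
    exact rep_eq_of π ρ hρ (by rw [Function.surjInv_eq hπ, map_one])
  map_mul' a b := by
    rw [← map_mul]
    exact rep_eq_of π ρ hρ (by simp only [Function.surjInv_eq hπ, map_mul])

theorem descend_apply (π : G →* Γ) (hπ : Function.Surjective π) (ρ : Representation k G W)
    (hρ : ∀ q ∈ π.ker, ρ q = 1) (g : G) : descend π hπ ρ hρ (π g) = ρ g :=
  rep_eq_of π ρ hρ (Function.surjInv_eq hπ _)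

theorem odd_lift [Finite G] (π : G →* Γ) (hπ : Function.Surjective π) {γ : Γ}
    (hγ : Odd (orderOf γ)) : ∃ g, Odd (orderOf g) ∧ π g = γ := by
  obtain ⟨g, rfl⟩ := hπ γ
  obtain ⟨a, b, hb, hab⟩ := Nat.exists_eq_two_pow_mul_odd (orderOf_pos g).ne'
  obtain ⟨c, hc⟩ := exists_pow_eq_self_of_coprime (x := π g) (n := 2 ^ a)
    (Nat.Coprime.pow_left a (Nat.coprime_two_left.mpr hγ))
  refine ⟨(g ^ 2 ^ a) ^ c, Odd.of_dvd_nat hb (orderOf_dvd_of_pow_eq_one ?_), by simpa using hc⟩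
  rw [← pow_mul, ← pow_mul, mul_comm c, ← mul_assoc, ← hab, pow_mul, pow_orderOf_eq_one, one_pow]

end descend

section hs

variable (F : Type*) [Field F] {G : Type*} [Group G]

/-- Additive functions on `R` vanishing on `T`. -/
def Hs (R T : Subgroup G) : Submodule F (R → F) where
  carrier := {f | (∀ a b, f (a * b) = f a + f b) ∧ ∀ a : R, (a : G) ∈ T → f a = 0}
  add_mem' := fun {f g} hf hg => ⟨fun a b => by
    simp only [Pi.add_apply, hf.1, hg.1]; ring, fun a ha => by simp [hf.2 a ha, hg.2 a ha]⟩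
  zero_mem' := ⟨fun _ _ => by simp, fun _ _ => rfl⟩
  smul_mem' := fun c f hf => ⟨fun a b => by
    simp only [Pi.smul_apply, hf.1, smul_add], fun a ha => by simp [hf.2 a ha]⟩

/-- The conjugation action on functions on a normal subgroup. -/
def conjRep (R : Subgroup G) [R.Normal] : Representation F G (R → F) where
  toFun g := LinearMap.funLeft F F (MulAut.conjNormal g⁻¹ : MulAut R)
  map_one' := by ext f a; simp
  map_mul' g g' := by ext f a; simp

/-- The conjugation action on `Hs`. -/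
def hsRep (R T : Subgroup G) [R.Normal] [hT : T.Normal] : Representation F G (Hs F R T) :=
  (conjRep F R).subrepresentation (Hs F R T) fun g f hf =>
    ⟨fun a b => by
      change f (MulAut.conjNormal g⁻¹ (a * b)) =
        f (MulAut.conjNormal g⁻¹ a) + f (MulAut.conjNormal g⁻¹ b)
      rw [map_mul, hf.1], fun a ha => hf.2 _ (hT.conj_mem _ ha _)⟩

variable {F}

theorem hsRep_apply {R T : Subgroup G} [R.Normal] [T.Normal] (g : G) (f : Hs F R T) (a : R) :
    (hsRep F R T g f).1 a = f.1 (MulAut.conjNormal g⁻¹ a) := rfl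

theorem hs_conj {Q R T : Subgroup G} [hR : R.Normal] (h : ⁅Q, R⁆ ≤ T) (f : Hs F R T) {q : G}
    (hq : q ∈ Q) (a : R) : f.1 (MulAut.conjNormal q a) = f.1 a := by
  have h1 : ⁅q, (a : G)⁆ ∈ R := by
    rw [commutatorElement_def]
    exact mul_mem (hR.conj_mem _ a.2 _) (inv_mem a.2)
  have h2 : MulAut.conjNormal q a = (⟨_, h1⟩ : R) * a := by
    apply Subtype.ext
    simp [commutatorElement_def]
  rw [h2, f.2.1, f.2.2 _ (h (Subgroup.commutator_mem_commutator hq a.2)), zero_add]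

theorem hsRep_triv {Q R T : Subgroup G} [R.Normal] [T.Normal] (h : ⁅Q, R⁆ ≤ T) {q : G}
    (hq : q ∈ Q) : hsRep F R T q = 1 := by
  ext f a
  rw [hsRep_apply, hs_conj h f (inv_mem hq)]
  rfl

theorem hsRep_fix {R T : Subgroup G} [Finite R] [R.Normal] [T.Normal] {g : G}
    (hg : ∀ a ∈ R, g * a = a * g → a = 1) (f : Hs F R T) (hf : hsRep F R T g f = f) : f = 0 := by
  have h1 : MonoidHom.FixedPointFree (MulAut.conjNormal g⁻¹ : MulAut R) := by
    intro a ha
    apply Subtype.ext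
    apply hg a a.2
    have := congrArg Subtype.val ha
    simp only [MulAut.conjNormal_apply, inv_inv] at this
    calc g * a = g * (g⁻¹ * a * g) := by rw [this]
      _ = a * g := by group
  ext a
  obtain ⟨b, rfl⟩ := h1.commutatorMap_surjective a
  have h2 := f.2.1 (b / MulAut.conjNormal g⁻¹ b) (MulAut.conjNormal g⁻¹ b)
  rw [div_mul_cancel, ← hsRep_apply, hf] at h2
  simpa [MonoidHom.commutatorMap_apply] using h2

end hs

variable {F : Type*} [Field F] [Fintype F] {m : ℕ} [hF : IsSz F m]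

theorem odd_x5 : Odd (orderOf (x5 F m)) := by
  have : Fact (Nat.Prime 5) := ⟨by norm_num⟩
  rw [orderOf_eq_prime x5_pow_five x5_ne_one]
  decide

section comm

variable {G : Type*} [Group G] (Q : Subgroup G) [Q.Normal]

/-- The commutator as an element of the derived subgroup. -/
def cm (a b : Q) : (⁅Q, Q⁆ : Subgroup G) := ⟨⁅(a : G), (b : G)⁆, Subgroup.commutator_mem_commutator a.2 b.2⟩

omit [Fintype F] in
theorem phi_right (φ : Hs F ⁅Q, Q⁆ ⁅Q, ⁅Q, Q⁆⁆) (a b c : Q) :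
    φ.1 (cm Q a (b * c)) = φ.1 (cm Q a b) + φ.1 (cm Q a c) := by
  rw [← hs_conj le_rfl φ b.2 (cm Q a c), ← φ.2.1]
  refine congrArg φ.1 (Subtype.ext ?_)
  simp only [cm, commutatorElement_def, Subgroup.coe_mul, MulAut.conjNormal_apply]
  group

omit [Fintype F] in
theorem phi_left (φ : Hs F ⁅Q, Q⁆ ⁅Q, ⁅Q, Q⁆⁆) (a b c : Q) :
    φ.1 (cm Q (a * b) c) = φ.1 (cm Q a c) + φ.1 (cm Q b c) := by
  rw [← hs_conj le_rfl φ a.2 (cm Q b c), add_comm, ← φ.2.1]
  refine congrArg φ.1 (Subtype.ext ?_)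
  simp only [cm, commutatorElement_def, Subgroup.coe_mul, MulAut.conjNormal_apply]
  group

variable (F) in
/-- `φ ↦ (b ↦ φ ⁅a, b⁆)`. -/
def Bl (a : Q) : Hs F ⁅Q, Q⁆ ⁅Q, ⁅Q, Q⁆⁆ →ₗ[F] Hs F Q ⁅Q, Q⁆ where
  toFun φ := ⟨fun b => φ.1 (cm Q a b), fun b c => phi_right Q φ a b c,
    fun b hb => φ.2.2 _ (Subgroup.commutator_mem_commutator a.2 hb)⟩
  map_add' _ _ := rfl
  map_smul' _ _ := rfl

variable (F) in
/-- `φ ↦ (a ↦ η (b ↦ φ ⁅a, b⁆))`. -/
def Cl (η : Module.Dual F (Hs F Q ⁅Q, Q⁆)) : Hs F ⁅Q, Q⁆ ⁅Q, ⁅Q, Q⁆⁆ →ₗ[F] Hs F Q ⁅Q, Q⁆ where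
  toFun φ := ⟨fun a => η (Bl F Q a φ), fun a b => by
      rw [← map_add]
      refine congrArg η (Subtype.ext (funext fun c => ?_))
      exact phi_left Q φ a b c,
    fun a ha => by
      rw [← map_zero η]
      refine congrArg η (Subtype.ext (funext fun c => ?_))
      refine φ.2.2 _ ?_
      rw [Subgroup.commutator_comm Q]
      exact Subgroup.commutator_mem_commutator ha c.2⟩
  map_add' _ _ := by
    ext a
    simp
  map_smul' _ _ := by
    ext a
    simp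

variable (F) in
/-- The trilinear form given by the commutator. -/
def tau : Module.Dual F (Hs F Q ⁅Q, Q⁆) →ₗ[F] Module.Dual F (Hs F Q ⁅Q, Q⁆) →ₗ[F]
    Hs F ⁅Q, Q⁆ ⁅Q, ⁅Q, Q⁆⁆ →ₗ[F] F :=
  LinearMap.mk₂ F (fun ξ η => ξ ∘ₗ Cl F Q η) (fun _ _ _ => rfl) (fun _ _ _ => rfl)
    (fun ξ η η' => by
      ext φ
      simp only [LinearMap.comp_apply, LinearMap.add_apply, ← map_add]
      rfl)
    (fun c ξ η => by
      ext φ
      rw [LinearMap.smul_apply, LinearMap.comp_apply, LinearMap.comp_apply, ← map_smul]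
      rfl)

omit [Fintype F] in
theorem tau_inv (g : G) (ξ η : Module.Dual F (Hs F Q ⁅Q, Q⁆)) (φ : Hs F ⁅Q, Q⁆ ⁅Q, ⁅Q, Q⁆⁆) :
    tau F Q (ξ ∘ₗ hsRep F Q ⁅Q, Q⁆ g⁻¹) (η ∘ₗ hsRep F Q ⁅Q, Q⁆ g⁻¹) (hsRep F _ _ g φ) =
      tau F Q ξ η φ := by
  change ξ (hsRep F Q ⁅Q, Q⁆ g⁻¹ (Cl F Q (η ∘ₗ hsRep F Q ⁅Q, Q⁆ g⁻¹) (hsRep F _ _ g φ))) =
    ξ (Cl F Q η φ)
  refine congrArg ξ (Subtype.ext (funext fun a => ?_))
  rw [hsRep_apply]
  change η (hsRep F Q ⁅Q, Q⁆ g⁻¹ (Bl F Q _ (hsRep F _ _ g φ))) = η (Bl F Q a φ)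
  refine congrArg η (Subtype.ext (funext fun b => ?_))
  rw [hsRep_apply]
  change φ.1 (MulAut.conjNormal g⁻¹ (cm Q _ _)) = φ.1 (cm Q a b)
  refine congrArg φ.1 (Subtype.ext ?_)
  simp only [cm, commutatorElement_def, MulAut.conjNormal_apply]
  group

end comm

theorem comm_eq_bot {G : Type*} [Group G] [Finite G] (π : G →* Cfsg.Sz F m)
    (hπ : Function.Surjective π) (hQ : IsPGroup 2 π.ker)
    (hfpf : ∀ g : G, Odd (orderOf g) → g ≠ 1 → ∀ a ∈ π.ker, g * a = a * g → a = 1) :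
    ⁅π.ker, π.ker⁆ = ⊥ := by
  by_contra hne
  have hle : ⁅π.ker, π.ker⁆ ≤ π.ker := Subgroup.commutator_le_left _ _
  have hQ' : IsPGroup 2 (⁅π.ker, π.ker⁆ : Subgroup G) := hQ.to_le hle
  have hlt := H1.commutator_lt_of_isPGroup hQ hQ' (by rw [Subgroup.normalizer_eq_top]; exact le_top)
    hne
  rw [Subgroup.commutator_comm _ π.ker] at hlt
  obtain ⟨f, hf1, hf2, hf3⟩ := exists_add_fun (F := F) hQ'
    (T := (⁅π.ker, ⁅π.ker, π.ker⁆⁆ : Subgroup G).subgroupOf ⁅π.ker, π.ker⁆)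
    (fun h0 => hlt.not_ge (Subgroup.subgroupOf_eq_top.mp h0))
  obtain ⟨g, hg, hgx⟩ := odd_lift π hπ (odd_x5 (F := F) (m := m))
  have hg1 : g ≠ 1 := by
    rintro rfl
    exact x5_ne_one (by rw [← hgx, map_one])
  obtain ⟨ρ₁, hρ₁⟩ : ∃ ρ₁ : Representation F (Cfsg.Sz F m) (Hs F π.ker ⁅π.ker, π.ker⁆),
      ∀ g, ρ₁ (π g) = hsRep F π.ker ⁅π.ker, π.ker⁆ g :=
    ⟨descend π hπ _ fun q hq => hsRep_triv le_rfl hq, descend_apply _ _ _ _⟩
  obtain ⟨ρ₃, hρ₃⟩ : ∃ ρ₃ : Representation F (Cfsg.Sz F m)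
      (Hs F ⁅π.ker, π.ker⁆ ⁅π.ker, ⁅π.ker, π.ker⁆⁆), ∀ g, ρ₃ (π g) = hsRep F _ _ g :=
    ⟨descend π hπ _ fun q hq => hsRep_triv le_rfl hq, descend_apply _ _ _ _⟩
  have h1 : ∀ y, nrm ρ₁ y = 0 := nrm_eq_zero_of_fix _ fun y hy => by
    rw [← hgx, hρ₁] at hy
    exact hsRep_fix (hfpf g hg hg1) y hy
  have h3 : ∀ y, nrm ρ₃ y = 0 := nrm_eq_zero_of_fix _ fun y hy => by
    rw [← hgx, hρ₃] at hy
    exact hsRep_fix (fun a ha => hfpf g hg hg1 a (hle ha)) y hy
  have h0 : tau F π.ker = 0 := by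
    refine tri_eq_zero (nrm_dual ρ₁ h1) (nrm_dual ρ₁ h1) h3 fun γ ξ η φ => ?_
    obtain ⟨x, rfl⟩ := hπ γ
    have e1 : ∀ ξ : Module.Dual F (Hs F π.ker ⁅π.ker, π.ker⁆),
        ρ₁.dual (π x) ξ = ξ ∘ₗ hsRep F π.ker ⁅π.ker, π.ker⁆ x⁻¹ := by
      intro ξ
      rw [← hρ₁, map_inv π]
      rfl
    have key : ∀ a b c, a = ξ ∘ₗ hsRep F π.ker ⁅π.ker, π.ker⁆ x⁻¹ →
        b = η ∘ₗ hsRep F π.ker ⁅π.ker, π.ker⁆ x⁻¹ → c = hsRep F _ _ x φ →
        tau F π.ker a b c = tau F π.ker ξ η φ := by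
      rintro _ _ _ rfl rfl rfl
      exact tau_inv π.ker x ξ η φ
    exact key _ _ _ (e1 ξ) (e1 η) (LinearMap.congr_fun (hρ₃ x) φ)
  let φ : Hs F ⁅π.ker, π.ker⁆ ⁅π.ker, ⁅π.ker, π.ker⁆⁆ := ⟨f, hf1, hf2⟩
  have h4 : ∀ a b : π.ker, f (cm π.ker a b) = 0 := by
    intro a b
    let ev : π.ker → Module.Dual F (Hs F π.ker ⁅π.ker, π.ker⁆) := fun c =>
      (LinearMap.proj c : (π.ker → F) →ₗ[F] F) ∘ₗ (Hs F π.ker ⁅π.ker, π.ker⁆).subtype
    exact LinearMap.congr_fun (LinearMap.congr_fun (LinearMap.congr_fun h0 (ev a)) (ev b)) φ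
  have hf0 : f 1 = 0 := by simpa using hf1 1 1
  let K : Subgroup (⁅π.ker, π.ker⁆ : Subgroup G) :=
    { carrier := {y | f y = 0}
      mul_mem' := fun {x y} hx hy => by
        change f (x * y) = 0
        rw [hf1, show f x = 0 from hx, show f y = 0 from hy, add_zero]
      one_mem' := hf0
      inv_mem' := fun {x} hx => by
        have := hf1 x⁻¹ x
        rw [inv_mul_cancel, hf0, show f x = 0 from hx, add_zero] at this
        exact this.symm }
  have hK : ⁅π.ker, π.ker⁆ ≤ K.map (⁅π.ker, π.ker⁆ : Subgroup G).subtype :=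
    Subgroup.commutator_le.mpr fun a ha b hb => ⟨_, h4 ⟨a, ha⟩ ⟨b, hb⟩, rfl⟩
  apply hf3
  ext y
  obtain ⟨z, hz, e⟩ := hK y.2
  rw [← Subtype.ext e]
  exact hz

theorem martineau {G : Type*} [Group G] [Finite G] (π : G →* Cfsg.Sz F m)
    (hπ : Function.Surjective π) (hQ : IsPGroup 2 π.ker)
    (hfpf : ∀ g : G, Odd (orderOf g) → g ≠ 1 → ∀ a ∈ π.ker, g * a = a * g → a = 1) :
    IsMulCommutative π.ker ∧ ∀ a ∈ π.ker, a * a = 1 := by
  have h1 := comm_eq_bot π hπ hQ hfpf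
  have hc : ∀ a ∈ π.ker, ∀ b ∈ π.ker, a * b = b * a := by
    intro a ha b hb
    have := Subgroup.commutator_mem_commutator ha hb
    rw [h1, Subgroup.mem_bot, commutatorElement_eq_one_iff_mul_comm] at this
    exact this
  have hcomm : IsMulCommutative π.ker := ⟨⟨fun a b => Subtype.ext (hc a a.2 b b.2)⟩⟩
  refine ⟨hcomm, fun a ha => ?_⟩
  letI : CommGroup π.ker := { (inferInstance : Group π.ker) with mul_comm := hcomm.is_comm.comm }
  let α : Representation ℤ G (Additive π.ker) :=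
    { toFun := fun g => (MonoidHom.toAdditive
        (MulAut.conjNormal g : MulAut π.ker).toMonoidHom).toIntLinearMap
      map_one' := by ext; simp
      map_mul' := fun g g' => by ext; simp }
  have hα : ∀ g (y : Additive π.ker), ((α g y).toMul : G) = g * (y.toMul : G) * g⁻¹ := fun _ _ => rfl
  have htriv : ∀ q ∈ π.ker, α q = 1 := by
    intro q hq
    ext1 y
    apply Additive.toMul.injective
    apply Subtype.ext
    rw [hα, hc q hq _ y.toMul.2]
    simp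
  have hfix : ∀ γ : Cfsg.Sz F m, Odd (orderOf γ) → γ ≠ 1 → ∀ y,
      descend π hπ α htriv γ y = y → y = 0 := by
    intro γ h2 h3 y hy
    obtain ⟨g, hg, rfl⟩ := odd_lift π hπ h2
    rw [descend_apply] at hy
    have h4 := hα g y
    rw [hy] at h4
    have := hfpf g hg (by rintro rfl; exact h3 (map_one π)) _ y.toMul.2
      (by rw [eq_mul_inv_iff_mul_eq] at h4; exact h4.symm)
    apply Additive.toMul.injective
    exact Subtype.ext this
  obtain ⟨t, ht⟩ := exists_unit_ne_one (F := F)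
  have hodd : Odd (orderOf (h m t)) := by
    classical
    refine Odd.of_dvd_nat (odd_card_sub_one (F := F)) (orderOf_dvd_of_pow_eq_one ?_)
    rw [← hHom_apply, ← map_pow, ← Fintype.card_units, pow_card_eq_one, map_one]
  have := add_self_eq_zero (descend π hπ α htriv) hQ (hfix _ odd_x5 x5_ne_one) t
    (hfix _ hodd fun h0 => ht (h_injective (h0.trans h_one.symm))) (Additive.ofMul ⟨a, ha⟩)
  exact congrArg (fun y : Additive π.ker => (y.toMul : G)) this

end Mart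

end H5
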