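import Cfsg.Agent.H18.BG1
import Cfsg.Agent.H23.FrobCompl
import Cfsg.Agent.H1.BG3a
import Cfsg.Agent.H5.Central
import Mathlib.RingTheory.Polynomial.Cyclotomic.Factorization

/-! Linear algebra for groups with three automorphism orbits: a fixed point free operator `T` of prime order `q` on an
elementary abelian `p`-group; `prim_of_trans`, `trans_of_prim`; extension of automorphisms to split extensions
(`exists_aut_ext`); `orb3_fwd`, `orb3_back`. -/

set_option autoImplicit false
open Cfsg H18 Subgroup Polynomial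

namespace H5
end H5
open H5
namespace H5
section LA
variable {p q : ℕ} [hp : Fact p.Prime] [hq : Fact q.Prime] {V : Type*} [AddCommGroup V] [Module (ZMod p) V]
  {T : Module.End (ZMod p) V}

theorem cyc_aeval (hT : T ^ q = 1) (hf : ∀ v, T v = v → v = 0) : aeval T (cyclotomic q (ZMod p)) = 0 := by
  have := congrArg (aeval T) (cyclotomic_prime_mul_X_sub_one (ZMod p) q)
  rw [mul_comm, map_mul, map_sub, map_sub, map_pow, aeval_X, map_one, hT, sub_self] at this
  exact LinearMap.ext fun v => hf _ (sub_eq_zero.1 (LinearMap.congr_fun this v))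

theorem aeval_tw {S : Module.End (ZMod p) V} (A : V ≃+ V) (h : ∀ u, A (T u) = S (A u)) (g : (ZMod p)[X]) (u : V) :
    A (aeval T g u) = aeval S g (A u) := by
  induction g using Polynomial.induction_on' with
  | add f g h1 h2 => simp [h1, h2]
  | monomial n a =>
    simp only [aeval_monomial, Module.End.mul_apply, Module.algebraMap_end_apply, ZMod.map_smul]
    congr 1
    induction n with
    | zero => rfl
    | succ n ih => rw [pow_succ', pow_succ', Module.End.mul_apply, Module.End.mul_apply, h, ih]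

omit hq in
theorem aeval_mem {M : Submodule (ZMod p) V} (h : M ∈ T.invtSubmodule) (g : (ZMod p)[X]) {u : V} (hu : u ∈ M) :
    aeval T g u ∈ M := aeval_apply_smul_mem_of_le_comap hu g T h

theorem irr_minpoly [Finite V] [Nontrivial V] (hT : T ^ q = 1)
    (h1 : ∀ v w : V, v ≠ 0 → w ≠ 0 → ∃ A : V ≃+ V, ∃ i, i.Coprime q ∧ A v = w ∧ ∀ u, A (T u) = (T ^ i) (A u)) :
    Irreducible (minpoly (ZMod p) T) := by
  have : Finite (Submodule (ZMod p) V) := Finite.of_injective _ SetLike.coe_injective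
  obtain ⟨M, ⟨m1, m2⟩, m3⟩ := exists_minimal_of_wellFoundedLT (fun M : Submodule (ZMod p) V => M ∈ T.invtSubmodule ∧ M ≠ ⊥)
    ⟨⊤, Module.End.invtSubmodule.top_mem T, top_ne_bot⟩
  obtain ⟨v₀, hv₀, v0⟩ := Submodule.exists_mem_ne_zero_of_ne_bot m2
  have key : ∀ w : V, w ≠ 0 → ∃ W ∈ T.invtSubmodule, w ∈ W ∧ ∀ X ∈ T.invtSubmodule, ∀ u ∈ W, u ∈ X → u ≠ 0 → W ≤ X := by
    intro w hw
    obtain ⟨A, i, hi, rfl, hA⟩ := h1 v₀ w v0 hw
    obtain ⟨j, -, hj⟩ := Nat.exists_mul_mod_eq_one_of_coprime hi hq.out.one_lt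
    have e : ∀ u, T (A u) = A ((T ^ j) u) := fun u => by
      have := aeval_tw A hA (X ^ j) u
      rw [map_pow, map_pow, aeval_X, aeval_X, ← pow_mul, ← Nat.mod_add_div (i * j) q, hj, pow_add, pow_mul, hT, one_pow,
        mul_one, pow_one] at this
      exact this.symm
    let B : V →ₗ[ZMod p] V := A.toAddMonoidHom.toZModLinearMap p
    refine ⟨M.map B, ?_, ⟨v₀, hv₀, rfl⟩, fun X hX u hu huX u0 => ?_⟩
    · rintro _ ⟨u, hu, rfl⟩
      exact ⟨(T ^ j) u, by simpa using aeval_mem m1 (X ^ j) hu, (e u).symm⟩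
    · obtain ⟨u, hu, rfl⟩ := hu
      have : M ≤ M ⊓ X.comap B := m3 ⟨fun z hz => ⟨m1 hz.1, by
          change A (T z) ∈ X
          rw [hA]; simpa using aeval_mem hX (Polynomial.X ^ i) (show A z ∈ X from hz.2)⟩,
        fun k => u0 (by rw [(Submodule.eq_bot_iff _).1 k u ⟨hu, huX⟩, map_zero])⟩ inf_le_left
      exact Submodule.map_le_iff_le_comap.2 (this.trans inf_le_right)
  have inj : ∀ g : (ZMod p)[X], aeval T g ≠ 0 → ∀ v, aeval T g v = 0 → v = 0 := fun g hg v hv => by
    by_contra v0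
    obtain ⟨w, hw⟩ : ∃ w, aeval T g w ≠ 0 := by
      by_contra k
      push Not at k
      exact hg (LinearMap.ext k)
    have kI : LinearMap.ker (aeval T g) ∈ T.invtSubmodule := fun z hz => by
      change aeval T g (T z) = 0
      have : aeval T g * T = T * aeval T g := by
        nth_rewrite 2 [← aeval_X (R := ZMod p) T]
        nth_rewrite 3 [← aeval_X (R := ZMod p) T]
        rw [← map_mul, ← map_mul, mul_comm]
      rw [← Module.End.mul_apply, this, Module.End.mul_apply, LinearMap.mem_ker.1 hz, map_zero]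
    obtain ⟨W, w1, w2, w3⟩ := key w fun k => hw (by rw [k, map_zero])
    have e : aeval T g (v + w) = aeval T g w := by rw [map_add, hv, zero_add]
    obtain ⟨W', w1', w2', w3'⟩ := key (v + w) fun k => hw (by rw [← e, k, map_zero])
    have := w3' W w1 _ (aeval_mem w1' g w2') (e ▸ aeval_mem w1 g w2) (e ▸ hw) w2'
    exact hw (w3 _ kI v ((add_mem_cancel_right w2).1 this) hv v0 w2)
  have hi : IsIntegral (ZMod p) T := .of_finite _ _
  refine ⟨minpoly.not_isUnit _ _, fun a b hab => ?_⟩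
  have m0 := minpoly.ne_zero hi
  have k : ∀ a b, minpoly (ZMod p) T = a * b → aeval T b = 0 → IsUnit a := fun a b hab hb => by
    obtain ⟨c, hc⟩ := minpoly.dvd _ _ hb
    refine IsUnit.of_mul_eq_one c (mul_left_cancel₀ m0 ?_)
    rw [mul_one]; nth_rewrite 2 [hab]; rw [hc]; ring
  by_cases ha : aeval T a = 0
  · exact Or.inr (k b a (hab.trans (mul_comm _ _)) ha)
  · refine Or.inl (k a b hab (LinearMap.ext fun v => inj a ha _ ?_))
    rw [← Module.End.mul_apply, ← map_mul, ← hab, minpoly.aeval]; rfl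

theorem order_unit (hn : (p ^ 1).Coprime q) : orderOf (ZMod.unitOfCoprime _ hn) = orderOf (p : ZMod q) := by
  rw [← orderOf_units, ZMod.coe_unitOfCoprime, pow_one]

theorem prim_of_trans [Finite V] [Nontrivial V] (hne : p ≠ q) (hT : T ^ q = 1) (hf : ∀ v, T v = v → v = 0)
    (h1 : ∀ v w : V, v ≠ 0 → w ≠ 0 → ∃ A : V ≃+ V, ∃ i, i.Coprime q ∧ A v = w ∧ ∀ u, A (T u) = (T ^ i) (A u))
    (h2 : ∀ i, i.Coprime q → ∃ A : V ≃+ V, ∀ u, A (T u) = (T ^ i) (A u)) : orderOf (p : ZMod q) = q - 1 := by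
  classical
  have hc : p.Coprime q := (Nat.coprime_primes hp.out hq.out).2 hne
  have hi := irr_minpoly hT h1
  have hd := minpoly.dvd _ _ (cyc_aeval hT hf)
  have e := natDegree_of_dvd_cyclotomic_of_irreducible (f := 1) (p := p) (by simp) hc hd hi
  rw [order_unit] at e
  refine le_antisymm (Nat.le_of_dvd (by have := hq.out.two_le; omega) (ZMod.orderOf_dvd_card_sub_one fun k => ?_)) ?_
  · exact hne ((Nat.prime_dvd_prime_iff_eq hq.out hp.out).1 ((ZMod.natCast_eq_zero_iff p q).1 k)).symm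
  set μ := minpoly (ZMod p) T
  have := Fact.mk hi
  have : CharP (AdjoinRoot μ) p := charP_of_injective_algebraMap (algebraMap (ZMod p) _).injective p
  have : NeZero (q : AdjoinRoot μ) := ⟨fun k => hne ((Nat.prime_dvd_prime_iff_eq hp.out hq.out).1
    ((CharP.cast_eq_zero_iff _ p q).1 k))⟩
  have hr : IsPrimitiveRoot (AdjoinRoot.root μ) q := by
    rw [← isRoot_cyclotomic_iff, ← map_cyclotomic q (algebraMap (ZMod p) _), IsRoot, eval_map_algebraMap, AdjoinRoot.aeval_eq,
      AdjoinRoot.mk_eq_zero]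
    exact hd
  rw [← e, ← natDegree_map (algebraMap (ZMod p) (AdjoinRoot μ))]
  refine le_trans ?_ ((card_le_degree_of_subset_roots (Z := (Finset.Ico 1 q).image (AdjoinRoot.root μ ^ ·))) ?_)
  · rw [Finset.card_image_of_injOn fun i hi j hj h => hr.pow_inj (Finset.mem_Ico.1 hi).2 (Finset.mem_Ico.1 hj).2 h]
    simp
  · intro z hz
    obtain ⟨i, hi', rfl⟩ := Finset.mem_image.1 (Finset.mem_val ▸ hz :)
    obtain ⟨i1, i2⟩ := Finset.mem_Ico.1 hi'
    obtain ⟨A, hA⟩ := h2 i ((Nat.coprime_of_lt_prime (by omega) i2 hq.out).symm)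
    rw [mem_roots (map_ne_zero hi.ne_zero), IsRoot, eval_map_algebraMap, ← aeval_X (R := ZMod p) (AdjoinRoot.root μ), ← map_pow,
      ← aeval_comp, AdjoinRoot.aeval_eq, AdjoinRoot.mk_eq_zero]
    refine minpoly.dvd _ _ (LinearMap.ext fun u => ?_)
    rw [aeval_comp, map_pow, aeval_X, ← A.apply_symm_apply u, ← aeval_tw A hA, minpoly.aeval]
    simp

theorem trans_of_prim [Finite V] (hne : p ≠ q) (hT : T ^ q = 1) (hf : ∀ v, T v = v → v = 0)
    (ho : orderOf (p : ZMod q) = q - 1) : (∀ v w : V, v ≠ 0 → w ≠ 0 → ∃ A : V ≃+ V, A v = w ∧ ∀ u, A (T u) = T (A u)) ∧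
      ∃ A : V ≃+ V, ∀ u, A (T u) = (T ^ p) (A u) := by
  classical
  have hc : p.Coprime q := (Nat.coprime_primes hp.out hq.out).2 hne
  have hi : Irreducible (cyclotomic q (ZMod p)) := irreducible_of_dvd_cyclotomic_of_natDegree (f := 1) (p := p) (by simp) hc
    dvd_rfl (by rw [order_unit, ho, natDegree_cyclotomic, Nat.totient_prime hq.out])
  set μ := cyclotomic q (ZMod p)
  have := Fact.mk hi
  have : CharP (AdjoinRoot μ) p := charP_of_injective_algebraMap (algebraMap (ZMod p) _).injective p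
  let φ : AdjoinRoot μ →+* Module.End (ZMod p) V := Ideal.Quotient.lift _ (aeval T).toRingHom fun a ha => by
    obtain ⟨c, rfl⟩ := Ideal.mem_span_singleton.1 ha
    change aeval T _ = 0
    rw [map_mul, cyc_aeval hT hf, zero_mul]
  let _ : Module (AdjoinRoot μ) V := Module.compHom V φ
  have hr : ∀ u : V, AdjoinRoot.root μ • u = T u := fun u => by
    change aeval T X u = T u
    rw [aeval_X]
  have hr' : ∀ (n : ℕ) (u : V), AdjoinRoot.root μ ^ n • u = (T ^ n) u := fun n u => by
    induction n with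
    | zero => simp
    | succ n ih => rw [pow_succ', mul_smul, ih, hr, pow_succ', Module.End.mul_apply]
  refine ⟨fun v w hv hw => ?_, ?_⟩
  · obtain ⟨g, hg⟩ := Submodule.exists_linearEquiv_restrict_eq
      ((LinearEquiv.toSpanNonzeroSingleton (AdjoinRoot μ) V v hv).symm ≪≫ₗ LinearEquiv.toSpanNonzeroSingleton _ V w hw)
    refine ⟨g.toAddEquiv, ?_, fun u => ?_⟩
    · have := hg (LinearEquiv.toSpanNonzeroSingleton _ V v hv 1)
      rw [LinearEquiv.trans_apply, LinearEquiv.symm_apply_apply] at this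
      simpa using this.symm
    · rw [← hr, ← hr]; exact g.map_smul _ u
  · let b := (Module.Free.chooseBasis (AdjoinRoot μ) V).equivFun
    let f : V →+ V := b.symm.toAddMonoidHom.comp (((frobenius (AdjoinRoot μ) p).toAddMonoidHom.compLeft _).comp b.toAddMonoidHom)
    have hf : ∀ u, f u = b.symm fun i => b u i ^ p := fun u => rfl
    have inj : Function.Injective f := fun u u' h => b.injective (funext fun i =>
      (frobenius (AdjoinRoot μ) p).injective (congrFun (b.symm.injective h) i))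
    refine ⟨AddEquiv.ofBijective f (Finite.injective_iff_bijective.1 inj), fun u => ?_⟩
    change f (T u) = (T ^ p) (f u)
    rw [← hr, ← hr', hf, hf, ← map_smul b.symm]
    congr 1
    ext i
    simp [mul_pow]

end LA

variable {G : Type*} [Group G] [Finite G]

theorem exists_aut_ext {P : Subgroup G} [P.Normal] {x : G} (h : P.IsComplement' (zpowers x)) (φ : P ≃* P) {i : ℕ}
    (hi : i.Coprime (orderOf x)) (hφ : ∀ u : P, (φ (MulAut.conjNormal x u) : G) = x ^ i * φ u * (x ^ i)⁻¹) :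
    ∃ α : MulAut G, (∀ u : P, α u = φ u) ∧ α x = x ^ i := by
  have hi' : (Nat.card (zpowers x)).Coprime i := by rw [Nat.card_zpowers]; exact hi.symm
  let ψ : zpowers x ≃* zpowers x :=
    { powCoprime hi' with map_mul' := fun a b => Commute.mul_pow (IsMulCommutative.is_comm.comm a b) i }
  let e := SemidirectProduct.mulEquivSubgroup h
  have k : ∀ (n : ℕ) (u : P), (φ (MulAut.conjNormal (x ^ n) u) : G) = (x ^ n) ^ i * φ u * ((x ^ n) ^ i)⁻¹ := fun n => by
    induction n with
    | zero => simp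
    | succ n ih =>
      intro u
      rw [pow_succ', map_mul, MulAut.mul_apply, hφ, ih, ← pow_succ', ← pow_mul, ← pow_mul]; group
  let c := SemidirectProduct.congr (φ₁ := P.normalizerMonoidHom.comp (inclusion (P.normalizer_eq_top ▸ le_top)))
    (φ₂ := P.normalizerMonoidHom.comp (inclusion (P.normalizer_eq_top ▸ le_top))) φ ψ fun g => by
      obtain ⟨n, hn⟩ := (mem_powers_iff_mem_zpowers.2 g.2 : (g : G) ∈ Submonoid.powers x)
      ext u
      have := k n u
      simp only at hn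
      rw [hn] at this
      exact this
  refine ⟨e.symm.trans (c.trans e), fun u => ?_, ?_⟩
  · have : e.symm u = ⟨u, 1⟩ := e.symm_apply_eq.2 (mul_one (u : G)).symm
    change e (c (e.symm u)) = _
    rw [this]
    change (φ u : G) * (ψ 1 : zpowers x) = _
    simp
  · have : e.symm x = ⟨1, ⟨x, mem_zpowers x⟩⟩ := e.symm_apply_eq.2 (one_mul x).symm
    change e (c (e.symm x)) = _
    rw [this]
    change (φ 1 : G) * x ^ i = _
    simp

section Wrap
open scoped IsMulCommutative
variable {p q : ℕ} [hp : Fact p.Prime] [hq : Fact q.Prime] {P : Subgroup G} [P.Normal] {x : G}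

theorem wrapT (hP : IsElementaryAbelian p P) : ∃ (_ : IsMulCommutative P) (_ : Module (ZMod p) (Additive P)),
    ∀ x : G, ∃ T : Module.End (ZMod p) (Additive P), ∀ (n : ℕ) (u : P),
      (T ^ n) (Additive.ofMul u) = Additive.ofMul (MulAut.conjNormal (x ^ n) u) := by
  have := hP.1
  let _ : Module (ZMod p) (Additive P) := AddCommGroup.zmodModule fun u => Subtype.ext (hP.2 _ u.toMul.2)
  refine ⟨this, inferInstance, fun x => ?_⟩
  let T : Module.End (ZMod p) (Additive P) := (MonoidHom.toAdditive (MulAut.conjNormal x).toMonoidHom).toZModLinearMap p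
  refine ⟨T, fun n u => ?_⟩
  induction n with
  | zero => simp
  | succ n ih =>
    rw [pow_succ' x, map_mul, MulAut.mul_apply, Module.End.pow_apply, Function.iterate_succ_apply', ← Module.End.pow_apply, ih]; rfl

theorem grp_prim (hP : IsElementaryAbelian p P) (h0 : P ≠ ⊥) (hx : orderOf x = q) (hne : p ≠ q)
    (hf : ∀ u ∈ P, x * u * x⁻¹ = u → u = 1)
    (h1 : ∀ v w : P, v ≠ 1 → w ≠ 1 → ∃ φ : P ≃* P, ∃ i, i.Coprime q ∧ φ v = w ∧
      ∀ u, φ (MulAut.conjNormal x u) = MulAut.conjNormal (x ^ i) (φ u))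
    (h2 : ∀ i, i.Coprime q → ∃ φ : P ≃* P, ∀ u, φ (MulAut.conjNormal x u) = MulAut.conjNormal (x ^ i) (φ u)) :
    orderOf (p : ZMod q) = q - 1 := by
  obtain ⟨_, _, h⟩ := wrapT hP
  obtain ⟨T, hT⟩ := h x
  have : Nontrivial P := (nontrivial_iff_ne_bot P).2 h0
  have t1 : ∀ u : P, T (Additive.ofMul u) = Additive.ofMul (MulAut.conjNormal x u) := fun u => by simpa using hT 1 u
  refine prim_of_trans (T := T) hne (LinearMap.ext fun u => ?_) (fun v hv => ?_) (fun v w hv hw => ?_) fun i hi => ?_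
  · exact (hT q u.toMul).trans (by rw [← hx, pow_orderOf_eq_one, map_one]; rfl)
  · exact Subtype.ext (hf _ v.toMul.2 (congrArg Subtype.val ((t1 v.toMul).symm.trans hv)))
  · obtain ⟨φ, i, hi, e, k⟩ := h1 v.toMul w.toMul hv hw
    exact ⟨MulEquiv.toAdditive φ, i, hi, e, fun u => by
      rw [← ofMul_toMul u, t1]; exact (congrArg Additive.ofMul (k _)).trans (hT i _).symm⟩
  · obtain ⟨φ, k⟩ := h2 i hi
    exact ⟨MulEquiv.toAdditive φ, fun u => by
      rw [← ofMul_toMul u, t1]; exact (congrArg Additive.ofMul (k _)).trans (hT i _).symm⟩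

theorem grp_trans (hP : IsElementaryAbelian p P) (hx : orderOf x = q) (hne : p ≠ q)
    (hf : ∀ u ∈ P, x * u * x⁻¹ = u → u = 1) (ho : orderOf (p : ZMod q) = q - 1) :
    (∀ v w : P, v ≠ 1 → w ≠ 1 → ∃ φ : P ≃* P, φ v = w ∧ ∀ u, φ (MulAut.conjNormal x u) = MulAut.conjNormal x (φ u)) ∧
      ∃ φ : P ≃* P, ∀ u, φ (MulAut.conjNormal x u) = MulAut.conjNormal (x ^ p) (φ u) := by
  obtain ⟨_, _, h⟩ := wrapT hP
  obtain ⟨T, hT⟩ := h x
  have t1 : ∀ u : P, T (Additive.ofMul u) = Additive.ofMul (MulAut.conjNormal x u) := fun u => by simpa using hT 1 u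
  obtain ⟨a, A, b⟩ := trans_of_prim (T := T) hne (LinearMap.ext fun u => (hT q u.toMul).trans
    (by rw [← hx, pow_orderOf_eq_one, map_one]; rfl))
    (fun v hv => Subtype.ext (hf _ v.toMul.2 (congrArg Subtype.val ((t1 v.toMul).symm.trans hv)))) ho
  refine ⟨fun v w hv hw => ?_, MulEquiv.toAdditive.symm A, fun u => ?_⟩
  · obtain ⟨B, e, k⟩ := a (.ofMul v) (.ofMul w) hv hw
    exact ⟨MulEquiv.toAdditive.symm B, e, fun u => by
      have := k (.ofMul u)
      rw [t1, ← ofMul_toMul (B (.ofMul u)), t1] at this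
      exact this⟩
  · have := b (.ofMul u)
    rw [t1, ← ofMul_toMul (A (.ofMul u)), hT] at this
    exact this

theorem conj_pow_of_fpf (h : P.IsComplement' (zpowers x)) (hx : orderOf x = q)
    (hf : ∀ i : ℕ, i.Coprime q → ∀ u ∈ P, x ^ i * u * (x ^ i)⁻¹ = u → u = 1) {y : G} (hy : y ∉ P) :
    ∃ k ∈ P, ∃ i : ℕ, i.Coprime q ∧ y = k⁻¹ * x ^ i * k := by
  obtain ⟨⟨u, t, ht⟩, rfl⟩ := h.2 y
  obtain ⟨i, rfl⟩ := (mem_powers_iff_mem_zpowers.2 ht : t ∈ Submonoid.powers x)
  have hi : i.Coprime q := ((Nat.Prime.coprime_iff_not_dvd hq.out).2 fun k => hy (by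
    simp [orderOf_dvd_iff_pow_eq_one.1 (hx ▸ k)])).symm
  obtain ⟨k, hk, e⟩ := H23.exists_comm_eq (t := x ^ i) (K := P) (by rw [P.normalizer_eq_top]; trivial)
    (eq_bot_iff.2 fun u hu => hf i hi u hu.1 (by
      rw [mul_inv_eq_iff_eq_mul]; exact (mem_C1.1 hu.2).symm)) u.2
  exact ⟨k, hk, i, hi, by simp only [e]; group⟩

end Wrap

theorem orb_eq {a b : G} : (Quotient.mk (MulAction.orbitRel (MulAut G) G) a = Quotient.mk _ b) ↔ ∃ α : MulAut G, α b = a :=
  Quotient.eq.trans MulAction.orbitRel_apply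

theorem orb3_back {p q n : ℕ} [hp : Fact p.Prime] [hq : Fact q.Prime] (hne : p ≠ q) (hn : 1 ≤ n) (hc : Nat.card G = p ^ n * q)
    (hP : ∀ P : Sylow p G, (P : Subgroup G).Normal ∧ IsElementaryAbelian p (P : Subgroup G)) (ho : orderOf (p : ZMod q) = q - 1)
    (hf : ∀ x y : G, orderOf x = q → orderOf y = p → x * y * x⁻¹ ≠ y) :
    Nat.card (MulAction.orbitRel.Quotient (MulAut G) G) = 3 := by
  obtain ⟨S⟩ : Nonempty (Sylow p G) := inferInstance
  obtain ⟨_, hE⟩ := hP S
  have cop : p.Coprime q := (Nat.coprime_primes hp.out hq.out).2 hne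
  have cS : Nat.card S = p ^ n := by
    rw [S.card_eq_multiplicity, hc, Nat.factorization_mul_apply_of_coprime (cop.pow_left n), Nat.factorization_pow_self hp.out,
      Nat.factorization_eq_zero_of_not_dvd ((Nat.Prime.coprime_iff_not_dvd hp.out).1 cop), add_zero]
  generalize (S : Subgroup G) = P at *
  obtain ⟨x, hx⟩ := exists_prime_orderOf_dvd_card' (G := G) q (hc ▸ dvd_mul_left _ _)
  have h : P.IsComplement' (zpowers x) := isComplement'_of_coprime (by rw [cS, Nat.card_zpowers, hx, hc])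
    (by rw [cS, Nat.card_zpowers, hx]; exact cop.pow_left n)
  have op : ∀ u ∈ P, u ≠ 1 → orderOf u = p := fun u hu h1 => orderOf_eq_prime (hE.2 u hu) h1
  have fp : ∀ i : ℕ, i.Coprime q → ∀ u ∈ P, x ^ i * u * (x ^ i)⁻¹ = u → u = 1 := fun i hi u hu e => by
    by_contra h1
    exact hf _ u ((hx ▸ hi.symm).orderOf_pow.trans hx) (op u hu h1) e
  obtain ⟨a, φ, b⟩ := grp_trans hE hx hne (by simpa using fp 1 (Nat.coprime_one_left q)) ho
  obtain ⟨α, -, hα⟩ := exists_aut_ext h φ (hx ▸ cop) fun u => congrArg Subtype.val (b u)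
  have ak : ∀ k : ℕ, (α ^ k) x = x ^ p ^ k := fun k => by
    induction k with
    | zero => simp
    | succ k ih => rw [pow_succ', MulAut.mul_apply, ih, map_pow, hα, ← pow_mul, pow_succ']
  obtain ⟨v, hv, v1⟩ := exists_mem_ne_one' (H := P) fun k => by
    rw [k, card_bot] at cS
    exact (Nat.one_lt_pow (by omega) hp.out.one_lt).ne cS
  have ne : ∀ a b : G, orderOf a ≠ orderOf b → Quotient.mk (MulAction.orbitRel (MulAut G) G) a ≠ Quotient.mk _ b :=
    fun a b h k => by
      obtain ⟨β, rfl⟩ := orb_eq.1 k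
      exact h (β.orderOf_eq b)
  rw [← Set.ncard_univ, Set.ncard_eq_three]
  refine ⟨Quotient.mk _ 1, Quotient.mk _ v, Quotient.mk _ x, ne _ _ (by rw [orderOf_one, op v hv v1]; exact hp.out.ne_one.symm),
    ne _ _ (by rw [orderOf_one, hx]; exact hq.out.ne_one.symm), ne _ _ (by rwa [op v hv v1, hx]), ?_⟩
  refine (Set.eq_univ_of_forall fun c => ?_).symm
  obtain ⟨y, rfl⟩ := Quotient.exists_rep c
  by_cases hy : y ∈ P
  · by_cases y1 : y = 1
    · exact Or.inl (by rw [y1])
    obtain ⟨ψ, e, k⟩ := a ⟨v, hv⟩ ⟨y, hy⟩ (fun k => v1 (congrArg Subtype.val k)) fun k => y1 (congrArg Subtype.val k)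
    obtain ⟨β, hβ, -⟩ := exists_aut_ext (i := 1) h ψ (Nat.coprime_one_left _) fun u => by
      rw [pow_one]; exact congrArg Subtype.val (k u)
    exact Or.inr (Or.inl (orb_eq.2 ⟨β, (hβ ⟨v, hv⟩).trans (congrArg Subtype.val e)⟩))
  · obtain ⟨k, -, i, hi, rfl⟩ := conj_pow_of_fpf h hx fp hy
    have g : ZMod.unitOfCoprime i hi ∈ Submonoid.powers (ZMod.unitOfCoprime p cop) := by
      rw [mem_powers_iff_mem_zpowers, eq_top_of_card_eq (zpowers _)]
      · trivial
      · rw [Nat.card_zpowers, ← orderOf_units, ZMod.coe_unitOfCoprime, ho, Nat.card_eq_fintype_card, ZMod.card_units]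
    obtain ⟨j, hj⟩ := g
    have e : x ^ p ^ j = x ^ i := by
      rw [pow_eq_pow_iff_modEq, hx, ← ZMod.natCast_eq_natCast_iff]
      simpa using congrArg Units.val hj
    exact Or.inr (Or.inr (orb_eq.2 ⟨MulAut.conj k⁻¹ * α ^ j, by rw [MulAut.mul_apply, ak, e]; simp⟩))

theorem orb3_core {p q : ℕ} [hp : Fact p.Prime] [hq : Fact q.Prime] (hne : p ≠ q) (hqd : q ∣ Nat.card G)
    (ho : ∀ g : G, g = 1 ∨ orderOf g = p ∨ orderOf g = q) (ht : ∀ a b : G, orderOf a = orderOf b → ∃ α : MulAut G, α a = b)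
    (A : Subgroup G) [A.Characteristic] (hA : IsMulCommutative A) {a : G} (ha : a ∈ A) (oa : orderOf a = p) :
    ∃ n, 1 ≤ n ∧ Nat.card G = p ^ n * q ∧
      (∀ P : Sylow p G, (P : Subgroup G).Normal ∧ IsElementaryAbelian p (P : Subgroup G)) ∧
      orderOf (p : ZMod q) = q - 1 ∧ ∀ x y : G, orderOf x = q → orderOf y = p → x * y * x⁻¹ ≠ y := by
  have cop : p.Coprime q := (Nat.coprime_primes hp.out hq.out).2 hne
  have hf : ∀ x y : G, orderOf x = q → orderOf y = p → x * y * x⁻¹ ≠ y := fun x y hx hy e => by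
    have c : Commute x y := mul_inv_eq_iff_eq_mul.1 e
    have k := c.orderOf_mul_eq_mul_orderOf_of_coprime (by rw [hx, hy]; exact cop.symm)
    rw [hx, hy] at k
    have := hp.out.two_le
    have := hq.out.two_le
    rcases ho (x * y) with h | h | h
    · rw [h, orderOf_one] at k; nlinarith
    · rw [h] at k; nlinarith
    · rw [h] at k; nlinarith
  have ch : ∀ (α : MulAut G) (u : G), u ∈ A → α u ∈ A := fun α u hu => characteristic_iff_le_comap.1 inferInstance α hu
  have mA : ∀ u, orderOf u = p → u ∈ A := fun u hu => by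
    obtain ⟨α, rfl⟩ := ht a u (oa.trans hu.symm)
    exact ch α a ha
  have op : ∀ u ∈ A, u ≠ 1 → orderOf u = p := fun u hu h1 => ((ho u).resolve_left h1).resolve_right fun k => hf u a k oa
    (mul_inv_eq_iff_eq_mul.2 (congrArg Subtype.val (hA.is_comm.comm (⟨u, hu⟩ : A) ⟨a, ha⟩)))
  have hE : IsElementaryAbelian p A := ⟨hA, fun u hu => by
    by_cases h : u = 1
    · rw [h, one_pow]
    · rw [← op u hu h, pow_orderOf_eq_one]⟩
  have pA : IsPGroup p A := fun u => ⟨1, Subtype.ext (by simpa using hE.2 u u.2)⟩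
  have ord : ∀ {r : ℕ} [Fact r.Prime] {S : Subgroup G}, IsPGroup r S → ∀ u ∈ S, ∀ s : ℕ, s.Prime → orderOf u = s → s = r :=
    fun {r} hr S hS u hu s hs e => by
      obtain ⟨k, hk⟩ := (IsPGroup.iff_orderOf.1 hS) ⟨u, hu⟩
      rw [← orderOf_coe, e] at hk
      exact (Nat.prime_dvd_prime_iff_eq hs hr.out).1 (hs.dvd_of_dvd_pow hk.dvd)
  have sA : ∀ P : Sylow p G, (P : Subgroup G) = A := fun P => (P.3 pA fun u hu => by
    rcases ho u with h | h | h
    · rw [h]; exact one_mem A
    · exact mA u h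
    · exact absurd (ord P.2 u hu q hq.out h).symm hne).symm
  have a1 : a ≠ 1 := fun k => hp.out.ne_one (by rw [← oa, k, orderOf_one])
  have A0 : A ≠ ⊥ := fun k => a1 (by rwa [k, mem_bot] at ha)
  obtain ⟨Q⟩ : Nonempty (Sylow q G) := inferInstance
  have oq : ∀ u ∈ (Q : Subgroup G), u ≠ 1 → orderOf u = q := fun u hu h1 => (((ho u).resolve_left h1).resolve_left fun k =>
    hne (ord Q.2 u hu p hp.out k))
  have fp : ∀ x : G, orderOf x = q → ∀ u ∈ A, x * u * x⁻¹ = u → u = 1 := fun x hx u hu e => by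
    by_contra h1
    exact hf x u hx (op u hu h1) e
  obtain ⟨m, hm⟩ := IsPGroup.iff_card.1 Q.2
  have m1 : m ≤ 1 := by
    by_contra k
    obtain ⟨B, hB⟩ := Sylow.exists_subgroup_card_pow_prime (G := Q) q (n := 2) (hm ▸ pow_dvd_pow q (by omega))
    have cB : Nat.card (B.map (Q : Subgroup G).subtype) = q ^ 2 := by rw [card_map_of_injective (subtype_injective _), hB]
    have lB : B.map (Q : Subgroup G).subtype ≤ Q := map_subtype_le B
    generalize B.map (Q : Subgroup G).subtype = D at cB lB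
    have c := H1.cyc_of_semireg_abel (A := D) (H := A) (abel_iff.2 (IsPGroup.isMulCommutative_of_card_eq_prime_sq cB))
      (by rw [A.normalizer_eq_top]; exact le_top) A0 fun x hx x1 => eq_bot_iff.2 fun u hu =>
        fp x (oq x (lB hx) x1) u hu.1 (by rw [mul_inv_eq_iff_eq_mul]; exact (mem_C1.1 hu.2).symm)
    obtain ⟨g, hg⟩ := IsCyclic.exists_ofOrder_eq_natCard (α := D)
    rw [cB, ← orderOf_coe] at hg
    have := hq.out.two_le
    by_cases g1 : (g : G) = 1
    · rw [g1, orderOf_one] at hg; nlinarith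
    · rw [oq g (lB g.2) g1] at hg; nlinarith
  obtain ⟨P⟩ : Nonempty (Sylow p G) := inferInstance
  obtain ⟨n, hn⟩ := IsPGroup.iff_card.1 pA
  have cG : Nat.card G = p ^ n * q := by
    have e1 : (Nat.card G).factorization p = n := Nat.pow_right_injective hp.out.two_le (by
      simp only; rw [← P.card_eq_multiplicity, sA P, hn])
    have e2 : (Nat.card G).factorization q = m := Nat.pow_right_injective hq.out.two_le (by
      simp only; rw [← Q.card_eq_multiplicity, hm])
    have e3 : m = 1 := by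
      have := (hq.out.dvd_iff_one_le_factorization (Nat.card_pos (α := G)).ne').1 hqd
      omega
    refine Nat.eq_of_factorization_eq Nat.card_pos.ne' (mul_ne_zero (pow_ne_zero _ hp.out.ne_zero) hq.out.ne_zero) fun r => ?_
    rw [Nat.factorization_mul_apply_of_coprime (cop.pow_left n), hp.out.factorization_pow, hq.out.factorization]
    by_cases r1 : r = p
    · subst r1; simp [e1, hne]
    by_cases r2 : r = q
    · subst r2; simp [e2, e3, r1]
    rw [Finsupp.single_eq_of_ne r1, Finsupp.single_eq_of_ne r2]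
    by_contra k
    have hr := Nat.prime_of_mem_primeFactors (Finsupp.mem_support_iff.2 k)
    have := Fact.mk hr
    obtain ⟨g, hg⟩ := exists_prime_orderOf_dvd_card' (G := G) r (Nat.dvd_of_mem_primeFactors (Finsupp.mem_support_iff.2 k))
    rcases ho g with h | h | h
    · exact hr.ne_one (by rw [← hg, h, orderOf_one])
    · exact r1 (hg.symm.trans h)
    · exact r2 (hg.symm.trans h)
  obtain ⟨x, hx⟩ := exists_prime_orderOf_dvd_card' (G := G) q hqd
  have h : A.IsComplement' (zpowers x) := isComplement'_of_coprime (by rw [hn, Nat.card_zpowers, hx, cG])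
    (by rw [hn, Nat.card_zpowers, hx]; exact cop.pow_left n)
  have oi : ∀ i : ℕ, i.Coprime q → orderOf (x ^ i) = q := fun i hi => (hx ▸ hi.symm).orderOf_pow.trans hx
  have res : ∀ (α : MulAut G) (i : ℕ), α x = x ^ i → ∃ φ : A ≃* A, (∀ u : A, (φ u : G) = α u) ∧
      ∀ u, φ (MulAut.conjNormal x u) = MulAut.conjNormal (x ^ i) (φ u) := fun α i e =>
    ⟨(α.subgroupMap A).trans (MulEquiv.subgroupCongr (characteristic_iff_map_eq.1 inferInstance α)), fun u => rfl,
      fun u => Subtype.ext (by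
        change α (x * u * x⁻¹) = x ^ i * α u * (x ^ i)⁻¹
        rw [map_mul, map_mul, map_inv, e])⟩
  refine ⟨n, Nat.pos_of_ne_zero fun k => A0 (by rwa [k, pow_zero, card_eq_one] at hn), cG, fun P => by rw [sA P]; exact ⟨inferInstance, hE⟩,
    grp_prim hE A0 hx hne (fp x hx) (fun v w hv hw => ?_) fun i hi => ?_, hf⟩
  · obtain ⟨α, e⟩ := ht v w (by rw [op v v.2 fun k => hv (Subtype.ext k), op w w.2 fun k => hw (Subtype.ext k)])
    have oy : orderOf (α x) = q := (α.orderOf_eq x).trans hx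
    obtain ⟨k, hk, i, hi, e'⟩ := conj_pow_of_fpf h hx (fun i hi => fp _ (oi i hi)) (y := α x) fun k =>
      hne (ord pA _ k q hq.out oy).symm
    obtain ⟨φ, f1, f2⟩ := res (MulAut.conj k * α) i (by rw [MulAut.mul_apply, e', MulAut.conj_apply]; group)
    refine ⟨φ, i, hi, Subtype.ext ?_, f2⟩
    rw [f1, MulAut.mul_apply, e, MulAut.conj_apply, mul_inv_eq_iff_eq_mul]
    exact congrArg Subtype.val (hA.is_comm.comm (⟨k, hk⟩ : A) w)
  · obtain ⟨α, e⟩ := ht x (x ^ i) (hx.trans (oi i hi).symm)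
    obtain ⟨φ, -, f2⟩ := res α i e
    exact ⟨φ, f2⟩

theorem orb3_fwd (hnpp : ¬ IsPrimePow (Nat.card G)) (hnt : Nat.card G ≠ 1)
    (h : Nat.card (MulAction.orbitRel.Quotient (MulAut G) G) = 3) :
    ∃ (p q n : ℕ) (_ : Fact p.Prime) (_ : Fact q.Prime), p ≠ q ∧ 1 ≤ n ∧ Nat.card G = p ^ n * q ∧
      (∀ P : Sylow p G, (P : Subgroup G).Normal ∧ IsElementaryAbelian p (P : Subgroup G)) ∧
      orderOf (p : ZMod q) = q - 1 ∧ ∀ x y : G, orderOf x = q → orderOf y = p → x * y * x⁻¹ ≠ y := by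
  obtain ⟨p, hp, pd⟩ := Nat.exists_prime_and_dvd hnt
  obtain ⟨q, hq, qd, hne⟩ : ∃ q, q.Prime ∧ q ∣ Nat.card G ∧ q ≠ p := by
    by_contra k
    push Not at k
    have := Nat.eq_prime_pow_of_unique_prime_dvd (Nat.card_pos (α := G)).ne' fun {d} a b => k d a b
    exact hnpp ⟨p, _, hp.prime, Nat.pos_of_ne_zero fun e => hnt (by rw [this, e, pow_zero]), this.symm⟩
  have := Fact.mk hp
  have := Fact.mk hq
  obtain ⟨a, ha⟩ := exists_prime_orderOf_dvd_card' (G := G) p pd
  obtain ⟨b, hb⟩ := exists_prime_orderOf_dvd_card' (G := G) q qd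
  have ne : ∀ a b : G, orderOf a ≠ orderOf b → Quotient.mk (MulAction.orbitRel (MulAut G) G) a ≠ Quotient.mk _ b :=
    fun a b h k => by
      obtain ⟨β, rfl⟩ := orb_eq.1 k
      exact h (β.orderOf_eq b)
  have u : ({Quotient.mk _ 1, Quotient.mk _ a, Quotient.mk _ b} : Set (MulAction.orbitRel.Quotient (MulAut G) G)) = Set.univ := by
    refine Set.eq_of_subset_of_ncard_le (Set.subset_univ _) ?_
    rw [Set.ncard_univ, h, Set.ncard_eq_three.2 ⟨_, _, _, ne _ _ (by rw [orderOf_one, ha]; exact hp.ne_one.symm),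
      ne _ _ (by rw [orderOf_one, hb]; exact hq.ne_one.symm), ne _ _ (by rw [ha, hb]; exact hne.symm), rfl⟩]
  have tri : ∀ g : G, g = 1 ∨ (orderOf g = p ∧ ∃ α : MulAut G, α a = g) ∨ (orderOf g = q ∧ ∃ α : MulAut G, α b = g) := fun g => by
    rcases (u ▸ Set.mem_univ (Quotient.mk _ g) : Quotient.mk (MulAction.orbitRel (MulAut G) G) g ∈ ({Quotient.mk _ 1,
      Quotient.mk _ a, Quotient.mk _ b} : Set (MulAction.orbitRel.Quotient (MulAut G) G))) with k | k | k <;>
      obtain ⟨α, rfl⟩ := orb_eq.1 k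
    · exact Or.inl (map_one α)
    · exact Or.inr (Or.inl ⟨(α.orderOf_eq a).trans ha, α, rfl⟩)
    · exact Or.inr (Or.inr ⟨(α.orderOf_eq b).trans hb, α, rfl⟩)
  have ho : ∀ g : G, g = 1 ∨ orderOf g = p ∨ orderOf g = q := fun g => (tri g).imp_right (Or.imp And.left And.left)
  have ht : ∀ x y : G, orderOf x = orderOf y → ∃ α : MulAut G, α x = y := fun x y e => by
    rcases tri x with rfl | ⟨k, α, rfl⟩ | ⟨k, α, rfl⟩
    · exact ⟨1, (orderOf_eq_one_iff.1 (e.symm.trans orderOf_one)).symm⟩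
    · rcases tri y with rfl | ⟨-, β, rfl⟩ | ⟨k', -⟩
      · exact absurd (k.symm.trans (e.trans orderOf_one)) hp.ne_one
      · exact ⟨β * α⁻¹, by simp⟩
      · exact absurd (k'.symm.trans (e.symm.trans k)) hne
    · rcases tri y with rfl | ⟨k', -⟩ | ⟨-, β, rfl⟩
      · exact absurd (k.symm.trans (e.trans orderOf_one)) hq.ne_one
      · exact absurd (k.symm.trans (e.trans k')) hne
      · exact ⟨β * α⁻¹, by simp⟩
  have sol : Group.IsSolvable G := by
    refine burnside_paqb_dvd (a := (Nat.card G).factorization p) (b := (Nat.card G).factorization q) hp hq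
      ((Nat.factorization_prime_le_iff_dvd Nat.card_pos.ne' (mul_ne_zero (pow_ne_zero _ hp.ne_zero) (pow_ne_zero _ hq.ne_zero))).1
        fun r hr => ?_)
    rw [Nat.factorization_mul (pow_ne_zero _ hp.ne_zero) (pow_ne_zero _ hq.ne_zero), hp.factorization_pow, hq.factorization_pow,
      Finsupp.add_apply]
    by_cases r1 : r = p
    · subst r1; simp
    by_cases r2 : r = q
    · subst r2; simp
    rw [Nat.factorization_eq_zero_of_not_dvd fun k => ?_]
    · exact Nat.zero_le _
    have := Fact.mk hr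
    obtain ⟨g, hg⟩ := exists_prime_orderOf_dvd_card' (G := G) r k
    rcases ho g with h | h | h
    · exact hr.ne_one (by rw [← hg, h, orderOf_one])
    · exact r1 (hg.symm.trans h)
    · exact r2 (hg.symm.trans h)
  classical
  have ex := sol.1
  have n0 : Nat.find ex ≠ 0 := fun k => hnt (by
    have := Nat.find_spec ex
    rw [k, derivedSeries_zero] at this
    rw [← card_top, this, card_bot])
  obtain ⟨m, hm⟩ := Nat.exists_eq_succ_of_ne_zero n0
  have hA : IsMulCommutative (derivedSeries G m) := abel_iff.1 (abel_iff_der.2 (by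
    have := Nat.find_spec ex
    rwa [hm] at this))
  obtain ⟨c, hc, c1⟩ := exists_mem_ne_one' (Nat.find_min ex (m := m) (by omega))
  rcases (ho c).resolve_left c1 with k | k
  · obtain ⟨n, h⟩ := orb3_core hne.symm qd ho ht _ hA hc k
    exact ⟨p, q, n, inferInstance, inferInstance, hne.symm, h⟩
  · obtain ⟨n, h⟩ := orb3_core hne pd (fun g => (ho g).imp_right Or.symm) ht _ hA hc k
    exact ⟨q, p, n, inferInstance, inferInstance, hne, h⟩

end H5
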