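import Cfsg.Agent.H5.Tw1
import Cfsg.Agent.H6.Extension

/-! Small fixed point spaces (Isaacs, Keller, Meierfrankenfeld, Moreto; solvable coprime case): the three subspace property
`T3 p d` of a dimension function, `T3.exists_small`, and the application to degrees of primitive characters of solvable groups
(`prim_degree`). -/

set_option autoImplicit false
open Cfsg H18 H19 Subgroup
open H1 (Cop cop_of_pi cop_of_pi')
open scoped commutatorElement ComplexConjugate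

namespace H5
end H5
open H5
namespace H5
variable {G : Type*} [Group G] {A B D H K L M P Q R U V W X Y Z : Subgroup G} {x y c g : G} {p q r : ℕ}
  {θ χ ψ φ ξ : G → ℂ}

/-- three subspace property of the function `X ↦ dim C_V(X)` -/
def T3 (p : ℕ) (d : Subgroup G → ℕ) : Prop :=
  ∀ W K X Y : Subgroup G, PiGrp {p}ᶜ K → W ≤ X → W ≤ Y → W ≤ K → X ≤ N(K) → Y ≤ N(K) → K ⊔ X = K ⊔ Y →
    X ⊔ Y = K ⊔ X → d X + d Y + d K ≤ d W + 2 * d (K ⊔ X)

theorem T3.add {d e : Subgroup G → ℕ} (h1 : T3 p d) (h2 : T3 p e) : T3 p (fun X => d X + e X) :=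
  fun W K X Y a1 a2 a3 a4 a5 a6 a7 a8 => by
    have := h1 W K X Y a1 a2 a3 a4 a5 a6 a7 a8
    have := h2 W K X Y a1 a2 a3 a4 a5 a6 a7 a8
    dsimp only; omega

theorem T3.mim {Q : Type*} [Group Q] {f : D →* Q} (hD : ⊤ ≤ D) {d : Subgroup Q → ℕ} (h : T3 p d) :
    T3 p (fun X => d (mim f X)) :=
  fun W K X Y a1 a2 a3 a4 a5 a6 a7 a8 => by
    have s : ∀ A B : Subgroup G, H18.mim f (A ⊔ B) = H18.mim f A ⊔ H18.mim f B :=
      fun A B => mim_sup (le_top.trans hD) (le_top.trans hD)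
    have := h _ _ _ _ (a1.mim (f := f)) (mim_mono a2) (mim_mono a3) (mim_mono a4) (mim_norm a5) (mim_norm a6)
      (by rw [← s, ← s, a7]) (by rw [← s, ← s, a8])
    dsimp only; rwa [s]

theorem sup_zpowers_congr (h : x⁻¹ * y ∈ K) : K ⊔ zpowers x = K ⊔ zpowers y := by
  refine le_antisymm (sup_le le_sup_left ((zpowers_le_of_mem ?_))) (sup_le le_sup_left (zpowers_le_of_mem ?_))
  · have : x = y * (x⁻¹ * y)⁻¹ := by group
    rw [this]; exact mul_mem (mem_sup_right (mem_zpowers y)) (mem_sup_left (inv_mem h))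
  · have : y = x * (x⁻¹ * y) := by group
    rw [this]; exact mul_mem (mem_sup_right (mem_zpowers x)) (mem_sup_left h)

variable [Finite G]

theorem T3.exists_small {d : Subgroup G → ℕ} (h : T3 p d) (K : Subgroup G) :
    Solv K → PiGrp {p}ᶜ K → ∀ g ∈ N(K), ∃ x, g⁻¹ * x ∈ K ∧ 2 * d (zpowers x) + d K ≤ d ⊥ + 2 * d (K ⊔ zpowers x) := by
  induction K using card_induction with
  | ih K ih =>
  intro hs hp g hg
  rcases eq_or_ne K ⊥ with rfl | h0
  · exact ⟨g, by simp, by rw [bot_sup_eq]; omega⟩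
  have nK : K ⊴ K ⊔ zpowers g := nml_sup_left (zpowers_le_of_mem hg)
  obtain ⟨W, hW, -⟩ := exists_chief_below Nml.bot nK h0.bot_lt
  obtain ⟨q, -, -, hE⟩ := hW.exists_elem hs
  have hd : ⁅K, K⁆ ≤ W := (abel_quo_iff hW.nml.norm).1 hE.abel
  obtain ⟨m, hm, hmW⟩ := SetLike.exists_of_lt hW.lt
  have gL : g ∈ K ⊔ zpowers g := mem_sup_right (mem_zpowers g)
  have gmL : g * m ∈ K ⊔ zpowers g := mul_mem gL (mem_sup_left hm)
  have e1 : K ⊔ zpowers g = K ⊔ zpowers (g * m) := sup_zpowers_congr (by simpa using hm)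
  have s : ∀ z, K ⊔ (W ⊔ zpowers z) = K ⊔ zpowers z := fun z => by rw [← sup_assoc, sup_eq_left.2 hW.le]
  have e2 : W ⊔ zpowers g ⊔ (W ⊔ zpowers (g * m)) = K ⊔ (W ⊔ zpowers g) := by
    set T := W ⊔ zpowers g ⊔ (W ⊔ zpowers (g * m))
    have gT : g ∈ T := mem_sup_left (mem_sup_right (mem_zpowers g))
    have mT : m ∈ T := by
      have : m = g⁻¹ * (g * m) := by group
      rw [this]; exact mul_mem (inv_mem gT) (mem_sup_right (mem_sup_right (mem_zpowers _)))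
    have WT : W ≤ K ⊓ T := le_inf hW.le (le_sup_left.trans le_sup_left)
    have : K ⊓ T = K := hW.max _ (lt_of_le_of_ne WT fun e => hmW (e.symm ▸ ⟨hm, mT⟩)) inf_le_left
      (sup_le (norm_of_der_le (hd.trans WT) inf_le_left)
        (norm_inf (zpowers_le_of_mem hg) (le_norm (zpowers_le_of_mem gT))))
    refine le_antisymm (sup_le le_sup_right ?_) (sup_le (this.ge.trans inf_le_right) le_sup_left)
    rw [s, e1]; exact sup_le_sup_right hW.le _
  have key := h W K (W ⊔ zpowers g) (W ⊔ zpowers (g * m)) hp le_sup_left le_sup_left hW.le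
    (sup_le (le_norm hW.le) (zpowers_le_of_mem hg)) (sup_le (le_norm hW.le) (zpowers_le_of_mem (nK.norm gmL)))
    (by rw [s, s, e1]) e2
  rw [s] at key
  obtain ⟨z, hz, z1, z2⟩ : ∃ z, g⁻¹ * z ∈ K ∧ z ∈ N(W) ∧ 2 * d (W ⊔ zpowers z) + d K ≤ d W + 2 * d (K ⊔ zpowers g) := by
    by_cases hc : 2 * d (W ⊔ zpowers g) + d K ≤ d W + 2 * d (K ⊔ zpowers g)
    · exact ⟨g, by simp, hW.nmlV.norm gL, hc⟩
    · exact ⟨g * m, by simpa using hm, hW.nmlV.norm gmL, by omega⟩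
  obtain ⟨x, hx, x1⟩ := ih W (card_lt hW.lt) (hs.of_le hW.le) (hp.of_le hW.le) z z1
  have gx : g⁻¹ * x ∈ K := by
    have : g⁻¹ * x = g⁻¹ * z * (z⁻¹ * x) := by group
    rw [this]; exact mul_mem hz (hW.le hx)
  refine ⟨x, gx, ?_⟩
  rw [← sup_zpowers_congr hx] at x1
  rw [← sup_zpowers_congr gx]; omega

theorem cent_dec (hV : Abel V) (h : Cop K V) (h1 : X ≤ N(V)) (h2 : X ≤ N(K)) (hx : x ∈ V ⊓ C(X)) :
    ∃ y ∈ ⁅V, K⁆, ∃ c ∈ V ⊓ C(K ⊔ X), x = y * c := by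
  obtain ⟨y, hy, c, hc, rfl⟩ := h.exists_mul hx.1
  refine ⟨y, hy, c, ⟨hc.1, ?_⟩, rfl⟩
  rw [C_sup]
  refine ⟨hc.2, mem_C.2 fun a ha => ?_⟩
  have e := mem_C.1 hx.2 a ha
  have y' : a * y * a⁻¹ ∈ ⁅V, K⁆ := conj_mem (norm_comm h1 h2) ha hy
  have c' : a * c * a⁻¹ ∈ V ⊓ C(K) := conj_mem (norm_inf h1 (norm_C h2)) ha hc
  have e2 : y⁻¹ * (a * y * a⁻¹) = c * (a * c * a⁻¹)⁻¹ := by
    have : y⁻¹ * (a * y * a⁻¹) = y⁻¹ * (a * (y * c)) * (c⁻¹ * a⁻¹) := by group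
    rw [this, e]; group
  have : c * (a * c * a⁻¹)⁻¹ = 1 := eq_one_of_eq_bot (H1.abel_comm_inf_cent hV h.norm h.cop)
    (mem_inf.2 ⟨e2 ▸ mul_mem (inv_mem hy) y', mul_mem (mem_inf.1 hc).2 (inv_mem (mem_inf.1 c').2)⟩)
  rw [mul_inv_eq_one] at this
  calc a * c = (a * c * a⁻¹) * a := by group
    _ = c * a := by rw [← this]

theorem t3_abel (hp : p.Prime) (hV : Abel V) (hVp : PiGrp {p} V) (hn : ⊤ ≤ N(V)) :
    T3 p (fun X => (Nat.card ↥(V ⊓ C(X))).factorization p) := by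
  intro W K X Y a1 a2 a3 a4 a5 a6 a7 a8
  have hc : Cop K V := cop_of_pi' (le_top.trans hn) a1 hVp (Or.inr hV.solv)
  have nr : ∀ S T : Subgroup G, S ≤ V → T ≤ V → Nrm2 S T := fun S T h1 h2 => Or.inl (h1.trans (hV.norm h2))
  have e1 := (nr (V ⊓ C(X)) (V ⊓ C(Y)) inf_le_left inf_le_left).card_sup
  have e2 := (nr (V ⊓ C(X) ⊔ V ⊓ C(Y)) (V ⊓ C(K)) (sup_le inf_le_left inf_le_left) inf_le_left).card_sup
  have i1 : V ⊓ C(X) ⊓ (V ⊓ C(Y)) = V ⊓ C(K ⊔ X) := by rw [← a8, C_sup, ← inf_inf_distrib_left]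
  have i2 : (V ⊓ C(X) ⊔ V ⊓ C(Y)) ⊓ (V ⊓ C(K)) = V ⊓ C(K ⊔ X) := by
    refine le_antisymm (fun v hv => ?_) (le_inf ((inf_le_inf_left _ (C_anti le_sup_right)).trans le_sup_left)
      (inf_le_inf_left _ (C_anti le_sup_left)))
    obtain ⟨a, ha, b, hb, rfl⟩ := (nr _ _ inf_le_left inf_le_left).mem_sup.1 hv.1
    obtain ⟨y, hy, c, hc1, rfl⟩ := cent_dec hV hc (le_top.trans hn) a5 ha
    obtain ⟨y', hy', c', hc2, rfl⟩ := cent_dec hV hc (le_top.trans hn) a6 hb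
    rw [← a7] at hc2
    have cy : c * y' = y' * c := comm_of_cent hV hc1.1 (comm_le_left hc.norm hy')
    have e : y * c * (y' * c') = y * y' * (c * c') := by
      rw [mul_assoc y c, ← mul_assoc c, cy]; group
    have cc : c * c' ∈ V ⊓ C(K ⊔ X) := mul_mem hc1 hc2
    rw [e] at hv ⊢
    have : y * y' = 1 := eq_one_of_eq_bot (H1.abel_comm_inf_cent hV hc.norm hc.cop)
      ⟨mul_mem hy hy', (mul_mem_cancel_right (C_anti le_sup_left cc.2)).1 hv.2.2⟩
    rwa [this, one_mul]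
  have d1 : Nat.card ↥(V ⊓ C(X) ⊔ V ⊓ C(Y) ⊔ V ⊓ C(K)) ∣ Nat.card ↥(V ⊓ C(W)) :=
    card_dvd (sup_le (sup_le (inf_le_inf_left _ (C_anti a2)) (inf_le_inf_left _ (C_anti a3))) (inf_le_inf_left _ (C_anti a4)))
  rw [i1] at e1; rw [i2] at e2
  have f1 := congrArg (fun n => n.factorization p) e1
  have f2 := congrArg (fun n => n.factorization p) e2
  have f3 := (Nat.factorization_le_iff_dvd card_ne_zero' card_ne_zero').2 d1 p
  simp only [Nat.factorization_mul card_ne_zero' card_ne_zero', Finsupp.add_apply] at f1 f2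
  dsimp only; omega

theorem MinNorm.cent_hall (hp : p.Prime) (hs : Solv (⊤ : Subgroup G)) (hV : MinNorm V ⊤) (hVp : PiGrp {p} V)
    (hH : Hall {p}ᶜ H ⊤) (hn : ¬ ⊤ ≤ C(V)) : V ⊓ C(H) = ⊥ := by
  have nC : C(V) ⊴ ⊤ := ⟨le_top, norm_C hV.norm⟩
  obtain ⟨M, hM, -⟩ := exists_chief_above nC Nml.rfl (lt_of_le_of_ne le_top fun e => hn e.ge)
  obtain ⟨r, hr, -, hi⟩ := hM.exists_prime (hs.of_le le_top)
  have h0 : V ⊓ C(M) = ⊥ := by
    by_contra h
    exact hM.lt.not_ge (cent_symm ((hV.min _ inf_le_left h (norm_inf hV.norm (norm_C hM.nmlU.norm))).ge.trans inf_le_right))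
  have k : ∀ T, T ⊔ C(V) = M → V ⊓ C(T) = ⊥ := fun T e => by
    rw [eq_bot_iff, ← h0, ← e]
    exact le_inf inf_le_left (cent_sup inf_le_right (inf_le_left.trans (cent_symm le_rfl)))
  rcases eq_or_ne r p with rfl | hne
  · obtain ⟨P, hP⟩ := exists_sylow hp M
    exact absurd (k P (hP.sup_of_idx hM.le hi)) (hP.pi.meet_cent hVp (le_top.trans hV.norm) hV.ne_bot)
  · rw [eq_bot_iff, ← k _ ((hH.inf_nml hM.nmlU).sup_of_idx hM.le (hi.p'_of_ne hne))]
    exact inf_le_inf_left _ (C_anti inf_le_left)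

theorem fact_idx (hWU : W ⊴ U) (hg : g ∈ N(W)) : (C1(g).relIndex W).factorization p + (Nat.card ↥(U ⫽ W)).factorization p ≤
    (C1(g).relIndex U).factorization p + (Nat.card ↥(U ⫽ W ⊓ C1(cs W g))).factorization p := by
  have e1 := card_mim_mul (f := coset W) (A := C1(g) ⊓ U) (inf_le_right.trans hWU.norm)
  rw [mker_coset, inf_assoc, inf_eq_right.2 hWU.le] at e1
  have d1 : Nat.card ↥((C1(g) ⊓ U) ⫽ W) ∣ Nat.card ↥(U ⫽ W ⊓ C1(cs W g)) :=
    card_dvd (le_inf (mim_mono inf_le_right) (mim_C1 hg inf_le_left))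
  have f1 := congrArg (fun n => n.factorization p) e1
  have f2 := congrArg (fun n => n.factorization p) (card_mul_relIndex' (A := C1(g)) (B := W))
  have f3 := congrArg (fun n => n.factorization p) (card_mul_relIndex' (A := C1(g)) (B := U))
  have f4 := congrArg (fun n => n.factorization p) (card_quo_mul hWU)
  have f5 := (Nat.factorization_le_iff_dvd card_ne_zero' card_ne_zero').2 d1 p
  simp only [Nat.factorization_mul card_ne_zero' card_ne_zero', Nat.factorization_mul card_ne_zero' H18.relIndex_ne_zero,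
    Finsupp.add_apply] at f1 f2 f3 f4
  omega

theorem homog_ratio [Fintype G] (hWU : W ⊴ U) (hθ : θ ∈ irr U) (hφ : φ ∈ irr W) {s : ℂ} (e : res W θ = s • φ) {a b : ℕ}
    (ha : θ 1 = a) (hb : φ 1 = b) : ∃ e : ℕ, a = e * b ∧ e ∣ W.relIndex U ∧ e ^ 2 ≤ W.relIndex U := by
  classical
  have := hWU.subgroupOf_normal
  have b0 : (b : ℂ) ≠ 0 := hb ▸ irr_apply_one_ne_zero hφ
  have e1 : (a : ℂ) = s * b := by rw [← ha, ← hb, ← res_one W θ, e]; rfl
  have s0 : s ≠ 0 := by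
    rintro rfl
    exact irr_apply_one_ne_zero hθ (by rw [ha, e1, zero_mul])
  obtain ⟨n, hn, h⟩ := H6.degree_ratio_dvd (N := W.subgroupOf U) (H6.isIrr_sOf hWU.le (mem_irr.1 hφ).2) (mem_irr.1 hθ).2 (by
    rw [H6.inner_res_sOf hWU.le (fun x : U => θ x)]
    have := classInner_comp W θ φ
    rw [e, ip_smul_left, ip_irr_self hφ, mul_one] at this
    exact this ▸ s0)
  have h' : (a : ℂ) = n * b := by rw [← ha, ← hb]; exact h
  have sn : s = n := mul_right_cancel₀ b0 (e1.symm.trans h')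
  refine ⟨n, by exact_mod_cast h', hn, ?_⟩
  have i1 : ipr W (res W θ) (res W θ) = (n : ℝ) ^ 2 := by
    rw [e, sn, show (n : ℂ) = ((n : ℝ) : ℂ) by simp, ipr_rsmul_left, ipr_rsmul_right, ipr_irr_self hφ]; ring
  have i2 := ipr_irr_self hθ
  rw [ipr_self_eq] at i1 i2
  have i3 : ∑ x, ‖res W θ x‖ ^ 2 ≤ ∑ x, ‖θ x‖ ^ 2 := Finset.sum_le_sum fun x _ => by
    by_cases hx : x ∈ W
    · rw [res_of_mem _ hx]
    · rw [res_of_not_mem _ hx]; simp
  have w0 := card_posR W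
  rw [inv_mul_eq_iff_eq_mul₀ w0.ne'] at i1
  rw [inv_mul_eq_iff_eq_mul₀ (card_posR U).ne', mul_one, ← card_mul_relIndex hWU.le] at i2
  rw [i1, i2, Nat.cast_mul] at i3
  exact_mod_cast le_of_mul_le_mul_left i3 w0

theorem prim_degree [Fintype G] (hp : p.Prime) (hs : Solv (⊤ : Subgroup G)) (hχ : χ ∈ irr ⊤)
    (h : ∀ K, K ⊴ ⊤ → ∃ θ ∈ irr K, ∃ s : ℂ, res K χ = s • θ) {n : ℕ} (hn : χ 1 = n) :
    ∃ g : G, n.factorization p ≤ (C1(g).index).factorization p := by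
  obtain ⟨H, hH, -⟩ := coprime_Hall_exists {p}ᶜ (A := ⊥) (K := ⊤) ⟨bot_le, by simp, Or.inr hs⟩ (hs.of_le bot_le) hs
  have key : ∀ θ ∈ irr (⊤ : Subgroup G), ∀ s : ℂ, res ⊤ χ = s • θ → ∀ a : ℕ, θ 1 = a → ∃ d, T3 p d ∧ d H = 0 ∧
      2 * a.factorization p ≤ d ⊥ ∧ ∀ g : G, d ⊥ ≤ d (zpowers g) + (C1(g).relIndex ⊤).factorization p := by
    refine chief_induction_up (T := fun K => ∀ θ ∈ irr K, ∀ s : ℂ, res K χ = s • θ → ∀ a : ℕ, θ 1 = a → ∃ d, T3 p d ∧
      d H = 0 ∧ 2 * a.factorization p ≤ d ⊥ ∧ ∀ g : G, d ⊥ ≤ d (zpowers g) + (C1(g).relIndex K).factorization p)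
      Nml.rfl Nml.bot bot_le (fun θ hθ s _ a ha => ?_) (fun W U hc _ _ ih θ hθ s e a ha => ?_)
    · have : a = 1 := by
        rw [irr_apply_one_of_comm hθ (by simp)] at ha; exact_mod_cast ha.symm
      exact ⟨fun _ => 0, fun _ _ _ _ _ _ _ _ _ _ _ _ => le_rfl, rfl, by simp [this], fun _ => Nat.zero_le _⟩
    obtain ⟨φ, hφ, t, e'⟩ := h W hc.nmlV
    obtain ⟨b, b0, hb⟩ := irr_exists_apply_one hφ
    have s0 : s ≠ 0 := by
      rintro rfl
      exact irr_apply_one_ne_zero hχ (by rw [← res_one U χ, e]; simp)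
    obtain ⟨m, rfl, m1, m2⟩ := homog_ratio hc.nml hθ hφ (s := s⁻¹ * t) (by
      rw [mul_smul, ← e', ← res_res hc.le χ, e, map_smul, inv_smul_smul₀ s0]) ha hb
    have m0 : m ≠ 0 := fun e => H18.relIndex_ne_zero (zero_dvd_iff.1 (e ▸ m1))
    obtain ⟨d, d1, d2, d3, d4⟩ := ih φ hφ t e' b hb
    rw [Nat.factorization_mul m0 b0.ne', Finsupp.add_apply]
    have nW : ⊤ ≤ N(W) := hc.nmlV.norm
    by_cases hm : p ∣ m
    · obtain ⟨q, hq, -, hE⟩ := hc.exists_elem (hs.of_le le_top)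
      rw [← card_quo hc.nml.norm] at m1 m2
      obtain rfl : p = q := (hE.pi' hq).eq_of_dvd hp (hm.trans m1)
      have tp : ⊤ ⫽ W = ⊤ := eq_top_iff.2 (quo_N.ge.trans (mim_mono le_top))
      have hV := hc.minNorm
      rw [tp] at hV
      have hnc : ¬ ⊤ ≤ C(U ⫽ W) := fun hc' => by
        obtain ⟨X, x1, x2⟩ := (hE.pi' hq).exists_sub_card hV.ne_bot
        rw [← hV.min X x1 (ne_bot_of_prime (x2 ▸ hq)) (cent_norm (hc'.trans (C_anti x1))), x2] at m2
        have := Nat.le_of_dvd (Nat.pos_of_ne_zero m0) hm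
        nlinarith [hq.one_lt]
      have h0 := MinNorm.cent_hall hq (tp ▸ hs.mim) hV (hE.pi' hq) (tp ▸ hH.mim nW) hnc
      refine ⟨_, d1.add ((t3_abel hq hE.abel (hE.pi' hq) hV.norm).mim (f := coset W) nW), ?_, ?_, fun g => ?_⟩
      · simp [d2, h0]
      · obtain ⟨k, hk⟩ := (hE.pi' hq).card_eq_pow
        rw [hk] at m1 m2
        obtain ⟨j, -, rfl⟩ := (Nat.dvd_prime_pow hq).1 m1
        rw [← pow_mul, Nat.pow_le_pow_iff_right hq.one_lt] at m2
        simp only [mim_bot, C_bot, inf_top_eq, hk, hq.factorization_pow, Finsupp.single_eq_same]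
        omega
      · have := fact_idx (p := p) hc.nml (nW (mem_top g))
        have := d4 g
        simp only [mim_bot, C_bot, inf_top_eq, mim_zpowers (nW (mem_top g)), C_zpowers]
        omega
    · refine ⟨d, d1, d2, by rw [Nat.factorization_eq_zero_of_not_dvd hm]; omega, fun g => (d4 g).trans ?_⟩
      have : C1(g).relIndex W ∣ C1(g).relIndex U := by
        rw [← relIndex_inf_right, ← relIndex_inf_right (B := U), ← inf_eq_right.2 hc.le, ← inf_assoc, inf_eq_right.2 hc.le,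
          relIndex_inf_right]
        exact hc.nml.relIndex_dvd' inf_le_right
      have := (Nat.factorization_le_iff_dvd H18.relIndex_ne_zero H18.relIndex_ne_zero).2 this p
      omega
  obtain ⟨d, d1, d2, d3, d4⟩ := key χ hχ 1 (by simp) n hn
  obtain ⟨x, hx, x1⟩ := d1.exists_small H (hs.of_le le_top) hH.pi 1 (one_mem _)
  rw [sup_eq_left.2 (zpowers_le_of_mem (by simpa using hx)), d2] at x1
  have := d4 x
  rw [relIndex_top_right] at this
  exact ⟨x, by omega⟩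

end H5
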