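import Cfsg.Agent.H5.Prim

/-! `prim_degree2`: the class in `prim_degree` may be moved inside a coset of a subgroup centralizing the `p`-chief factors. -/

set_option autoImplicit false
open Cfsg H18 H19 Subgroup
open H1 (Cop cop_of_pi cop_of_pi')
open scoped commutatorElement ComplexConjugate

namespace H5
end H5
open H5
namespace H5
variable {G : Type*} [Group G] {A B D H K L M P Q R U V W X Y Z : Subgroup G} {x y c g : G} {p q r : ℕ}
  {θ χ ψ φ ξ : G → ℂ}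

variable [Finite G]

theorem prim_degree2 [Fintype G] (hp : p.Prime) (hs : Solv (⊤ : Subgroup G)) (hχ : χ ∈ irr ⊤)
    (h : ∀ K, K ⊴ ⊤ → ∃ θ ∈ irr K, ∃ s : ℂ, res K χ = s • θ) {n : ℕ} (hn : χ 1 = n) (hH : Hall {p}ᶜ H ⊤)
    (hR : ∀ W U, Chief ⊤ W U → PiGrp {p} (U ⫽ W) → R ⫽ W ≤ C(U ⫽ W)) :
    ∃ x ∈ H, ∀ g : G, x⁻¹ * g ∈ R → n.factorization p ≤ (C1(g).index).factorization p := by
  have key : ∀ θ ∈ irr (⊤ : Subgroup G), ∀ s : ℂ, res ⊤ χ = s • θ → ∀ a : ℕ, θ 1 = a → ∃ d, T3 p d ∧ d H = 0 ∧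
      2 * a.factorization p ≤ d ⊥ ∧ (∀ g : G, d ⊥ ≤ d (zpowers g) + (C1(g).relIndex ⊤).factorization p) ∧
      ∀ x g : G, x⁻¹ * g ∈ R → d (zpowers g) = d (zpowers x) := by
    refine chief_induction_up (T := fun K => ∀ θ ∈ irr K, ∀ s : ℂ, res K χ = s • θ → ∀ a : ℕ, θ 1 = a → ∃ d, T3 p d ∧
      d H = 0 ∧ 2 * a.factorization p ≤ d ⊥ ∧ (∀ g : G, d ⊥ ≤ d (zpowers g) + (C1(g).relIndex K).factorization p) ∧
      ∀ x g : G, x⁻¹ * g ∈ R → d (zpowers g) = d (zpowers x))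
      Nml.rfl Nml.bot bot_le (fun θ hθ s _ a ha => ?_) (fun W U hc _ _ ih θ hθ s e a ha => ?_)
    · have : a = 1 := by
        rw [irr_apply_one_of_comm hθ (by simp)] at ha; exact_mod_cast ha.symm
      exact ⟨fun _ => 0, fun _ _ _ _ _ _ _ _ _ _ _ _ => le_rfl, rfl, by simp [this], fun _ => Nat.zero_le _, fun _ _ _ => rfl⟩
    obtain ⟨φ, hφ, t, e'⟩ := h W hc.nmlV
    obtain ⟨b, b0, hb⟩ := irr_exists_apply_one hφ
    have s0 : s ≠ 0 := by
      rintro rfl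
      exact irr_apply_one_ne_zero hχ (by rw [← res_one U χ, e]; simp)
    obtain ⟨m, rfl, m1, m2⟩ := homog_ratio hc.nml hθ hφ (s := s⁻¹ * t) (by
      rw [mul_smul, ← e', ← res_res hc.le χ, e, map_smul, inv_smul_smul₀ s0]) ha hb
    have m0 : m ≠ 0 := fun e => H18.relIndex_ne_zero (zero_dvd_iff.1 (e ▸ m1))
    obtain ⟨d, d1, d2, d3, d4, d5⟩ := ih φ hφ t e' b hb
    rw [Nat.factorization_mul m0 b0.ne', Finsupp.add_apply]
    have nW : ⊤ ≤ N(W) := hc.nmlV.norm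
    by_cases hm : p ∣ m
    · obtain ⟨q, hq, -, hE⟩ := hc.exists_elem (hs.of_le le_top)
      rw [← card_quo hc.nml.norm] at m1 m2
      obtain rfl : p = q := (hE.pi' hq).eq_of_dvd hp (hm.trans m1)
      have tp : ⊤ ⫽ W = ⊤ := eq_top_iff.2 (quo_N.ge.trans (mim_mono le_top))
      have hV := hc.minNorm
      rw [tp] at hV
      have hnc : ¬ ⊤ ≤ C(U ⫽ W) := fun hc' => by
        obtain ⟨X, x1, x2⟩ := (hE.pi' hq).exists_sub_card hV.ne_bot
        rw [← hV.min X x1 (ne_bot_of_prime (x2 ▸ hq)) (cent_norm (hc'.trans (C_anti x1))), x2] at m2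
        have := Nat.le_of_dvd (Nat.pos_of_ne_zero m0) hm
        nlinarith [hq.one_lt]
      have h0 := MinNorm.cent_hall hq (tp ▸ hs.mim) hV (hE.pi' hq) (tp ▸ hH.mim nW) hnc
      refine ⟨_, d1.add ((t3_abel hq hE.abel (hE.pi' hq) hV.norm).mim (f := coset W) nW), ?_, ?_, fun g => ?_, fun x g hx => ?_⟩
      · simp [d2, h0]
      · obtain ⟨k, hk⟩ := (hE.pi' hq).card_eq_pow
        rw [hk] at m1 m2
        obtain ⟨j, -, rfl⟩ := (Nat.dvd_prime_pow hq).1 m1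
        rw [← pow_mul, Nat.pow_le_pow_iff_right hq.one_lt] at m2
        simp only [mim_bot, C_bot, inf_top_eq, hk, hq.factorization_pow, Finsupp.single_eq_same]
        omega
      · have := fact_idx (p := p) hc.nml (nW (mem_top g))
        have := d4 g
        simp only [mim_bot, C_bot, inf_top_eq, mim_zpowers (nW (mem_top g)), C_zpowers]
        omega
      · have k := hR W U hc (hE.pi' hq)
        have e : U ⫽ W ⊓ C(zpowers g ⫽ W) = U ⫽ W ⊓ C(zpowers x ⫽ W) := by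
          have s : ∀ z, U ⫽ W ⊓ C(zpowers z ⫽ W) = U ⫽ W ⊓ C((R ⊔ zpowers z) ⫽ W) := fun z => by
            rw [mim_sup (le_top.trans nW) (le_top.trans nW), C_sup, ← inf_assoc, inf_eq_left.2 (cent_symm k)]
          rw [s, s, sup_zpowers_congr hx]
        rw [d5 x g hx, e]
    · refine ⟨d, d1, d2, by rw [Nat.factorization_eq_zero_of_not_dvd hm]; omega, fun g => (d4 g).trans ?_, d5⟩
      have : C1(g).relIndex W ∣ C1(g).relIndex U := by
        rw [← relIndex_inf_right, ← relIndex_inf_right (B := U), ← inf_eq_right.2 hc.le, ← inf_assoc, inf_eq_right.2 hc.le,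
          relIndex_inf_right]
        exact hc.nml.relIndex_dvd' inf_le_right
      have := (Nat.factorization_le_iff_dvd H18.relIndex_ne_zero H18.relIndex_ne_zero).2 this p
      omega
  obtain ⟨d, d1, d2, d3, d4, d5⟩ := key χ hχ 1 (by simp) n hn
  obtain ⟨x, hx, x1⟩ := d1.exists_small H (hs.of_le le_top) hH.pi 1 (one_mem _)
  rw [sup_eq_left.2 (zpowers_le_of_mem (by simpa using hx)), d2] at x1
  refine ⟨x, by simpa using hx, fun g hg => ?_⟩
  have := d4 g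
  rw [relIndex_top_right, d5 x g hg] at this
  omega

theorem chief_cent_of_nml (hP : PiGrp {p} P) (hn : F(⊤) ⊔ P ⊴ ⊤) (W U : Subgroup G) (hc : Chief ⊤ W U)
    (hV : PiGrp {p} (U ⫽ W)) : (F(⊤) ⊔ P) ⫽ W ≤ C(U ⫽ W) := by
  have nW : ⊤ ≤ N(W) := hc.nmlV.norm
  have hm := hc.minNorm
  have h1 : U ⫽ W ≤ C(F(⊤) ⫽ W) := (comm_le_iff_quo (le_top.trans nW) (le_top.trans nW)).1 hc.comm_fit_le
  have h2 := hP.mim.meet_cent hV ((mim_mono le_top).trans hm.norm) hm.ne_bot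
  refine cent_symm ((hm.min (U ⫽ W ⊓ C((F(⊤) ⊔ P) ⫽ W)) inf_le_left ?_
    (norm_inf hm.norm (norm_C hn.mim.norm))).ge.trans inf_le_right)
  rwa [mim_sup (le_top.trans nW) (le_top.trans nW), C_sup, ← inf_assoc, inf_eq_left.2 h1]

end H5
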