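import Cfsg.Agent.H22.GWg
import Cfsg.Agent.H22.Rank1
import Cfsg.Agent.H24.SL2Norm
import Cfsg.Agent.H9.InvCount
import Cfsg.Agent.H9.MaxClass
import Cfsg.Agent.S0205

/-! Groups acting on a finite abelian `q`-group with all orbits of `p`-power length: `St`, `Fx`, the cases
`SL₂(F)` (`sl2_orb`) and `A₇` (`a7_two_index`), and the theorem `orb_perf` (a perfect `q'`-group with
`p`-power orbits acts trivially). -/

set_option autoImplicit false
open Cfsg H18 Subgroup
open scoped commutatorElement MatrixGroups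

namespace H5
end H5
open H5
namespace H5
universe u
section
variable {H V : Type*} [Group H] [CommGroup V]

/-- The stabilizer of a point. -/
def St (φ : H →* MulAut V) (v : V) : Subgroup H := (MulAction.stabilizer (MulAut V) v).comap φ

theorem mem_St {φ : H →* MulAut V} {v : V} {h : H} : h ∈ St φ v ↔ φ h v = v := Iff.rfl

/-- The common fixed points of a family. -/
def Fx {ι : Type*} (φ : H →* MulAut V) (a : ι → H) : Subgroup V where
  carrier := {v | ∀ i, φ (a i) v = v}
  one_mem' i := map_one _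
  mul_mem' hx hy i := by rw [map_mul, hx i, hy i]
  inv_mem' hx i := by rw [map_inv, hx i]

theorem mem_Fx {ι : Type*} {φ : H →* MulAut V} {a : ι → H} {v : V} : v ∈ Fx φ a ↔ ∀ i, φ (a i) v = v := Iff.rfl

theorem act_mul (φ : H →* MulAut V) (g h : H) (v : V) : φ (g * h) v = φ g (φ h v) := by rw [map_mul]; rfl
theorem act_inv (φ : H →* MulAut V) (g : H) (v : V) : φ g⁻¹ (φ g v) = v := by
  rw [← act_mul, inv_mul_cancel, map_one]; rfl
theorem act_inv' (φ : H →* MulAut V) (g : H) (v : V) : φ g (φ g⁻¹ v) = v := by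
  rw [← act_mul, mul_inv_cancel, map_one]; rfl
end

section SL2
open Matrix
variable {F V : Type*} [Field F] [CommGroup V]

/-- upper unitriangular -/
def uu (t : F) : SL(2, F) := ⟨!![1, t; 0, 1], by simp [det_fin_two]⟩
/-- lower unitriangular -/
def ll (t : F) : SL(2, F) := ⟨!![1, 0; t, 1], by simp [det_fin_two]⟩

theorem uu_coe (t : F) : (uu t).1 = !![1, t; 0, 1] := rfl
theorem ll_coe (t : F) : (ll t).1 = !![1, 0; t, 1] := rfl
theorem uu_add (s t : F) : uu s * uu t = uu (s + t) := by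
  ext i j; fin_cases i <;> fin_cases j <;> simp [uu_coe, mul_apply, Fin.sum_univ_two, add_comm]
theorem ll_add (s t : F) : ll s * ll t = ll (s + t) := by
  ext i j; fin_cases i <;> fin_cases j <;> simp [ll_coe, mul_apply, Fin.sum_univ_two, add_comm]
theorem uu_zero : uu (0 : F) = 1 := by ext i j; fin_cases i <;> fin_cases j <;> simp [uu]
theorem ll_zero : ll (0 : F) = 1 := by ext i j; fin_cases i <;> fin_cases j <;> simp [ll]
theorem uu_pow (t : F) (n : ℕ) : uu t ^ n = uu (n * t) := by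
  induction n with
  | zero => simp [uu_zero]
  | succ n ih => rw [pow_succ, ih, uu_add]; congr 1; push_cast; ring
theorem uu_ll (t : F) : (uu 1 * ll (-1) * uu 1) * uu t = ll (-t) * (uu 1 * ll (-1) * uu 1) := by
  ext i j; fin_cases i <;> fin_cases j <;> simp [uu_coe, ll_coe, mul_apply, Fin.sum_univ_two]
theorem conj_ll {s : F} (hs : s ≠ 0) (t : F) :
    uu (-s) * ll (-t) * uu s = ll (-s⁻¹) * uu (s ^ 2 * t) * ll s⁻¹ := by
  ext i j; fin_cases i <;> fin_cases j <;> simp [uu_coe, ll_coe, mul_apply, Fin.sum_univ_two] <;> field_simp <;> ring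
theorem conj_uu0 {g : SL(2, F)} (h : g 1 0 = 0) (t : F) : uu t * g = g * uu (g 1 1 ^ 2 * t) := by
  have hd := g.2
  rw [det_fin_two, h] at hd
  ext i j; fin_cases i <;> fin_cases j <;> simp [uu_coe, mul_apply, Fin.sum_univ_two, h]
  linear_combination (-t * g 1 1) * hd
theorem conj_uu1 {g : SL(2, F)} (h : g 1 0 ≠ 0) (t : F) :
    uu t * g = g * (uu (-(g 1 1 / g 1 0)) * ll (-(g 1 0 ^ 2 * t)) * uu (g 1 1 / g 1 0)) := by
  have hd := g.2
  rw [det_fin_two] at hd
  ext i j; fin_cases i <;> fin_cases j <;> simp [uu_coe, ll_coe, mul_apply, Fin.sum_univ_two] <;> field_simp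
  · linear_combination (-t * g 1 0) * hd
  · linear_combination (-t * g 1 1 * g 1 0) * hd
  · ring
  · ring

theorem fx_ul {φ : SL(2, F) →* MulAut V} {v : V} (h1 : v ∈ Fx φ uu) (h2 : v ∈ Fx φ ll) (g : SL(2, F)) : φ g v = v := by
  refine SL2.transvection_induction (fun g => φ g v = v) (fun i j h c => ?_) (fun A B a b => by rw [act_mul, b, a]) g
  fin_cases i <;> fin_cases j
  · exact absurd rfl h
  · convert h1 c; ext i j; fin_cases i <;> fin_cases j <;> simp [uu, SpecialLinearGroup.transvection_coe, Matrix.transvection]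
  · convert h2 c; ext i j; fin_cases i <;> fin_cases j <;> simp [ll, SpecialLinearGroup.transvection_coe, Matrix.transvection]
  · exact absurd rfl h

theorem sl2_orb [Fintype F] [Finite V] {q r : ℕ} (hq : q.Prime) [Fact r.Prime] [CharP F r] (hV : IsPGroup q V)
    (hF : ¬ q ∣ Fintype.card F) (φ : SL(2, F) →* MulAut V) (h : ∀ v, ¬ r ∣ (St φ v).index)
    (h0 : ∀ v, (∀ g, φ g v = v) → v = 1) (v : V) : v = 1 := by
  have := Fact.mk hq
  have hU : IsPGroup r (⟨⟨⟨Set.range uu, by rintro _ _ ⟨s, rfl⟩ ⟨t, rfl⟩; exact ⟨_, (uu_add s t).symm⟩⟩, 0, uu_zero⟩,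
      by rintro _ ⟨s, rfl⟩; exact ⟨-s, eq_inv_of_mul_eq_one_left (by rw [uu_add, neg_add_cancel, uu_zero])⟩⟩ :
        Subgroup SL(2, F)) := by
    rintro ⟨_, s, rfl⟩
    exact ⟨1, Subtype.ext (by simp [uu_pow, uu_zero])⟩
  have cov : ∀ v, v ∈ Fx φ uu ∨ ∃ s, φ (uu s) v ∈ Fx φ ll := fun v => by
    obtain ⟨g, hg⟩ := H24.exists_conj_mem_of_not_dvd_index hU (h v)
    have hg' : ∀ t, φ (g⁻¹ * (uu t * g)) v = v := fun t => by rw [← mul_assoc]; exact hg _ ⟨t, rfl⟩
    by_cases e : g 1 0 = 0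
    · have hd := g.2
      rw [det_fin_two, e, mul_zero, sub_zero] at hd
      have : g 1 1 ≠ 0 := right_ne_zero_of_mul_eq_one hd
      refine .inl fun t => ?_
      have h1 := hg' (t / g 1 1 ^ 2)
      rwa [conj_uu0 e, inv_mul_cancel_left, mul_div_cancel₀ _ (pow_ne_zero 2 this)] at h1
    · refine .inr ⟨g 1 1 / g 1 0, fun t => ?_⟩
      have h1 := hg' (-t / g 1 0 ^ 2)
      rw [conj_uu1 e, inv_mul_cancel_left, mul_div_cancel₀ _ (pow_ne_zero 2 e), neg_neg, act_mul, act_mul] at h1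
      conv_rhs => rw [← h1, ← act_mul, uu_add, add_neg_cancel, uu_zero, map_one]
      rfl
  have dis : ∀ v, v ∈ Fx φ uu → v ∈ Fx φ ll → v = 1 := fun v a b => h0 v (fx_ul a b)
  have inv : ∀ s v, φ (uu (-s)) (φ (uu s) v) = v := fun s v => by
    rw [← act_mul, uu_add, neg_add_cancel, uu_zero, map_one]; rfl
  have dis2 : ∀ s v, s ≠ 0 → v ∈ Fx φ ll → φ (uu s) v ∈ Fx φ ll → v = 1 := fun s v hs a b => by
    refine dis v (fun t => ?_) a
    have h1 : φ (uu (-s) * ll (-(t / s ^ 2)) * uu s) v = v := by rw [act_mul, act_mul, b, inv]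
    rw [conj_ll hs, mul_div_cancel₀ _ (pow_ne_zero 2 hs), act_mul, act_mul, a] at h1
    rw [← a s⁻¹]
    conv_rhs => rw [← h1, ← act_mul, ll_add, add_neg_cancel, ll_zero, map_one]
    rw [a]; rfl
  have bij : Function.Bijective (Sum.elim (fun w : Fx φ uu => (w : V))
      fun y : F × {y : Fx φ ll // y ≠ 1} => φ (uu y.1) (y.2 : Fx φ ll)) := by
    constructor
    · have k : ∀ (w : Fx φ uu) (y : F × {y : Fx φ ll // y ≠ 1}), (w : V) ≠ φ (uu y.1) (y.2 : Fx φ ll) := fun w y e => by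
        refine y.2.2 (Subtype.ext (dis _ ?_ y.2.1.2))
        rw [← inv y.1 (y.2 : Fx φ ll), ← e, w.2]; exact w.2
      rintro (w | ⟨s, y⟩) (w' | ⟨s', y'⟩) e
      · exact congrArg _ (Subtype.ext e)
      · exact absurd e (k _ _)
      · exact absurd e.symm (k _ _)
      · have e1 : φ (uu (-s' + s)) (y : Fx φ ll) = (y' : Fx φ ll) := by
          rw [← uu_add, act_mul]; exact (congrArg _ e).trans (inv _ _)
        obtain rfl : s' = s := by
          by_contra ne
          exact y.2 (Subtype.ext (dis2 _ _ (by rwa [ne_eq, neg_add_eq_zero]) y.1.2 (e1 ▸ y'.1.2)))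
        obtain rfl : y = y' := Subtype.ext (Subtype.ext ((φ _).injective e))
        rfl
    · intro v
      by_cases a : v ∈ Fx φ uu
      · exact ⟨.inl ⟨v, a⟩, rfl⟩
      obtain ⟨s, b⟩ := (cov v).resolve_left a
      refine ⟨.inr (-s, ⟨⟨_, b⟩, fun e => a ?_⟩), inv _ _⟩
      rw [← inv s v, show φ (uu s) v = 1 from congrArg Subtype.val e, map_one]; exact one_mem _
  have c := Nat.card_eq_of_bijective _ bij
  rw [Nat.card_sum, Nat.card_prod, Nat.card_eq_fintype_card (α := F)] at c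
  have c2 : Nat.card {y : Fx φ ll // y ≠ 1} + 1 = Nat.card (Fx φ ll) := by
    classical
    have := Fintype.ofFinite (Fx φ ll)
    rw [Nat.card_eq_fintype_card, Nat.card_eq_fintype_card, Fintype.card_subtype_compl, Fintype.card_subtype_eq]
    exact Nat.sub_add_cancel Fintype.card_pos
  have dv : ∀ W : Subgroup V, W ≠ ⊥ → q ∣ Nat.card W := fun W hW =>
    (piGrp_of_isPGroup hq (hV.to_subgroup W)).dvd_card hW
  by_contra hv
  have n1 : Fx φ ll ≠ ⊥ ∧ Fx φ uu ≠ ⊥ := by
    have a : Fx φ uu = ⊥ → Fx φ ll = ⊥ := fun e => eq_bot_iff.2 fun y hy => by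
      have : φ (uu 1 * ll (-1) * uu 1)⁻¹ y ∈ Fx φ uu := fun t => (φ (uu 1 * ll (-1) * uu 1)).injective <| by
        rw [← act_mul, uu_ll, act_mul, act_inv', hy]
      rw [e, mem_bot] at this
      rw [mem_bot, ← act_inv' φ (uu 1 * ll (-1) * uu 1) y, this, map_one]
    have b : Fx φ ll = ⊥ → Fx φ uu = ⊥ := fun e => eq_bot_iff.2 fun y hy => by
      have : φ (uu 1 * ll (-1) * uu 1) y ∈ Fx φ ll := fun t => by
        rw [← act_mul, ← neg_neg t, ← uu_ll, act_mul, hy]
      rw [e, mem_bot] at this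
      rw [mem_bot, ← act_inv φ (uu 1 * ll (-1) * uu 1) y, this, map_one]
    have : Fx φ ll ≠ ⊥ := fun e => by
      rcases cov v with k | ⟨s, k⟩
      · rw [b e] at k; exact hv k
      · rw [e, mem_bot] at k; exact hv (by rw [← inv s v, k, map_one])
    exact ⟨this, fun e => this (a e)⟩
  have d1 := dv ⊤ (ne_bot_of_mem (mem_top v) hv)
  rw [card_top, ← c] at d1
  have d2 := (Nat.dvd_add_right (dv _ n1.2)).1 d1
  have d3 := dv _ n1.1
  rw [← c2] at d3
  exact hq.one_lt.ne' (Nat.dvd_one.1 ((Nat.dvd_add_right ((hq.dvd_mul.1 d2).resolve_left hF)).1 d3))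
end SL2

theorem a7_two_index {K : Subgroup (alternatingGroup (Fin 7))} (h : PiNat {2} K.index) : K = ⊤ := by
  by_contra hK
  have c : Nat.card (alternatingGroup (Fin 7)) = 2520 := by rw [nat_card_alternatingGroup]; simp [Nat.factorial]
  have := alternatingGroup.isSimpleGroup (α := Fin 7) (by simp)
  have d1 := H9.card_dvd_factorial_index hK
  obtain ⟨k, hk⟩ := h.eq_pow index_ne_zero_of_finite
  have d2 := K.card_mul_index
  rw [c, hk] at d1 d2
  have k3 : k ≤ 3 := by
    by_contra e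
    have : 2 ^ 4 ∣ 2520 := (pow_dvd_pow 2 (by omega)).trans (Dvd.intro_left _ d2)
    omega
  have cK : Nat.card K = 315 := by interval_cases k <;> simp [Nat.factorial] at d1 d2 ⊢; omega
  have sK : Solv K := Cfsg.Agent.S0205.result (by rw [cK]; decide)
  obtain ⟨L, hL, -⟩ := coprime_Hall_exists {3}ᶜ (A := ⊥) ⟨bot_le, by simp, .inr sK⟩ solv_bot sK
  have p5 : Nat.Prime 5 := by norm_num
  have p7 : Nat.Prime 7 := by norm_num
  have cL : Nat.card L = 35 := Nat.dvd_antisymm
    (hL.pi.dvd_of_dvd_mul (n := 9) (PiNat.compl_compl (piNat_pow_self Nat.prime_three 2)) (by have := card_dvd hL.le; rwa [cK] at this))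
    (hL.dvd_of_piNat ((piNat_compl_iff Nat.prime_three).2 (by norm_num)) (by rw [cK]; norm_num))
  obtain ⟨T, hT, cT⟩ := cauchy_sub (H := L) p5 (by rw [cL]; norm_num)
  have h5 : Hall {5} T L := hall_of_card_mul hT (piGrp_of_prime p5 cT) (n := 7) ((piNat_compl_iff p5).2 (by norm_num)) (by rw [cL, cT])
  have h7 := cyclic_pdiv_normal_complement p5 h5 (cyc_of_prime (cT ▸ p5)) fun q hq d => by
    rw [cL] at d
    have := Nat.le_of_dvd (by norm_num) d
    by_contra e
    have := hq.two_le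
    interval_cases q <;> omega
  have cO : Nat.card O[{5}ᶜ](L) = 7 := by have := h5.card_mul_compl h7; rw [cT, cL] at this; omega
  have ce : T ≤ C(O[{5}ᶜ](L)) := relIndex_eq_one_iff.1 <| Nat.eq_one_of_dvd_coprimes (show Nat.Coprime 5 6 by norm_num)
    (cT ▸ relIndex_dvd) (prime_relIndex_C_dvd p7 cO (hT.trans pcore_nml.norm))
  obtain ⟨x, hx, ox⟩ := cauchy (H := T) p5 cT.symm.dvd
  obtain ⟨y, hy, oy⟩ := cauchy (H := O[{5}ᶜ](L)) p7 cO.symm.dvd
  have cm : Commute (x : Equiv.Perm (Fin 7)) y := congrArg Subtype.val (comm_of_cent ce hx hy)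
  rw [← Subgroup.orderOf_coe] at ox oy
  have := Fact.mk p5
  obtain ⟨a, ha⟩ := Equiv.Perm.exists_fixed_point_of_prime (p := 5) (n := 1) (by simp) (σ := (x : Equiv.Perm (Fin 7)))
    (by rw [pow_one, ← ox, pow_orderOf_eq_one])
  have cy := Equiv.Perm.isCycle_of_prime_order'' (σ := (y : Equiv.Perm (Fin 7))) (by simpa using p7) (by simpa using oy)
  have su : (y : Equiv.Perm (Fin 7)).support = Finset.univ := Finset.eq_univ_of_card _ (by rw [← cy.orderOf, oy]; simp)
  have mv : ∀ b, (y : Equiv.Perm (Fin 7)) b ≠ b := fun b => Equiv.Perm.mem_support.1 (su ▸ Finset.mem_univ b)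
  have : (x : Equiv.Perm (Fin 7)) = 1 := Equiv.ext fun b => by
    obtain ⟨i, rfl⟩ := cy.exists_zpow_eq (mv a) (mv b)
    rw [← Equiv.Perm.mul_apply, (cm.zpow_right i).eq, Equiv.Perm.mul_apply, ha]; rfl
  rw [this, orderOf_one] at ox
  omega

section
variable {H : Type u} {V : Type*} [Group H] [Finite H] [CommGroup V] {φ : H →* MulAut V} {P : Subgroup H}

theorem conj_act {p : ℕ} (hP : Hall {p} P ⊤) {v : V} (h : PiNat {p} (St φ v).index) (a x : H) :
    ∃ k, ∃ g ∈ P, φ k v = v ∧ φ (x * a * x⁻¹) v = φ k (φ (g * a * g⁻¹) v) := by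
  obtain ⟨k, hk, g, hg, rfl⟩ := exists_mul_of_coprime_relIndex hP.le (le_top (a := St φ v))
    (hP.idx.coprime' (by rwa [relIndex_top_right])) (mem_top x)
  refine ⟨k, g, hg, hk, ?_⟩
  rw [show k * g * a * (k * g)⁻¹ = k * (g * a * g⁻¹) * k⁻¹ by group, act_mul, act_mul, mem_St.1 (inv_mem hk)]

theorem even_index {q : ℕ} (hq : q.Prime) (h2 : q ≠ 2) (hV : IsPGroup q V) {t : H} (ht : t * t = 1) (h1 : φ t ≠ 1) :
    ∃ v, 2 ∣ (St φ v).index := by
  obtain ⟨w, hw⟩ : ∃ w, φ t w ≠ w := by by_contra! e; exact h1 (MulEquiv.ext e)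
  have e : φ t (w⁻¹ * φ t w) = (w⁻¹ * φ t w)⁻¹ := by
    rw [map_mul, map_inv, ← act_mul, ht, map_one, mul_inv_rev, inv_inv]; rfl
  generalize hv : w⁻¹ * φ t w = v at e
  have v1 : v⁻¹ ≠ v := fun k => by
    obtain ⟨n, hn⟩ := hV v
    have : v ^ 2 = 1 := by rw [sq]; nth_rw 1 [← k]; exact inv_mul_cancel v
    have := (pow_gcd_eq_one.2 ⟨this, hn⟩)
    rw [((Nat.coprime_primes Nat.prime_two hq).2 h2.symm).pow_right n, pow_one] at this
    exact hw (inv_mul_eq_one.1 (hv.trans this)).symm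
  let M : Subgroup H := ⟨⟨⟨{h | φ h v = v ∨ φ h v = v⁻¹}, by
      rintro a b (x | x) (y | y) <;> simp [x, y]⟩, .inl (by simp)⟩, by
      rintro a (x | x)
      · left; conv_lhs => rw [← x, act_inv]
      · right; rw [← inv_inv v, ← x, map_inv, act_inv, x, inv_inv]⟩
  refine ⟨v, Dvd.intro _ ((?_ : 2 = (St φ v).relIndex M) ▸ relIndex_mul_index (H := St φ v) (K := M) fun _ h => .inl h)⟩
  refine (H9.relIndex_eq_two_of (P := M) (y := t) (Or.inr e) (fun k => v1 (e.symm.trans k)) fun g (hg : _ ∨ _) => Or.imp id (fun k => ?_) hg).symm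
  rw [mem_St, act_mul, inv_eq_of_mul_eq_one_right ht, e, map_inv, k, inv_inv]

theorem two_irr {q : ℕ} [Finite V] (hq : q.Prime) (h2 : q ≠ 2) (hV : IsPGroup q V) (hc : ¬ q ∣ Nat.card H)
    (hp : ⁅(⊤ : Subgroup H), (⊤ : Subgroup H)⁆ = ⊤) (hf : Function.Injective φ)
    (irr : ∀ W : Subgroup V, (∀ h, ∀ w ∈ W, φ h w ∈ W) → W = ⊥ ∨ W = ⊤) (h : ∀ v, PiNat {2} (St φ v).index) :
    (⊤ : Subgroup H) = ⊥ := by
  by_contra h1
  have ns : ¬ Solv (⊤ : Subgroup H) := fun s => h1 (s.eq_bot_of_le_der hp.ge)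
  have tr : ∀ a : H, (∀ v, φ a v = v) → a = 1 := fun a e => hf ((MulEquiv.ext e).trans (map_one φ).symm)
  obtain ⟨P, hP⟩ := exists_sylow Nat.prime_two (⊤ : Subgroup H)
  have P1 : P ≠ ⊥ := fun e => ns (solv_top_iff.2 (Cfsg.Agent.S0205.result (by
    have := (e ▸ hP).compl_of_eq_bot
    rwa [PiGrp, piNat_compl_iff Nat.prime_two, card_top, Nat.two_dvd_ne_zero, ← Nat.odd_iff] at this)))
  have cen : ∀ a : H, a ≠ 1 → P ≤ C1(a) → ∀ v, φ a v = v → v = 1 := fun a a1 c v e => by
    refine mem_bot.1 ((irr (Fx φ fun _ : Unit => a) (fun x w hw _ => ?_)).resolve_right (fun k => a1 (tr a fun u =>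
      (k ▸ mem_top u : u ∈ Fx φ fun _ : Unit => a) ())) ▸ fun _ => e)
    obtain ⟨k, g, hg, e1, e2⟩ := conj_act hP (h w) a x⁻¹
    rw [conj_eq_self_of_C1 (c hg), hw (), e1, act_mul, act_mul, inv_inv] at e2
    rw [← act_inv' φ x (φ a _), e2]
  have ci : ∀ a : H, a * a = 1 → a ≠ 1 → P ≤ C1(a) → ∀ v, φ a v = v⁻¹ := fun a aa a1 c v =>
    eq_inv_of_mul_eq_one_right (cen a a1 c _ (by rw [map_mul, ← act_mul, aa, map_one, mul_comm]; rfl))
  obtain ⟨z, hz, oz⟩ := cauchy Nat.prime_two ((hP.pi.of_le inf_le_left).dvd_card (hP.pi.nil.Z_ne_bot P1))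
  have zz : z * z = 1 := by rw [← sq, ← oz, pow_orderOf_eq_one]
  have z1 : z ≠ 1 := fun e => by simp [e] at oz
  have zi := ci z zz z1 (le_C1_iff.2 hz.2)
  have cu : ∀ a : H, a * a = 1 → a ≠ 1 → P ≤ C1(a) → a = z := fun a aa a1 c =>
    hf (MulEquiv.ext fun v => by rw [zi, ci a aa a1 c])
  have zc : ∀ g, z * g = g * z := fun g => hf (MulEquiv.ext fun v => by rw [act_mul, act_mul, zi, zi, map_inv])
  have hz' : zpowers z ≤ center H := zpowers_le.2 (mem_center_iff.2 fun g => (zc g).symm)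
  have nz := H9.normal_zpowers_of_center (hz' (mem_zpowers z))
  have cz : Nat.card (zpowers z) = 2 := by rw [card_zpowers', oz]
  have cd : H22.CD (P.map (QuotientGroup.mk' (zpowers z))) := by
    rcases H9.cyclic_or_mc_or_klein hP.pi.isPGroup with c | ⟨k, x, c⟩ | ⟨W, hW, n, c⟩
    · obtain ⟨x, rfl⟩ := Cyc.gen c
      rw [MonoidHom.map_zpowers]; exact H22.cd_of_cyc cyc_zpowers
    · have e := cu _ c.u_mul_u c.u_ne_one fun g hg => mem_C1.2 (c.commute_u hg).eq
      refine ⟨_, mem_map_of_mem _ c.xmem, ?_⟩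
      rw [← MonoidHom.map_zpowers]
      rintro _ ⟨g, hg, rfl⟩ n
      have n' : g ∉ zpowers x := fun k => n (mem_map_of_mem _ k)
      refine ⟨?_, ?_⟩
      · rw [← map_mul, QuotientGroup.mk'_apply, QuotientGroup.eq_one_iff]
        rcases c.sq_cases hg n' with k | k <;> rw [k]
        exacts [one_mem _, e ▸ mem_zpowers _]
      · rintro _ ⟨g', hg', rfl⟩ m
        rw [← map_mul]
        exact mem_map_of_mem _ (c.mul_mem_out hg hg' n' fun k => m (mem_map_of_mem _ k))
    exfalso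
    have hE := H9.pElem_of_isKleinFour c hW
    have sq : ∀ a ∈ W, a * a = 1 := fun a ha => by rw [← sq, hE.elem.pow a ha]
    have zW : zpowers z ≤ W := by
      obtain ⟨w, hw, w1⟩ := exists_mem_ne_one' (hP.pi.meet_cent (hP.pi.of_le hW) n fun e => by
        have := hE.card; simp [e] at this)
      rw [← cu w (sq w hw.1) w1 (le_C1_iff.2 hw.2), zpowers_le]; exact hw.1
    have ix : (zpowers z).relIndex W = 2 := relIndex_eq_of_mul zW (by rw [hE.card, cz]; rfl)
    obtain ⟨a, ha, az⟩ := H9.exists_notMem_of_relIndex_two ix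
    have zp : ∀ b ∈ zpowers z, b = 1 ∨ b = z := fun b hb => by
      classical
      rw [mem_zpowers_iff_mem_range_orderOf, oz] at hb
      simpa [Finset.range_add_one, or_comm, eq_comm] using hb
    have s1 : ∀ x v, φ a v = v ∨ φ a v = v⁻¹ → φ (x * a * x⁻¹) v = v ∨ φ (x * a * x⁻¹ * z) v = v := fun x v e => by
      obtain ⟨k, g, hg, e1, e2⟩ := conj_act hP (h v) a x
      have := H9.mul_inv_mem_of_relIndex_two ix (conj_mem n hg ha) ha (fun m => az (by simpa [mul_assoc] using nz.conj_mem' _ m g)) az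
      rw [act_mul _ _ z, zi, map_inv, e2]
      rcases zp _ this with m | m
      · rw [mul_inv_eq_one.1 m]; rcases e with e | e <;> simp [e, e1]
      · rw [mul_inv_eq_iff_eq_mul.1 m, act_mul, zi]; rcases e with e | e <;> simp [e, e1]
    have ex : ∀ b c : H, (∀ v, φ a v = v → φ b v = φ c v) → (∀ v, φ a v = v⁻¹ → φ b v = φ c v) → b = c := fun b c x y =>
      hf (MulEquiv.ext fun v => by
        obtain ⟨n, hn⟩ := hV v
        obtain ⟨m, hm⟩ : Odd (q ^ n) := (hq.odd_of_ne_two h2).pow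
        have e : v = (v ^ (m + 1) * φ a (v ^ (m + 1))) * (v ^ (m + 1) * (φ a (v ^ (m + 1)))⁻¹) := by
          rw [mul_mul_mul_comm, mul_inv_cancel, mul_one, ← pow_add, show m + 1 + (m + 1) = 2 * m + 1 + 1 by ring, pow_succ,
            ← hm, hn, one_mul]
        rw [e, map_mul, map_mul (φ c), x _ (by rw [map_mul, ← act_mul, sq a ha, map_one, mul_comm]; rfl),
          y _ (by rw [map_mul, map_inv, ← act_mul, sq a ha, map_one, mul_inv_rev, inv_inv]; rfl)])
    have s2 : ∀ x, ∃ s, (∀ g, s * g = g * s) ∧ x * a * x⁻¹ = a * s := fun x => by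
      have un : ∀ b : H, (∀ v, φ b v = v → φ a v = v ∨ φ a v = v⁻¹) →
          (∀ v, φ b v = v → φ (x * a * x⁻¹) v = v) ∨ ∀ v, φ b v = v → φ (x * a * x⁻¹) v = v⁻¹ := fun b hb =>
        (SubgroupClass.subset_union (H := Fx φ fun _ : Unit => b) (K := Fx φ fun _ : Unit => x * a * x⁻¹)
          (L := Fx φ fun _ : Unit => x * a * x⁻¹ * z)).1 (fun v hv => (s1 x v (hb v (hv ()))).imp (fun e _ => e) fun e _ => e)
          |>.imp (fun e v hv => e (fun _ => hv) ()) fun e v hv => by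
            have := e (fun _ => hv) ()
            rw [act_mul, zi, map_inv] at this; exact inv_eq_iff_eq_inv.1 this
      have m : ∀ v, φ a v = v⁻¹ → φ (a * z) v = v := fun v e => by rw [act_mul, zi, map_inv, e, inv_inv]
      rcases un a fun v e => .inl e with k | k <;> rcases un (a * z) fun v e => .inr (by
        rw [act_mul, zi, map_inv] at e; exact inv_eq_iff_eq_inv.1 e) with l | l
      · have := ex _ 1 (fun v e => by rw [k v e, map_one]; rfl) fun v e => by rw [l v (m v e), map_one]; rfl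
        rw [conj_eq_one_iff'] at this; exact absurd (this ▸ one_mem _) az
      · exact ⟨1, by simp, ex _ _ (fun v e => by rw [k v e, mul_one, e]) fun v e => by rw [l v (m v e), mul_one, e]⟩
      · exact ⟨z, zc, ex _ _ (fun v e => by rw [k v e, act_mul, zi, map_inv, e]) fun v e => by rw [l v (m v e), m v e]⟩
      · have := ex _ z (fun v e => by rw [k v e, zi]) fun v e => by rw [l v (m v e), zi]
        exact absurd (by simpa [mul_assoc] using nz.conj_mem' (x * a * x⁻¹) (by rw [this]; exact mem_zpowers z) x) az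
    refine az ((cu a (sq a ha) (fun e => az (e ▸ one_mem _)) (le_top.trans (hp.ge.trans (commutator_le.2 fun x _ y _ => ?_)))) ▸
      mem_zpowers _)
    obtain ⟨s, c1, e1⟩ := s2 x⁻¹
    obtain ⟨t, c2, e2⟩ := s2 y⁻¹
    have k : ∀ {x y s t : H}, (∀ g, t * g = g * t) → x⁻¹ * a * x⁻¹⁻¹ = a * s → y⁻¹ * a * y⁻¹⁻¹ = a * t →
        x⁻¹ * (y⁻¹ * a * y) * x = a * s * t := fun {x y s t} c e1 e2 => by
      rw [inv_inv] at e1 e2
      rw [e2, ← e1, mul_assoc _ x t, ← c x]; group
    have := (k c2 e1 e2).trans (by rw [mul_assoc, c1, ← mul_assoc, ← k c1 e2 e1])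
    rw [mem_C1, commutatorElement_def]
    calc x * y * x⁻¹ * y⁻¹ * a = x * y * (x⁻¹ * (y⁻¹ * a * y) * x) * x⁻¹ * y⁻¹ := by group
      _ = _ := by rw [this]; group
  have hP' := H22.hall_map hP (QuotientGroup.mk' (zpowers z))
  rw [map_top_of_surjective _ (QuotientGroup.mk'_surjective _)] at hP'
  have hp' : ⁅(⊤ : Subgroup (H ⧸ zpowers z)), (⊤ : Subgroup (H ⧸ zpowers z))⁆ = ⊤ := by
    rw [← map_top_of_surjective _ (QuotientGroup.mk'_surjective (zpowers z)), ← map_commutator, hp]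
  have := Fact.mk Nat.prime_two
  have kn := (H22.gw_perf (H22.ds_of_sylow hP' cd) (by
    rw [← pPrimeCore_eq Nat.prime_two]
    refine H9.pPrimeCore_quotient_central_eq_bot (eq_bot_iff.2 fun g hg => tr g fun v => ?_) _ hz'
      (piGrp_of_prime Nat.prime_two cz).isPGroup
    rw [pPrimeCore_eq Nat.prime_two] at hg
    exact pcore_pi.le_of_relIndex (H := St φ v) (PiNat.compl_compl (((h v).of_dvd (relIndex_top_right _).dvd).of_dvd
      (pcore_nml.relIndex_dvd' le_top))) hg) hp' (fun e => ns (solv_top_iff.2 (by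
        have := (cyc_zpowers (x := z)).solv
        have : Group.IsSolvable (H ⧸ zpowers z) := solv_top_iff.1 (e ▸ solv_bot)
        exact Group.isSolvable_of_ker_le_range (zpowers z).subtype (QuotientGroup.mk' (zpowers z)) (by simp))))).of_equiv topEquiv.symm
  refine z1 (tr z fun v => (?_ : v = 1) ▸ map_one _)
  have z0 := cen z z1 (le_C1_iff.2 hz.2)
  rcases kn with ⟨F, _, _, o, -, ⟨e⟩⟩ | ⟨⟨e⟩⟩
  · have : Group.IsPerfect H := ⟨hp⟩
    have k : (e.toMonoidHom.comp (QuotientGroup.mk' (zpowers z))).ker = zpowers z := by ext; simp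
    obtain ⟨e2⟩ := H22.equiv_SL2_of_cover o (e.toMonoidHom.comp (QuotientGroup.mk' _))
      (e.surjective.comp (QuotientGroup.mk'_surjective _)) (k.le.trans hz') (by rw [k, cz])
    obtain ⟨r, _⟩ := CharP.exists F
    have hr := Fact.mk (CharP.char_is_prime F r)
    refine sl2_orb (r := r) hq hV (fun d => hc ?_) (φ.comp e2.symm.toMonoidHom) (fun u d => ?_) (fun u hu => z0 u ?_) v
    · rw [Nat.card_congr e2.toEquiv, H10.card_SL2, mul_assoc]; exact d.mul_right _
    · rw [show St (φ.comp e2.symm.toMonoidHom) u = (St φ u).comap e2.symm.toMonoidHom from rfl,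
        index_comap_of_surjective _ e2.symm.surjective] at d
      obtain rfl := (h u).eq_of_dvd hr.1 d
      exact o.not_two_dvd_nat (H24.char_dvd_card 2)
    · simpa using hu (e2 z)
  · have sj : Function.Surjective (e.toMonoidHom.comp (QuotientGroup.mk' (zpowers z))) :=
      e.surjective.comp (QuotientGroup.mk'_surjective _)
    have t := congrArg (comap (e.toMonoidHom.comp (QuotientGroup.mk' (zpowers z))))
      (a7_two_index ((h v).of_dvd (index_map_dvd _ sj)))
    rw [comap_map_eq, comap_top, show MonoidHom.ker _ = zpowers z by ext; simp] at t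
    have := CP.der_of_abel ⟨by rw [C_zpowers]; exact fun g _ => mem_C1.2 (zc g).symm, t⟩ abel_zpowers
    exact z0 v ((hp.ge.trans (this.le.trans der_le)) (mem_top z))

theorem orb_perf_aux {p q : ℕ} (hp : p.Prime) (hq : q.Prime) (n : ℕ) : ∀ {H : Type u} {V : Type u} [Group H] [Finite H]
    [CommGroup V] [Finite V] (φ : H →* MulAut V), Nat.card V = n → IsPGroup q V → ¬ q ∣ Nat.card H →
    ⁅(⊤ : Subgroup H), (⊤ : Subgroup H)⁆ = ⊤ → (∀ v, PiNat {p} (St φ v).index) → ∀ g v, φ g v = v := by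
  induction n using Nat.strong_induction_on with | _ n ih => ?_
  intro H V _ _ _ _ φ hn hV hc hf h
  have sub : ∀ W : Subgroup V, (∀ g, ∀ w ∈ W, φ g w ∈ W) → W ≠ ⊤ → ∀ g, ∀ w ∈ W, φ g w = w := fun W i t g w hw => by
    let ψ : H →* MulAut W := ⟨⟨fun g => ⟨⟨fun w => ⟨φ g w, i _ _ w.2⟩, fun w => ⟨φ g⁻¹ w, i _ _ w.2⟩,
      fun w => Subtype.ext (act_inv φ g w), fun w => Subtype.ext (act_inv' φ g w)⟩, fun a b => Subtype.ext (map_mul _ _ _)⟩,
      MulEquiv.ext fun w => Subtype.ext (by simp)⟩, fun a b => MulEquiv.ext fun w => Subtype.ext (act_mul φ a b w)⟩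
    refine congrArg Subtype.val (ih _ (by rw [← hn, ← card_top (G := V)]; exact card_lt t.lt_top) ψ rfl (hV.to_subgroup W) hc hf
      (fun v => ?_) g ⟨w, hw⟩)
    rw [show St ψ v = St φ v from Subgroup.ext fun g => Subtype.ext_iff]; exact h v
  by_cases irr : ∀ W : Subgroup V, (∀ g, ∀ w ∈ W, φ g w ∈ W) → W = ⊥ ∨ W = ⊤
  · have sj := φ.rangeRestrict_surjective
    have hc' : ¬ q ∣ Nat.card φ.range := fun d => hc (d.trans (card_dvd_of_surjective _ sj))
    have hf' : ⁅(⊤ : Subgroup φ.range), (⊤ : Subgroup φ.range)⁆ = ⊤ := by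
      rw [← map_top_of_surjective _ sj, ← map_commutator, hf]
    have h' : ∀ v, PiNat {p} (St φ.range.subtype v).index := fun v => by
      rw [← index_comap_of_surjective _ sj]; exact h v
    have : (⊤ : Subgroup φ.range) = ⊥ := by
      by_cases o : 2 ∣ Nat.card φ.range
      · have q2 : q ≠ 2 := fun e => hc' (e ▸ o)
        obtain ⟨t, -, ht⟩ := cauchy (H := (⊤ : Subgroup φ.range)) Nat.prime_two (by rwa [card_top])
        obtain ⟨v, hv⟩ := even_index (φ := φ.range.subtype) (t := t) hq q2 hV (by rw [← sq, ← ht, pow_orderOf_eq_one])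
          fun e => by rw [show t = 1 from Subtype.ext e] at ht; simp at ht
        obtain rfl := (h' v).eq_of_dvd Nat.prime_two hv
        exact two_irr hq q2 hV hc' hf' Subtype.val_injective (fun W i => irr W fun g => i ⟨_, g, rfl⟩) h'
      · exact Solv.eq_bot_of_le_der (solv_top_iff.2 (Cfsg.Agent.S0205.result (Nat.odd_iff.2 (by omega)))) hf'.ge
    intro g v
    rw [show φ g = 1 from congrArg Subtype.val (eq_one_of_eq_bot this (mem_top (φ.rangeRestrict g)))]; rfl
  push Not at irr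
  obtain ⟨W, i, b, t⟩ := irr
  have := Fintype.ofFinite H
  let D : Subgroup V := closure {u | ∃ g v, u = v⁻¹ * φ g v}
  have cp : ∀ (w : V) (m : ℕ), m ∣ Nat.card H → w ^ m = 1 → w = 1 := fun w m d e => by
    obtain ⟨k, hk⟩ := hV w
    have := pow_gcd_eq_one.2 ⟨e, hk⟩
    rwa [(((Nat.Prime.coprime_iff_not_dvd hq).2 hc).symm.coprime_dvd_left d).pow_right k, pow_one] at this
  have hD : D ≠ ⊤ := fun e => b (eq_bot_iff.2 fun w hw => by
    let N : V →* V := ⟨⟨fun v => ∏ g, φ g v, by simp⟩, fun a b => by simp [Finset.prod_mul_distrib]⟩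
    have : D ≤ N.ker := (closure_le _).2 (by
      rintro _ ⟨g, v, rfl⟩
      rw [SetLike.mem_coe, MonoidHom.mem_ker, map_mul, map_inv, inv_mul_eq_one]
      exact (Fintype.prod_equiv (Equiv.mulRight g) _ _ fun x => (act_mul φ x g v).symm).symm)
    have k : ∏ g, φ g w = 1 := this (e ▸ mem_top w)
    simp only [sub W i t _ w hw, Finset.prod_const, Finset.card_univ] at k
    exact cp w _ Nat.card_eq_fintype_card.symm.dvd k)
  have iD : ∀ g, ∀ w ∈ D, φ g w ∈ D := fun g w hw => by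
    rw [← mul_inv_cancel_left w (φ g w)]; exact mul_mem hw (subset_closure ⟨g, w, rfl⟩)
  intro g v
  have u := sub D iD hD g _ (subset_closure ⟨g, v, rfl⟩)
  have : ∀ m : ℕ, φ (g ^ m) v = v * (v⁻¹ * φ g v) ^ m := fun m => by
    induction m with
    | zero => simp
    | succ m k => rw [pow_succ', act_mul, k, map_mul, map_pow, u, pow_succ', ← mul_assoc, mul_inv_cancel_left]
  have k := this (orderOf g)
  rw [pow_orderOf_eq_one, map_one, MulAut.one_apply, left_eq_mul] at k
  exact (inv_mul_eq_one.1 (cp _ _ (_root_.orderOf_dvd_natCard g) k)).symm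
end

/-- A `q'`-group acting faithfully on an abelian `q`-group with orbits of `p`-power length is solvable. -/
theorem solv_of_orb {G : Type u} [Group G] [Finite G] {p q : ℕ} {T V : Subgroup G} (hp : p.Prime) (hq : q.Prime)
    (hV : PiGrp {q} V) (ha : Abel V) (hT : PiGrp {q}ᶜ T) (hn : T ≤ N(V)) (hf : T ⊓ C(V) = ⊥)
    (h : ∀ v ∈ V, PiNat {p} (C1(v).relIndex T)) : Solv T := by
  by_contra ns
  obtain ⟨D, hD, nD, pD⟩ := H22.exists_perf ns
  have := ha.comm
  let _ : CommGroup V := { (inferInstance : Group V) with mul_comm := mul_comm' }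
  have n := hD.le.trans hn
  have := orb_perf_aux hp hq _ ((actf V).comp (inclusion n)) rfl hV.isPGroup
    ((piNat_compl_iff hq).1 (hT.of_le hD.le)) (H22.perfect_of_der pD).1 fun v => by
      refine (h v v.2).of_dvd ?_
      rw [← relIndex_inf_right (B := T)]
      refine Dvd.dvd.trans (dvd_of_eq ?_) (hD.relIndex_dvd' inf_le_right)
      refine congrArg index (Subgroup.ext fun g => ?_)
      rw [mem_subgroupOf, mem_inf, mem_C1, ← mul_inv_eq_iff_eq_mul, and_iff_left (hD.le g.2)]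
      exact Subtype.ext_iff
  refine nD ((?_ : D = ⊥) ▸ solv_bot)
  refine eq_bot_iff.2 (hf ▸ le_inf hD.le fun g hg => mem_C.2 fun v hv => ?_)
  exact (mul_inv_eq_iff_eq_mul.1 (congrArg Subtype.val (this ⟨g, hg⟩ ⟨v, hv⟩))).symm

end H5
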