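import Cfsg.Agent.H3.BG4a
import Cfsg.Agent.H1.BGCop
import Cfsg.Agent.H18.BG1

/-! An odd `p`-group `P ⊴ H` acting nontrivially on an abelian `p'`-group `V` has a vector whose centralizer lies in a
proper `H`-invariant subgroup of `P` (`exists_vec`); tools `indep`, `crt`, `dec`, `regE` (regular vectors for
extraspecial groups). -/

set_option autoImplicit false
open Cfsg H18 Subgroup
open H1 (Cop cop_of_pi cop_of_pi')
open scoped commutatorElement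

namespace H5

universe u
variable {G : Type u} [Group G] {A B E H P V Z : Subgroup G} {a b g x y z : G} {p : ℕ}

theorem conj_pow_eq (hz : a * z = z * a) (e : a * b * a⁻¹ = z * b) (n : ℕ) :
    a ^ n * b * (a ^ n)⁻¹ = z ^ n * b := by
  induction n with
  | zero => simp
  | succ n ih =>
    have c : a * z ^ n = z ^ n * a := (Commute.pow_right hz n).eq
    calc a ^ (n + 1) * b * (a ^ (n + 1))⁻¹ = a * (a ^ n * b * (a ^ n)⁻¹) * a⁻¹ := by rw [pow_succ']; group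
      _ = z ^ n * (a * b * a⁻¹) := by rw [ih, ← mul_assoc, c]; group
      _ = _ := by rw [e, pow_succ, mul_assoc]

variable [Finite G]

theorem dec (hZ : (Nat.card Z).Prime) (ha : a ∈ C(Z)) (h : ⁅a, b⁆ ∈ Z) (h1 : a ∉ C1(b)) (hg : ⁅g, b⁆ ∈ Z) :
    ∃ n : ℕ, (a ^ n)⁻¹ * g ∈ C1(b) := by
  classical
  rw [← zpowers_eq_of_prime hZ h fun e => h1 (mem_C1.2 (commutatorElement_eq_one_iff_mul_comm.1 e)),
    mem_zpowers_iff_mem_range_orderOf, Finset.mem_image] at hg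
  obtain ⟨n, -, e⟩ := hg
  have := conj_pow_eq (b := b) (ha _ h).symm (by simp [commutatorElement_def]) n
  rw [e, commutatorElement_def] at this
  refine ⟨n, mem_C1.2 ?_⟩
  calc (a ^ n)⁻¹ * g * b = (a ^ n)⁻¹ * (g * b * g⁻¹ * b⁻¹ * b) * g := by group
    _ = _ := by rw [← this]; group

theorem indep (hc : Cop A V) (hn : A ≤ C(B)) (h : V ⊓ C(B) ⊓ C(A) = ⊥) : V ⊓ C(B) ≤ ⁅V, A⁆ :=
  ((hc.sub inf_le_left (norm_inf hc.1 (norm_C (cent_norm hn)))).comm_eq_of_cent h).ge.trans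
    (comm_mono inf_le_left le_rfl)

omit [Finite G] in
theorem crt {ι : Type*} (hV : Abel V) (W : ι → Subgroup G) (w : ι → G) (hw : ∀ i, w i ∈ V)
    (ind : ∀ i j, i ≠ j → w j ∈ W i) (S : Finset ι) :
    ∃ v ∈ V, (∀ i ∈ S, v * (w i)⁻¹ ∈ W i) ∧ ∀ i ∉ S, v ∈ W i := by
  classical
  induction S using Finset.induction_on with
  | empty => exact ⟨1, one_mem _, by simp, fun _ _ => one_mem _⟩
  | insert k S hk ih =>
    obtain ⟨v, hv, h1, h2⟩ := ih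
    refine ⟨v * w k, mul_mem hv (hw k), fun i hi => ?_, fun i hi => ?_⟩
    · rcases Finset.mem_insert.1 hi with rfl | hi
      · simpa using h2 i hk
      · rw [mul_assoc, comm_of_cent hV (hw k) (inv_mem (hw i)), ← mul_assoc]
        exact mul_mem (h1 i hi) (ind i k fun e => hk (e ▸ hi))
    · rw [Finset.mem_insert, not_or] at hi
      exact mul_mem (h2 i hi.2) (ind i k hi.1)

theorem fpf_elt (hZ : (Nat.card Z).Prime) (h : V ⊓ C(Z) = ⊥) (hz : z ∈ Z) (hx : x ∈ V) (x1 : x ≠ 1)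
    (e : z ∈ C1(x)) : z = 1 := by_contra fun n => x1 (mem_bot.1 (h.le ⟨hx, by
  rw [← zpowers_eq_of_prime hZ hz n, C_zpowers]; exact mem_C1_comm.1 e⟩))

theorem regE (hp : p.Prime) (p2 : p ≠ 2) (hZ : Nat.card Z = p) (n : ℕ) : ∀ {P E V : Subgroup G}, Nat.card E = n →
    PiGrp {p} P → E ≤ P → (∀ x ∈ E, x ^ p = 1) → Z ≤ E → P ≤ C(Z) → ⁅P, E⁆ ≤ Z → Z(E) ≤ Z → Abel V →
    PiGrp {p}ᶜ V → P ≤ N(V) → V ≠ ⊥ → V ⊓ C(Z) = ⊥ → ∃ v ∈ V, v ≠ 1 ∧ P ⊓ C1(v) ≤ C(E) := by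
  induction n using Nat.strong_induction_on with
  | _ n ih =>
  intro P E V hn hP EP ex ZE PZ cm ZZ ab hV nV V0 fp
  have zp := hZ ▸ hp
  by_cases hE : E ≤ Z
  · obtain ⟨v, hv, v1⟩ := (bot_or_exists_ne_one V).resolve_left V0
    exact ⟨v, hv, v1, inf_le_left.trans (PZ.trans (C_anti hE))⟩
  have cmm : ∀ {a b : G}, a ∈ P → b ∈ E → ⁅a, b⁆ ∈ Z := fun h k => cm (commutator_mem_commutator h k)
  have cop : ∀ {A : Subgroup G}, A ≤ P → Cop A V := fun k => cop_of_pi (k.trans nV) (hP.of_le k) hV (Or.inr ab.solv)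
  obtain ⟨x, hx, x1, V1⟩ : ∃ x ∈ E, x ≠ 1 ∧ V ⊓ C1(x) ≠ ⊥ := by
    obtain ⟨t, ht, tZ⟩ := SetLike.not_le_iff_exists.1 hE
    have le : Z ⊔ zpowers t ≤ E := sup_le ZE (zpowers_le.2 ht)
    refine (exists_cent1_ne_bot ((cyc_of_prime zp).abel.sup abel_zpowers (cent_symm ((zpowers_le.2 (EP ht)).trans PZ)))
      (fun c => ?_) ((le.trans EP).trans nV) (cop (le.trans EP)).cop V0).imp fun _ k => ⟨le k.1, k.2⟩
    exact tZ (c.mem_of_pow le_sup_left (mem_sup_right (mem_zpowers t)) (hZ ▸ ex t ht))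
  have xZ : x ∉ Z := fun k => let ⟨v, hv, v1⟩ := (bot_or_exists_ne_one _).resolve_left V1
    x1 (fpf_elt zp fp k hv.1 v1 (mem_C1_comm.1 hv.2))
  obtain ⟨y, hy, yx⟩ : ∃ y ∈ E, y ∉ C1(x) := SetLike.not_le_iff_exists.1 fun k => xZ (ZZ ⟨hx, le_C1_iff.1 k⟩)
  have xy : x ∉ C1(y) := mt mem_C1_comm.1 yx
  have cE : C1(x) ⊓ C1(y) ⊓ C(E ⊓ (C1(x) ⊓ C1(y))) ≤ C(E) := fun g hg => mem_C.2 fun a ha => by
    obtain ⟨m, e1⟩ := dec zp (PZ (EP hy)) (cmm (EP hy) hx) yx (cmm (EP ha) hx)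
    have k := mul_mem (inv_mem (pow_mem hy m)) ha
    obtain ⟨n, e2⟩ := dec zp (PZ (EP hx)) (cmm (EP hx) hy) xy (cmm (EP k) hy)
    have : (x ^ n)⁻¹ * ((y ^ m)⁻¹ * a) ∈ C1(g) := le_C1_iff.2 hg.2
      (mem_inf.2 ⟨mul_mem (inv_mem (pow_mem hx n)) k, mem_inf.2 ⟨mul_mem (inv_mem (pow_mem C1_self n)) e1, e2⟩⟩)
    rw [mul_mem_cancel_left (inv_mem (pow_mem (mem_C1_comm.1 hg.1.1) n)),
      mul_mem_cancel_left (inv_mem (pow_mem (mem_C1_comm.1 hg.1.2) m))] at this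
    exact mem_C1.1 this
  have Zc : Z ≤ C1(x) ⊓ C1(y) := le_inf (le_C1_iff.2 (PZ (EP hx))) (le_C1_iff.2 (PZ (EP hy)))
  obtain ⟨u, ⟨uV, ux⟩, u1, hu⟩ := ih _ (hn ▸ card_lt (lt_of_le_of_ne inf_le_left fun e => xy (e.ge hx).2.2))
    (P := P ⊓ (C1(x) ⊓ C1(y))) (E := E ⊓ (C1(x) ⊓ C1(y))) (V := V ⊓ C1(x)) rfl hP.inf_left (inf_le_inf_right _ EP)
    (fun x h => ex x h.1) (le_inf ZE Zc) (inf_le_left.trans PZ) ((comm_mono inf_le_left inf_le_left).trans cm)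
    (fun w h => ZZ ⟨h.1.1, cE ⟨h.1.2, h.2⟩⟩) (ab.mono inf_le_left) hV.inf_left
    (norm_inf (inf_le_left.trans nV) (norm_C1 (inf_le_right.trans inf_le_left))) V1
    (eq_bot_iff.2 (fp ▸ inf_le_inf_right _ inf_le_left))
  have I : ∀ t ∈ Z, ∀ s ∈ Z, t ≠ s → V ⊓ C1(s * x) ≤ ⁅V, zpowers (t * x)⁆ := fun t ht s hs ts => by
    rw [← C_zpowers]
    refine indep (cop (zpowers_le.2 (EP (mul_mem (ZE ht) hx)))) ?_ (eq_bot_iff.2 fun w hw => by_contra fun w1 => ts ?_)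
    · rw [C_zpowers, zpowers_le]
      exact mul_mem (le_C1_iff.2 (PZ (EP (mul_mem (ZE hs) hx))) ht)
        (mem_C1_comm.1 (mul_mem (Zc hs).1 C1_self))
    rw [C_zpowers, C_zpowers] at hw
    have := mul_mem (mem_C1_comm.1 hw.2) (inv_mem (mem_C1_comm.1 hw.1.2))
    exact mul_inv_eq_one.1 (fpf_elt zp fp (mul_mem ht (inv_mem hs)) hw.1.1 w1 (by simpa [mul_assoc] using this))
  have J : ∀ t ∈ Z, ∀ w ∈ ⁅V, zpowers (t * x)⁆, w ∈ C1(t * x) → w = 1 := fun t ht w h1 h2 =>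
    have c := cop (zpowers_le.2 (EP (mul_mem (ZE ht) hx)))
    mem_bot.1 ((H1.abel_comm_inf_cent ab c.1 c.cop).le ⟨h1, C_zpowers.ge h2⟩)
  have cj1 : ∀ g ∈ P, ∀ t ∈ Z, ∀ w ∈ V ⊓ C1(t * x), g * w * g⁻¹ ∈ V ⊓ C1(t * ⁅g, x⁆ * x) := fun g hg t ht w hw => by
    refine ⟨conj_mem nV hg hw.1, mem_C1.2 ?_⟩
    have e : t * ⁅g, x⁆ * x = g * (t * x) * g⁻¹ := by
      rw [commutatorElement_def, ← mul_assoc g, ← PZ hg t ht]; group
    rw [e]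
    calc _ = g * (w * (t * x)) * g⁻¹ := by group
      _ = _ := by rw [mem_C1.1 hw.2]; group
  have o := one_mem Z
  have zZ := cmm (EP hy) hx
  have z1 : (1 : G) ≠ ⁅y, x⁆ := fun e => yx (mem_C1.2 (commutatorElement_eq_one_iff_mul_comm.1 e.symm))
  have hu0 : u ∈ V ⊓ C1(1 * x) := ⟨uV, by rwa [one_mul]⟩
  have hu1 := cj1 y (EP hy) 1 o u hu0
  rw [one_mul] at hu1
  refine ⟨u * (y * u * y⁻¹), mul_mem uV hu1.1, fun e => u1 (J 1 o u ?_ hu0.2), fun g ⟨hg, gv⟩ => ?_⟩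
  · rw [eq_inv_of_mul_eq_one_left e]; exact inv_mem (I 1 o _ zZ z1 hu1)
  have wZ := cmm hg hx
  have g0 := cj1 g hg 1 o u hu0
  have g1 := cj1 g hg _ zZ _ hu1
  rw [one_mul] at g0
  have e : u * (y * u * y⁻¹) = g * u * g⁻¹ * (g * (y * u * y⁻¹) * g⁻¹) := by
    calc _ = g * (u * (y * u * y⁻¹)) * g⁻¹ := by rw [mem_C1.1 gv, mul_inv_cancel_right]
      _ = _ := by group
  have w1 : ⁅g, x⁆ = 1 := by
    by_contra w1
    by_cases k : ⁅y, x⁆ * ⁅g, x⁆ = 1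
    · refine u1 (conj_eq_one_iff'.1 (J _ zZ _ ?_ hu1.2))
      rw [eq_inv_mul_iff_mul_eq.2 e]
      refine mul_mem (inv_mem (I _ zZ 1 o z1.symm hu0)) (mul_mem (I _ zZ _ wZ (fun e => ?_) g0)
        (I _ zZ _ (mul_mem zZ wZ) (k ▸ z1.symm) g1))
      rw [← e, ← pow_two, ← orderOf_dvd_iff_pow_eq_one] at k
      have := Fact.mk hp
      rw [orderOf_eq_prime (ex _ (ZE zZ)) z1.symm] at k
      exact p2 ((Nat.prime_dvd_prime_iff_eq hp Nat.prime_two).1 k)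
    refine u1 (J 1 o u ?_ hu0.2)
    rw [eq_mul_inv_iff_mul_eq.2 e]
    exact mul_mem (mul_mem (I 1 o _ wZ (Ne.symm w1) g0) (I 1 o _ (mul_mem zZ wZ) (Ne.symm k) g1))
      (inv_mem (I 1 o _ zZ z1 hu1))
  rw [w1] at g0 g1
  rw [mul_one] at g1
  have gu : u⁻¹ * (g * u * g⁻¹) = 1 := J 1 o _ (by
    rw [show u⁻¹ * (g * u * g⁻¹) = y * u * y⁻¹ * (g * (y * u * y⁻¹) * g⁻¹)⁻¹ by
      rw [eq_mul_inv_iff_mul_eq, mul_assoc, ← e, inv_mul_cancel_left]]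
    exact I 1 o _ zZ z1 (mul_mem hu1 (inv_mem g1))) (mul_mem (inv_mem hu0.2) g0.2)
  rw [inv_mul_eq_one] at gu
  rw [← gu, mul_right_inj] at e
  have gx : g ∈ C1(x) := mem_C1.2 (commutatorElement_eq_one_iff_mul_comm.1 w1)
  have gu' : g ∈ C1(u) := mem_C1.2 (eq_mul_inv_iff_mul_eq.1 gu).symm
  have gy : ⁅g⁻¹, y⁻¹⁆ = 1 := fpf_elt zp fp (cmm (inv_mem hg) (inv_mem hy)) uV u1 (by
    rw [commutatorElement_def, inv_inv, inv_inv, mul_assoc, mul_assoc]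
    refine mul_mem (inv_mem gu') (mem_C1.2 ?_)
    calc _ = y⁻¹ * (g * (y * u * y⁻¹) * g⁻¹) * (g * y) := by group
      _ = _ := by rw [← e]; group)
  have gy' : g ∈ C1(y) := by
    rw [← C1_inv, ← inv_mem_iff]; exact mem_C1.2 (commutatorElement_eq_one_iff_mul_comm.1 gy)
  exact cE ⟨⟨gx, gy'⟩, hu ⟨⟨hg, gx, gy'⟩, gu'⟩⟩

theorem cocyc (hp : p.Prime) (hD : Elem p A) (hc : Cop A V) (V0 : V ≠ ⊥) :
    ∃ B ≤ A, V ⊓ C(B) ≠ ⊥ ∧ (B = ⊥ → Cyc A) ∧ ∀ z ∈ A, z ∉ B → A ≤ B ⊔ zpowers z := by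
  by_contra! h
  refine V0 (eq_bot_iff.2 (coprime_abelian_gen_cent hD.1 hc.1 hc.cop fun B hB ⟨a, ha, e⟩ => eq_bot_iff.1 (by_contra fun k => ?_)))
  obtain ⟨z, hz, zB, n⟩ := h B hB k fun k => by rw [← e, k, bot_sup_eq]; exact cyc_zpowers
  obtain ⟨b, hb, c, hc, rfl⟩ := (mem_sup_of_cent (cent_mono hD.1 hB (zpowers_le.2 ha))).1 (e.ge hz)
  have c1 : c ≠ 1 := by rintro rfl; exact zB (by simpa using hb)
  have a1 : a ≠ 1 := by rintro rfl; exact c1 (by simpa using hc)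
  refine n (e.ge.trans (sup_le le_sup_left ?_))
  rw [← zpowers_eq_of_prime ((card_zpowers_of_pow hp (hD.2 a ha) a1).symm ▸ hp) hc c1, zpowers_le]
  exact (mul_mem_cancel_left (mem_sup_left hb)).1 (mem_sup_right (mem_zpowers _))

omit [Finite G] in
theorem exists_vec_aux (hp : p.Prime) (p2 : p ≠ 2) (n : ℕ) : ∀ {G : Type u} [Group G] [Finite G] {H P V : Subgroup G},
    Nat.card V + Nat.card P = n → PiGrp {p} P → P ⊴ H → Abel V → PiGrp {p}ᶜ V → H ≤ N(V) → ¬ P ≤ C(V) →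
    ∃ v ∈ V, ∃ M < P, H ≤ N(M) ∧ P ⊓ C1(v) ≤ M := by
  induction n using Nat.strong_induction_on with
  | _ n ih =>
  intro G _ _ H P V hn hP nP ab hV nV nc
  have cop : ∀ {A : Subgroup G}, A ≤ P → Cop A V := fun k =>
    cop_of_pi ((k.trans nP.le).trans nV) (hP.of_le k) hV (Or.inr ab.solv)
  by_cases h1 : ∃ W < V, H ≤ N(W) ∧ ¬ P ≤ C(W)
  · obtain ⟨W, lt, a, b⟩ := h1
    obtain ⟨v, hv, k⟩ := ih _ (hn ▸ Nat.add_lt_add_right (card_lt lt) _) rfl hP nP (ab.mono lt.le)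
      (hV.of_le lt.le) a b
    exact ⟨v, lt.le hv, k⟩
  push Not at h1
  by_cases h2 : P ⊓ C(V) ≠ ⊥
  · have nH : H ≤ N(P ⊓ C(V)) := norm_inf nP.norm (norm_C nV)
    have nV' : V ≤ N(P ⊓ C(V)) := cent_norm (cent_symm inf_le_right)
    have nK : P ⊓ C(V) ⊴ P := ⟨inf_le_left, nP.le.trans nH⟩
    have d : V ⊓ (P ⊓ C(V)) = ⊥ := hV.inf_eq_bot' hP.inf_left
    obtain ⟨w, hw, M, lt, a, b⟩ := ih _ (by rw [← hn, card_quo_of_disj nV' d]; exact Nat.add_lt_add_left (card_quo_lt nK h2) _)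
      (H := H ⫽ (P ⊓ C(V))) rfl hP.mim nP.mim ab.mim hV.mim (mim_norm nV)
      fun k => nc (cent_of_quo_cent nK.norm nV' (nP.le.trans nV) d k)
    obtain ⟨v, hv, rfl⟩ := (mem_quo nV').1 hw
    refine ⟨v, hv, qpre (P ⊓ C(V)) M, lt_of_le_of_ne (qpre_le_of_le nK lt.le) fun e => lt.ne (quo_qpre.symm.trans (congrArg (· ⫽ (P ⊓ C(V))) e)),
      norm_of_quo_norm nH nml_qpre_self (by rwa [quo_qpre]), fun x hx => mem_of_cs_mem (nK.norm hx.1) nml_qpre_self ?_⟩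
    rw [quo_qpre]
    exact b ⟨(mem_quo nK.norm).2 ⟨x, hx.1, rfl⟩, mem_C1.2 (by
      rw [← mfun_mul (nK.norm hx.1) (nV' hv), ← mfun_mul (nV' hv) (nK.norm hx.1), mem_C1.1 hx.2])⟩
  rw [not_not] at h2
  have fpf : ∀ X ≤ P, X ≠ ⊥ → H ≤ N(X) → V ⊓ C(X) = ⊥ := fun X le X0 nX => by
    have c := cop le
    have : ⁅V, X⁆ = V := by_contra fun k => X0 (eq_bot_iff.2 (h2 ▸ le_inf le (cent_symm (c.cent_of_comm_cent (cent_symm
      (le.trans (h1 _ (lt_of_le_of_ne (comm_le_left c.1) k) (norm_comm nV nX))))))))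
    exact (congrArg (· ⊓ C(X)) this).symm.trans (H1.abel_comm_inf_cent ab c.1 c.cop)
  have P0 : P ≠ ⊥ := fun e => nc (e ▸ bot_le)
  have V0 : V ≠ ⊥ := fun e => nc (by simp [e])
  have ZP : Ω[p](Z(P)) ≤ P := omega_le.trans inf_le_left
  have nZ : H ≤ N(Ω[p](Z(P))) := norm_omega (norm_Z nP.norm)
  have fZ := fpf _ ZP (hP.omegaZ_ne_bot P0) nZ
  by_cases cZ : ¬ Cyc Ω[p](Z(P))
  · obtain ⟨B, le, B1, B0, hB⟩ := cocyc hp omegaZ_elem (cop ZP) V0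
    have PB : ∀ h ∈ H, P ≤ C(cj h B) := fun h k => omegaZ_cent.trans (C_anti ((cj_mono le).trans (cj_eq_self (nZ k)).le))
    have PB1 : P ≤ C(B) := omegaZ_cent.trans (C_anti le)
    obtain ⟨v, hv, M, lt, a, b⟩ := ih _ (hn ▸ Nat.add_lt_add_right (card_lt (lt_of_le_of_ne inf_le_left fun e =>
      cZ (B0 (eq_bot_iff.2 (h2 ▸ le_inf (le.trans ZP) (cent_symm (e.ge.trans inf_le_right))))))) _)
      (H := H ⊓ N(B)) (V := V ⊓ C(B)) rfl hP ⟨le_inf nP.le (cent_norm PB1), inf_le_left.trans nP.norm⟩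
      (ab.mono inf_le_left) hV.inf_left (norm_inf (inf_le_left.trans nV) (norm_C inf_le_right))
      fun k => B1 (eq_bot_iff.2 (fpf P le_rfl P0 nP.norm ▸ le_inf inf_le_left (cent_symm k)))
    choose r hr er using fun i : {X : Subgroup G // ∃ h ∈ H, cj h B = X} => i.2
    have hw : ∀ i, r i * v * (r i)⁻¹ ∈ V ⊓ C(i.1) := fun i =>
      ⟨conj_mem nV (hr i) hv.1, by rw [← er i, ← cj_C]; exact conj_mem_cj hv.2⟩
    have iZ : ∀ i : {X : Subgroup G // ∃ h ∈ H, cj h B = X}, i.1 ≤ Ω[p](Z(P)) := fun i =>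
      er i ▸ (cj_mono le).trans (cj_eq_self (nZ (hr i))).le
    have := Fintype.ofFinite {X : Subgroup G // ∃ h ∈ H, cj h B = X}
    obtain ⟨w, wV, k, -⟩ := crt ab (fun i : {X : Subgroup G // ∃ h ∈ H, cj h B = X} => ⁅V, i.1⁆) _ (fun i => (hw i).1)
      (fun i j ij => indep (cop ((iZ i).trans ZP)) (cent_mono omegaZ_elem.1 (iZ i) (iZ j)) (eq_bot_iff.2 (by
        rw [inf_assoc, ← C_sup, ← fZ]
        refine inf_le_inf_left _ (C_anti ?_)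
        obtain ⟨z, hz, zB⟩ := SetLike.not_le_iff_exists.1 fun k : i.1 ≤ j.1 => ij (Subtype.ext (eq_of_le_of_card_ge k (by
          rw [← er i, ← er j, card_cj, card_cj])))
        rw [← er j, mem_cj] at zB
        have := cj_mono (g := r j) (hB _ (conj_mem' nZ (hr j) (iZ i hz)) zB)
        rw [cj_eq_self (nZ (hr j)), cj_sup, er j, cj_zpowers] at this
        exact this.trans (sup_le_sup_left (zpowers_le.2 (by simpa [mul_assoc] using hz)) _))) (hw j)) Finset.univ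
    refine ⟨w, wV, ⨅ h ∈ H, cj h M, ((iInf₂_le 1 (one_mem _)).trans cj_one.le).trans_lt lt, fun g hg => mem_N_of_cj_le
      (le_iInf₂ fun h hh => ?_), le_iInf₂ fun h hh x hx => ?_⟩
    · rw [← mul_inv_cancel_left g h, cj_mul]
      exact cj_mono (iInf₂_le _ (mul_mem (inv_mem hg) hh))
    set i : {X : Subgroup G // ∃ h ∈ H, cj h B = X} := ⟨_, h, hh, rfl⟩
    have c := cop ((iZ i).trans ZP)
    have xi : x ∈ N(i.1) := cent_norm (PB h hh) hx.1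
    have xV := nV (nP.le hx.1)
    have e : (r i * v * (r i)⁻¹)⁻¹ * (x * (r i * v * (r i)⁻¹) * x⁻¹) = 1 := by
      refine mem_bot.1 ((H1.abel_comm_inf_cent ab c.1 c.cop).le (mem_inf.2 ⟨?_, mul_mem (inv_mem (mem_inf.1 (hw i)).2)
        (conj_mem_N (N_le_N_C xi) (hw i).2)⟩))
      have k1 := k i (Finset.mem_univ _)
      have k2 := conj_mem_N (norm_comm (zpowers_le.2 xV) (zpowers_le.2 xi) (mem_zpowers x)) k1
      have tV := (mem_inf.1 (hw i)).1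
      generalize r i * v * (r i)⁻¹ = t at k1 k2 tV ⊢
      have := mul_mem (inv_mem k2) k1
      rw [show (x * (w * t⁻¹) * x⁻¹)⁻¹ * (w * t⁻¹) = x * t * x⁻¹ * ((x * w * x⁻¹)⁻¹ * w) * t⁻¹ by group,
        mem_C1.1 hx.2, mul_inv_cancel_right, inv_mul_cancel, mul_one] at this
      rwa [comm_of_cent ab (inv_mem tV) (conj_mem_N xV tV)]
    have m : (r i)⁻¹ * h ∈ H ⊓ N(B) :=
      mem_inf.2 ⟨mul_mem (inv_mem (hr i)) hh, mem_N_iff_cj.2 (by rw [cj_mul, cj_eq_iff, inv_inv]; exact (er i).symm)⟩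
    rw [← mul_inv_cancel_left (r i) h, cj_mul, cj_eq_self (a m), mem_cj]
    refine b ⟨conj_mem' nP.norm (hr i) hx.1, mem_C1.2 ?_⟩
    rw [inv_mul_eq_one] at e
    calc _ = (r i)⁻¹ * (x * (r i * v * (r i)⁻¹) * x⁻¹) * x * r i := by group
      _ = _ := by rw [← e]; group
  rw [not_not] at cZ
  have hZ : Nat.card Ω[p](Z(P)) = p := by
    have := cZ.card_omega hp ((hP.of_le ZP).dvd_card (hP.omegaZ_ne_bot P0))
    rwa [omega_omega] at this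
  have ho : Odd (Nat.card P) := let ⟨k, e⟩ := hP.card_eq_pow; e ▸ (hp.odd_of_ne_two p2).pow
  have ex := H3.ohm_zTwo_pow hp hP ho
  have EP : Ω[p](Z₂(P)) ≤ P := omega_le.trans zTwo_le
  have nE : H ≤ N(Ω[p](Z₂(P))) := norm_omega (norm_zTwo nP.norm)
  have ZE : Ω[p](Z(P)) ≤ Ω[p](Z₂(P)) := omega_mono Z_le_zTwo
  have cm : ⁅P, Ω[p](Z₂(P))⁆ ≤ Ω[p](Z(P)) := H18.comm_comm.le.trans <| commutator_le.2 fun e he x hx => by
    have k := comm_zTwo_le (commutator_mem_commutator (omega_le he) hx)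
    have := conj_pow_eq (b := x) (k.2 e (EP he)) (by simp [commutatorElement_def]) p
    rw [ex e he] at this
    exact mem_omega k (by simpa using this.symm)
  have pr : ∀ D ≤ Ω[p](Z₂(P)), ¬ D ≤ Ω[p](Z(P)) → P ⊓ C(D) < P := fun D le k => lt_of_le_of_ne inf_le_left fun e =>
    k fun d hd => mem_omega ⟨EP (le hd), cent_symm (e.ge.trans inf_le_right) hd⟩ (ex d (le hd))
  by_cases hD : Z(Ω[p](Z₂(P))) ≤ Ω[p](Z(P))
  · obtain ⟨v, hv, v1, k⟩ := regE hp p2 hZ _ rfl hP EP ex ZE omegaZ_cent cm hD ab hV (nP.le.trans nV) V0 fZ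
    by_cases hE : Ω[p](Z₂(P)) ≤ Ω[p](Z(P))
    · refine ⟨v, hv, ⊥, bot_lt_iff_ne_bot.2 P0, by simp, eq_bot_iff.1 (by_contra fun k => ?_)⟩
      have c : Cyc P := by_contra fun c => (H3.ohm_odd_ucn2 hp hP ho c).1 (cZ.of_le hE)
      exact v1 (mem_bot.1 (fZ.le ⟨hv, le_C1_iff.1 (((omega_mono inf_le_left).trans
        (c.omega_le_of_ne_bot hP inf_le_left k)).trans inf_le_right)⟩))
    exact ⟨v, hv, _, pr _ le_rfl hE, norm_inf nP.norm (norm_C nE), le_inf inf_le_left k⟩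
  obtain ⟨B, le, B1, -, hB⟩ := cocyc hp ⟨abel_Z, fun x h => ex x h.1⟩ (cop (inf_le_left.trans EP)) V0
  obtain ⟨v, hv, v1⟩ := (bot_or_exists_ne_one _).resolve_left B1
  refine ⟨v, hv.1, _, pr _ inf_le_left hD, norm_inf nP.norm (norm_C (norm_Z nE)), fun x hx => ⟨hx.1, ?_⟩⟩
  obtain ⟨z, hz, zB⟩ := SetLike.not_le_iff_exists.1 fun k : Ω[p](Z(P)) ≤ B => v1 (mem_bot.1 (fZ.le ⟨hv.1, C_anti k hv.2⟩))
  refine C_anti (hB z ⟨ZE hz, cent_symm (EP.trans omegaZ_cent) hz⟩ zB) (C_sup.ge ⟨fun b hb => ?_, C_anti (zpowers_le.2 hz) (omegaZ_cent hx.1)⟩)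
  have bv : b ∈ C1(v) := le_C1_iff.2 hv.2 hb
  exact (commutatorElement_eq_one_iff_mul_comm.1 (fpf_elt (hZ.symm ▸ hp) fZ (cm (commutator_mem_commutator hx.1 (le hb).1)) hv.1 v1
    (mul_mem (mul_mem (mul_mem hx.2 bv) (inv_mem hx.2)) (inv_mem bv)))).symm

theorem exists_vec (hp : p.Prime) (p2 : p ≠ 2) (hP : PiGrp {p} P) (nP : P ⊴ H) (ab : Abel V) (hV : PiGrp {p}ᶜ V)
    (nV : H ≤ N(V)) (nc : ¬ P ≤ C(V)) : ∃ v ∈ V, ∃ M < P, H ≤ N(M) ∧ P ⊓ C1(v) ≤ M :=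
  exists_vec_aux hp p2 _ rfl hP nP ab hV nV nc

end H5
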