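import Cfsg.Agent.H17.FStar
import Cfsg.Agent.H18.BG1

/-! Sign form of the Thompson transfer lemma: an element `c` of even order `m` acting semiregularly on the cosets of
`T` in `K`, `|K : T| = m * odd`, lies outside `O²(K)` (`not_mem_oUp`; no normality of `T` is needed). -/

set_option autoImplicit false
open Cfsg H18 Subgroup Equiv

namespace H5

theorem sign_semireg {Ω : Type*} [Fintype Ω] [DecidableEq Ω] {σ : Perm Ω} {m k : ℕ} (hm : Even m) (h0 : m ≠ 0)
    (h1 : σ ^ m = 1) (h : ∀ n x, (σ ^ n) x = x → m ∣ n) (hc : Fintype.card Ω = m * k) (hk : Odd k) :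
    Perm.sign σ = -1 := by
  have a : σ.support = Finset.univ := Finset.eq_univ_of_forall fun x => Perm.mem_support.2 fun e => by
    rw [Nat.dvd_one.1 (h 1 x (by rwa [pow_one]))] at hm; exact absurd hm (by decide)
  have b : ∀ n ∈ σ.cycleType, n = m := fun n hn => by
    refine Nat.dvd_antisymm ((Perm.dvd_of_mem_cycleType hn).trans (orderOf_dvd_of_pow_eq_one h1)) ?_
    obtain ⟨c, τ, rfl, hd, hc, rfl⟩ := Perm.mem_cycleType_iff.1 hn
    obtain ⟨x, hx, -⟩ := id hc
    refine h _ x ?_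
    rw [hd.commute.mul_pow, ← hc.orderOf, pow_orderOf_eq_one, one_mul,
      Perm.pow_apply_eq_self_of_apply_eq_self ((hd x).resolve_left hx)]
  have c := σ.sum_cycleType
  rw [a, Finset.card_univ, hc, Multiset.eq_replicate_card.2 b, Multiset.sum_replicate, smul_eq_mul, mul_comm] at c
  rw [Perm.sign_of_cycleType, σ.sum_cycleType, a, Finset.card_univ, hc, Nat.eq_of_mul_eq_mul_left (Nat.pos_of_ne_zero h0) c]
  exact ((hm.mul_right k).add_odd hk).neg_one_pow

theorem not_mem_oUp {G : Type*} [Group G] [Finite G] {K T : Subgroup G} {c : G} {k : ℕ} (hm : Even (orderOf c))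
    (h : ∀ g ∈ K, ∀ n : ℕ, g * c ^ n * g⁻¹ ∈ T → c ^ n = 1) (hi : T.relIndex K = orderOf c * k) (hk : Odd k) :
    c ∉ H17.oUp 2 K := by
  classical
  intro hc
  have := Fintype.ofFinite (K ⧸ T.subgroupOf K)
  let f := Perm.sign.comp (MulAction.toPermHom K (K ⧸ T.subgroupOf K))
  obtain ⟨c, hf, rfl⟩ : c ∈ f.ker.map K.subtype := (H17.oUp_le_iff (M := f.ker.map K.subtype)).2 (fun g hg ho => ⟨⟨g, hg⟩, by
    have a : orderOf (f ⟨g, hg⟩) ∣ orderOf g := by rw [← Subgroup.orderOf_mk g hg]; exact orderOf_map_dvd _ _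
    exact orderOf_eq_one_iff.1 (Nat.eq_one_of_dvd_coprimes ((Nat.prime_two.coprime_iff_not_dvd).2 ho)
      (orderOf_dvd_of_pow_eq_one (Int.units_sq _)) a), rfl⟩) hc
  refine absurd (hf.symm.trans (sign_semireg hm (orderOf_pos _).ne' ?_ (fun n x hx => ?_)
    (by rw [← hi, Fintype.card_eq_nat_card]; rfl) hk)) (by decide)
  · rw [← map_pow, Subgroup.coe_subtype, Subgroup.orderOf_coe, pow_orderOf_eq_one, map_one]
  · induction x using QuotientGroup.induction_on with | H x => ?_
    rw [← map_pow] at hx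
    have := QuotientGroup.eq.1 (show ((x : K) : K ⧸ T.subgroupOf K) = ((c ^ n * x : K) : K ⧸ _) from hx.symm)
    exact orderOf_dvd_of_pow_eq_one (h (x : G)⁻¹ (inv_mem x.2) n (by simpa [mem_subgroupOf, mul_assoc] using this))

end H5
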